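import Mathlib.GroupTheory.Sylow
import Mathlib.GroupTheory.Nilpotent
import Cfsg.Agent.Lib.Helper55.Basic

set_option autoImplicit false

namespace Cfsg.Agent.Lib.Helper55

open scoped Pointwise

/-- Two Sylow `p`-subgroups of `G` contained in `M` are conjugate under `M`. -/
theorem sylow_conj_in_subgroup {G : Type*} [Group G] [Finite G] {p : ℕ} [Fact p.Prime]
    (P Q : Sylow p G) {M : Subgroup G} (hP : (P : Subgroup G) ≤ M) (hQ : (Q : Subgroup G) ≤ M) :
    ∃ m ∈ M, (Q : Subgroup G) = (P : Subgroup G).map (MulAut.conj m).toMonoidHom := by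
  obtain ⟨m, hm⟩ := MulAction.exists_smul_eq ↥M (P.subtype hP) (Q.subtype hQ)
  rw [Sylow.smul_subtype] at hm
  have h := Sylow.subtype_injective hm
  refine ⟨m, m.2, ?_⟩
  rw [← h]
  rfl

/-- If `g P g⁻¹ = P` as mapped subgroups then `g` normalizes `P`. -/
theorem mem_normalizer_of_map_conj_eq {G : Type*} [Group G] {P : Subgroup G} {g : G}
    (h : P.map (MulAut.conj g).toMonoidHom = P) : g ∈ Subgroup.normalizer (P : Set G) :=
  Subgroup.mem_normalizer_iff_map_conj_eq.2 h

/-- A `p`-subgroup `P` meeting `M` nontrivially lies in `M`, provided `M` contains the normalizer of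
every nontrivial subgroup of `P ⊓ M`. -/
theorem pgroup_le_of_normalizers_le {G : Type*} [Group G] [Finite G] {p : ℕ} [Fact p.Prime]
    {P M : Subgroup G} (hP : IsPGroup p ↥P)
    (hM : ∀ D : Subgroup G, D ≤ P ⊓ M → D ≠ ⊥ → Subgroup.normalizer (D : Set G) ≤ M)
    (hne : P ⊓ M ≠ ⊥) : P ≤ M := by
  have hnil : Group.IsNilpotent ↥P := hP.isNilpotent
  have hnc : NormalizerCondition ↥P := Group.normalizerCondition_of_isNilpotent
  rw [normalizerCondition_iff_only_full_group_self_normalizing] at hnc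
  have htop : (P ⊓ M).subgroupOf P = ⊤ := by
    apply hnc
    apply le_antisymm _ Subgroup.le_normalizer
    rw [← Subgroup.subgroupOf_normalizer_eq inf_le_left]
    intro n hn
    rw [Subgroup.mem_subgroupOf] at hn ⊢
    exact ⟨n.2, hM _ le_rfl hne hn⟩
  rw [Subgroup.subgroupOf_eq_top] at htop
  exact htop.trans inf_le_right

end Cfsg.Agent.Lib.Helper55
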