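import Cfsg.Agent.Lib.Helper55.FF9

set_option autoImplicit false
set_option linter.unusedSectionVars false

namespace Cfsg.Agent.Lib.Helper55

open Cfsg Subgroup
open scoped commutatorElement Pointwise
open Cfsg.Agent.Lib.Helper14 (IsElementaryAbelian.comm IsElementaryAbelian.isPGroup
  IsElementaryAbelian.mono isElementaryAbelian_iff)

variable {G : Type*} [Group G]

/-- `E = [K, A] A` -/
abbrev EE (K A : Subgroup G) : Subgroup G := ⁅K, A⁆ ⊔ A

/-- `W = [V, E]` -/
abbrev WW (V K A : Subgroup G) : Subgroup G := ⁅V, ⁅K, A⁆ ⊔ A⁆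

namespace FFS

variable [Finite G] {p : ℕ} [hp : Fact p.Prime] {V H K : Subgroup G}

theorem MinOff.prime_le_three (h : FFS p V H K) {A : Subgroup G} (hA : MinOff p V H A) :
    p = 2 ∨ p = 3 := by
  obtain ⟨x, P, -⟩ := MinOff.exists_pair h hA
  exact P.prime_le_three

theorem MinOff.natSL2 (h : FFS p V H K) {A : Subgroup G} (hA : MinOff p V H A) :
    NatSL2 p (EE K A) (WW V K A) := by
  obtain ⟨x, P, hE, -⟩ := MinOff.exists_pair h hA
  have := P.natSL2
  rwa [← hE] at this

theorem MinOff.card_W (h : FFS p V H K) {A : Subgroup G} (hA : MinOff p V H A) :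
    Nat.card ↥(WW V K A) = p ^ 2 := (MinOff.natSL2 h hA).card_W

theorem MinOff.faithful (h : FFS p V H K) {A : Subgroup G} (hA : MinOff p V H A) :
    EE K A ⊓ centralizer ((WW V K A : Subgroup G) : Set G) = ⊥ := by
  obtain ⟨x, P, hE, -⟩ := MinOff.exists_pair h hA
  have := P.faithful
  rwa [← hE] at this

theorem MinOff.irreducible (h : FFS p V H K) {A U : Subgroup G} (hA : MinOff p V H A)
    (hU : U ≤ WW V K A) (hKU : K ≤ normalizer (U : Set G)) : U = ⊥ ∨ U = WW V K A := by
  obtain ⟨x, P, hE, -⟩ := MinOff.exists_pair h hA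
  have := P.irreducible (U := U)
  rw [← hE] at this
  exact this hU hKU

theorem MinOff.dec1 (h : FFS p V H K) {A : Subgroup G} (hA : MinOff p V H A) :
    (V ⊓ centralizer ((EE K A : Subgroup G) : Set G)) ⊓ WW V K A = ⊥ := by
  obtain ⟨x, P, hE, d1, d2⟩ := MinOff.exists_pair h hA
  exact d1

theorem MinOff.dec2 (h : FFS p V H K) {A : Subgroup G} (hA : MinOff p V H A) :
    (V ⊓ centralizer ((EE K A : Subgroup G) : Set G)) ⊔ WW V K A = V := by
  obtain ⟨x, P, hE, d1, d2⟩ := MinOff.exists_pair h hA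
  exact d2

theorem MinOff.W_ne_bot (h : FFS p V H K) {A : Subgroup G} (hA : MinOff p V H A) :
    WW V K A ≠ ⊥ := by
  intro hb
  have := MinOff.card_W h hA
  rw [hb, card_bot] at this
  have h2 := hp.out.two_le
  nlinarith

theorem MinOff.W_le_V (h : FFS p V H K) {A : Subgroup G} (hA : MinOff p V H A) :
    WW V K A ≤ V :=
  Helper30.commutator_le_of_le_normalizer ((MinOff.E_le_H h hA).trans h.hHV)

theorem MinOff.K_le_NE (h : FFS p V H K) {A : Subgroup G} (hA : MinOff p V H A) :
    K ≤ normalizer ((EE K A : Subgroup G) : Set G) := by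
  apply le_normalizer_of_conj_mem
  intro k hk e he
  obtain ⟨r, hr, a, ha, rfl⟩ :=
    (Helper14.mem_sup_of_le_normalizer (normalizer_commutator_ge_right K A)).1 he
  have h1 : k * r * k⁻¹ ∈ ⁅K, A⁆ :=
    (mem_normalizer_iff.1 (normalizer_commutator_ge_left K A hk) r).1 hr
  have h2 : k * (r * a) * k⁻¹ = (k * r * k⁻¹) * ⁅k, a⁆ * a := by
    rw [commutatorElement_def]; group
  rw [h2]
  exact mul_mem (mul_mem ((le_sup_left : ⁅K, A⁆ ≤ EE K A) h1)
    ((le_sup_left : ⁅K, A⁆ ≤ EE K A) (commutator_mem_commutator hk ha)))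
    ((le_sup_right : A ≤ EE K A) ha)

theorem MinOff.K_le_NW (h : FFS p V H K) {A : Subgroup G} (hA : MinOff p V H A) :
    K ≤ normalizer ((WW V K A : Subgroup G) : Set G) :=
  Helper30.le_normalizer_commutator h.hKV (MinOff.K_le_NE h hA)

theorem MinOff.K_le_NC (h : FFS p V H K) {A : Subgroup G} (hA : MinOff p V H A) :
    K ≤ normalizer ((V ⊓ centralizer ((EE K A : Subgroup G) : Set G) : Subgroup G) : Set G) :=
  Helper30.le_normalizer_inf h.hKV
    ((MinOff.K_le_NE h hA).trans (normalizer_le_normalizer_centralizer' _))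

theorem MinOff.cv_inf_K (h : FFS p V H K) {A : Subgroup G} (hA : MinOff p V H A) :
    V ⊓ centralizer ((EE K A ⊓ K : Subgroup G) : Set G) =
      V ⊓ centralizer ((EE K A : Subgroup G) : Set G) := by
  refine (MinOff.irr h hA ?_ inf_le_right inf_le_left ?_).2
  · intro hb
    have h1 : ⁅K, A⁆ ≤ EE K A ⊓ K := le_inf le_sup_left (MinOff.R_le_K h hA)
    rw [hb] at h1
    exact MinOff.R_ne_bot h hA (le_bot_iff.1 h1)
  · exact Helper30.le_normalizer_inf le_normalizer ((MinOff.E_le_H h hA).trans h.hHK)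

/-- A `K`-invariant subgroup of `V` meeting `W` trivially is centralized by `E`. -/
theorem MinOff.le_cv_of_inf_eq_bot (h : FFS p V H K) {A U : Subgroup G} (hA : MinOff p V H A)
    (hUV : U ≤ V) (hKU : K ≤ normalizer (U : Set G)) (hUW : U ⊓ WW V K A = ⊥) :
    U ≤ V ⊓ centralizer ((EE K A : Subgroup G) : Set G) := by
  rw [← MinOff.cv_inf_K h hA]
  refine le_inf hUV ?_
  have h1 : ⁅U, EE K A ⊓ K⁆ ≤ U ⊓ WW V K A :=
    le_inf (Helper30.commutator_le_of_le_normalizer (inf_le_right.trans hKU))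
      (commutator_mono hUV inf_le_left)
  rw [hUW, le_bot_iff, commutator_eq_bot_iff_le_centralizer] at h1
  exact h1

theorem MinOff.E_le_of_W_eq (h : FFS p V H K) {A B : Subgroup G} (hA : MinOff p V H A)
    (hB : MinOff p V H B) (hW : WW V K A = WW V K B) : EE K B ≤ EE K A := by
  have hC1 : V ⊓ centralizer ((EE K B : Subgroup G) : Set G) ≤
      V ⊓ centralizer ((EE K A : Subgroup G) : Set G) :=
    MinOff.le_cv_of_inf_eq_bot h hA inf_le_left (MinOff.K_le_NC h hB)
      (by rw [hW]; exact MinOff.dec1 h hB)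
  have hC2 : V ⊓ centralizer ((EE K A : Subgroup G) : Set G) ≤
      V ⊓ centralizer ((EE K B : Subgroup G) : Set G) :=
    MinOff.le_cv_of_inf_eq_bot h hB inf_le_left (MinOff.K_le_NC h hA)
      (by rw [← hW]; exact MinOff.dec1 h hA)
  have hBA : B ≤ EE K A := by
    intro g hg
    have hgE : g ∈ EE K B := (le_sup_right : B ≤ EE K B) hg
    have hgN : g ∈ normalizer ((WW V K A : Subgroup G) : Set G) := by
      rw [hW]; exact (MinOff.natSL2 h hB).le_normalizer hgE
    obtain ⟨d, hd, hdc⟩ := (MinOff.natSL2 h hA).exists_mul hgN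
      (by rw [MinOff.pow_eq_one hB hg]; exact one_mem _)
    have h1 : V ≤ centralizer ((zpowers (d⁻¹ * g) : Subgroup G) : Set G) := by
      rw [← MinOff.dec2 h hA]
      refine sup_le ?_ ?_
      · rw [le_centralizer_iff, zpowers_le]
        refine mul_mem (inv_mem ?_) ?_
        · exact le_centralizer_iff.1 (inf_le_right :
            V ⊓ centralizer ((EE K A : Subgroup G) : Set G) ≤ _) hd
        · exact le_centralizer_iff.1 (hC2.trans inf_le_right) hgE
      · rw [le_centralizer_iff, zpowers_le]; exact hdc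
    have h2 : d⁻¹ * g ∈ H ⊓ centralizer (V : Set G) :=
      mem_inf.2 ⟨H.mul_mem (H.inv_mem (MinOff.E_le_H h hA hd)) (hB.1 hg),
        le_centralizer_iff.1 h1 (mem_zpowers _)⟩
    rw [h.hf, mem_bot] at h2
    have h3 : g = d := by
      calc g = d * (d⁻¹ * g) := by group
        _ = d := by rw [h2, mul_one]
    rw [h3]; exact hd
  refine sup_le ?_ hBA
  rw [commutator_le]
  intro k hk b hb
  rw [commutatorElement_def]
  exact mul_mem ((mem_normalizer_iff.1 (MinOff.K_le_NE h hA hk) b).1 (hBA hb)) (inv_mem (hBA hb))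

theorem MinOff.dichotomy (h : FFS p V H K) {A B : Subgroup G} (hA : MinOff p V H A)
    (hB : MinOff p V H B) :
    EE K A = EE K B ∨ (WW V K A ⊓ WW V K B = ⊥ ∧
      EE K B ≤ centralizer ((WW V K A : Subgroup G) : Set G) ∧
      EE K A ≤ centralizer ((WW V K B : Subgroup G) : Set G)) := by
  have hKU : K ≤ normalizer ((WW V K A ⊓ WW V K B : Subgroup G) : Set G) :=
    Helper30.le_normalizer_inf (MinOff.K_le_NW h hA) (MinOff.K_le_NW h hB)
  rcases MinOff.irreducible h hA inf_le_left hKU with h1 | h1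
  · right
    refine ⟨h1, ?_, ?_⟩
    · have := MinOff.le_cv_of_inf_eq_bot h hB (MinOff.W_le_V h hA) (MinOff.K_le_NW h hA) h1
      exact le_centralizer_iff.1 (this.trans inf_le_right)
    · have := MinOff.le_cv_of_inf_eq_bot h hA (MinOff.W_le_V h hB) (MinOff.K_le_NW h hB)
        (by rw [inf_comm]; exact h1)
      exact le_centralizer_iff.1 (this.trans inf_le_right)
  · left
    have h2 : WW V K A ≤ WW V K B := inf_eq_left.1 h1
    have h3 : WW V K A = WW V K B :=
      eq_of_le_of_card_ge h2 (by rw [MinOff.card_W h hA, MinOff.card_W h hB])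
    exact le_antisymm (MinOff.E_le_of_W_eq h hB hA h3.symm) (MinOff.E_le_of_W_eq h hA hB h3)

/-- `H` is generated by its minimal offenders. -/
theorem le_of_minOff_le (h : FFS p V H K)
    (hS3 : H = ⨆ A : {A : Subgroup G // A ≤ H ∧ IsBestOffenderOn p V A}, (A : Subgroup G))
    {X : Subgroup G} (hX : ∀ T, MinOff p V H T → T ≤ X) : H ≤ X := by
  rw [hS3]
  refine iSup_le ?_
  rintro ⟨A, hAH, hA⟩
  refine (h.le_iSup_minOff _ A rfl hAH hA).trans ?_
  refine iSup₂_le ?_
  rintro T ⟨-, hT⟩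
  exact hX T hT

section Gen

variable (hS3 : H = ⨆ A : {A : Subgroup G // A ≤ H ∧ IsBestOffenderOn p V A}, (A : Subgroup G))

include hS3

theorem MinOff.H_le_sup (h : FFS p V H K) {A : Subgroup G} (hA : MinOff p V H A) :
    H ≤ EE K A ⊔ (H ⊓ centralizer ((WW V K A : Subgroup G) : Set G)) := by
  apply h.le_of_minOff_le hS3
  intro B hB
  rcases MinOff.dichotomy h hA hB with h1 | ⟨-, h1, -⟩
  · exact (le_sup_right : B ≤ EE K B).trans (h1 ▸ le_sup_left)
  · exact (le_inf hB.1 ((le_sup_right : B ≤ EE K B).trans h1)).trans le_sup_right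

theorem MinOff.H_le_NW (h : FFS p V H K) {A : Subgroup G} (hA : MinOff p V H A) :
    H ≤ normalizer ((WW V K A : Subgroup G) : Set G) :=
  (MinOff.H_le_sup hS3 h hA).trans (sup_le (MinOff.natSL2 h hA).le_normalizer
    (inf_le_right.trans (centralizer_le_normalizer _)))

theorem MinOff.H_le_NE (h : FFS p V H K) {A : Subgroup G} (hA : MinOff p V H A) :
    H ≤ normalizer ((EE K A : Subgroup G) : Set G) := by
  intro g hg
  apply Helper14.mem_normalizer_of_map_conj_eq
  have hK : K.map (MulAut.conj g).toMonoidHom = K :=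
    Helper14.map_conj_of_mem_normalizer (h.hHK hg)
  have hE : (EE K A).map (MulAut.conj g).toMonoidHom = EE K (cjs g A) := by
    rw [Subgroup.map_sup, Subgroup.map_commutator, hK]
  have hW : (WW V K A).map (MulAut.conj g).toMonoidHom = WW V K (cjs g A) := by
    rw [Subgroup.map_commutator, h.map_conj_V hg, hE]
  have hW' : (WW V K A).map (MulAut.conj g).toMonoidHom = WW V K A :=
    Helper14.map_conj_of_mem_normalizer (MinOff.H_le_NW hS3 h hA hg)
  rw [hE]
  rcases MinOff.dichotomy h hA (MinOff.conj h hA hg) with h1 | ⟨h1, -, -⟩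
  · exact h1.symm
  · rw [← hW, hW', inf_idem] at h1
    exact absurd h1 (MinOff.W_ne_bot h hA)

theorem MinOff.comm_eq_bot (h : FFS p V H K) {A : Subgroup G} (hA : MinOff p V H A) :
    ⁅EE K A, H ⊓ centralizer ((WW V K A : Subgroup G) : Set G)⁆ = ⊥ := by
  rw [eq_bot_iff, ← MinOff.faithful h hA]
  refine le_inf ?_ ?_
  · exact Helper30.commutator_le_of_le_normalizer (inf_le_left.trans (MinOff.H_le_NE hS3 h hA))
  · rw [commutator_comm]
    refine (Helper30.commutator_le_of_le_normalizer ?_).trans inf_le_right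
    exact Helper30.le_normalizer_inf ((MinOff.E_le_H h hA).trans le_normalizer)
      ((MinOff.natSL2 h hA).le_normalizer.trans (normalizer_le_normalizer_centralizer' _))

theorem MinOff.commutator_V_le (h : FFS p V H K) {A : Subgroup G} (hA : MinOff p V H A) :
    ⁅V, H ⊓ centralizer ((WW V K A : Subgroup G) : Set G)⁆ ≤
      V ⊓ centralizer ((EE K A : Subgroup G) : Set G) := by
  rw [commutator_le]
  intro v hv c hc
  rw [← MinOff.dec2 h hA] at hv
  obtain ⟨u, hu, w, hw, rfl⟩ := (Helper14.mem_sup_of_commute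
    (H := V ⊓ centralizer ((EE K A : Subgroup G) : Set G)) (K := WW V K A)
    (fun c hc' u hu => h.hVc c (mem_inf.1 hc').1 u (MinOff.W_le_V h hA hu))).1 hv
  have hcw : w * c = c * w := (mem_centralizer_iff.1 (mem_inf.1 hc).2) w hw
  have hN : c ∈ normalizer ((V ⊓ centralizer ((EE K A : Subgroup G) : Set G) : Subgroup G) : Set G) :=
    Helper30.le_normalizer_inf h.hHV
      ((MinOff.H_le_NE hS3 h hA).trans (normalizer_le_normalizer_centralizer' _)) (mem_inf.1 hc).1
  have h1 : ⁅u * w, c⁆ = u * (c * u⁻¹ * c⁻¹) := by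
    rw [commutatorElement_def]
    calc u * w * c * (u * w)⁻¹ * c⁻¹ = u * (w * c) * w⁻¹ * u⁻¹ * c⁻¹ := by group
      _ = _ := by rw [hcw]; group
  rw [h1]
  exact mul_mem hu ((mem_normalizer_iff.1 hN _).1 (inv_mem hu))

end Gen

end FFS

end Cfsg.Agent.Lib.Helper55
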