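import Cfsg.Agent.Lib.Helper55.FF10

set_option autoImplicit false
set_option linter.unusedSectionVars false

namespace Cfsg.Agent.Lib.Helper55

open Cfsg Subgroup
open scoped commutatorElement Pointwise

variable {G : Type*} [Group G]

theorem commutator_iSup_le {ι : Sort*} {V : Subgroup G} (X : ι → Subgroup G)
    (hX : ∀ i, X i ≤ normalizer (V : Set G)) : ⁅V, ⨆ i, X i⁆ ≤ ⨆ i, ⁅V, X i⁆ := by
  apply commutator_le_of_le_stabQ
  refine iSup_le fun i => ?_
  exact le_stabQ_of_commutator_le (hX i) (le_iSup (fun i => ⁅V, X i⁆) i)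

namespace FFS

variable [Finite G] {p : ℕ} [hp : Fact p.Prime] {V H K : Subgroup G}

theorem MinOff.W_eq_inf_K (h : FFS p V H K) {A : Subgroup G} (hA : MinOff p V H A) :
    ⁅V, EE K A ⊓ K⁆ = WW V K A := by
  refine (MinOff.irr h hA ?_ inf_le_right inf_le_left ?_).1
  · intro hb
    have h1 : ⁅K, A⁆ ≤ EE K A ⊓ K := le_inf le_sup_left (MinOff.R_le_K h hA)
    rw [hb] at h1
    exact MinOff.R_ne_bot h hA (le_bot_iff.1 h1)
  · exact Helper30.le_normalizer_inf le_normalizer ((MinOff.E_le_H h hA).trans h.hHK)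

theorem exists_minOff (h : FFS p V H K)
    (hS3 : H = ⨆ A : {A : Subgroup G // A ≤ H ∧ IsBestOffenderOn p V A}, (A : Subgroup G))
    (hH1 : H ≠ ⊥) : ∃ A, MinOff p V H A := by
  by_contra hcon
  push Not at hcon
  exact hH1 (le_bot_iff.1 (h.le_of_minOff_le hS3 (fun T hT => absurd hT (hcon T))))

theorem structure_thm (h : FFS p V H K)
    (hS3 : H = ⨆ A : {A : Subgroup G // A ≤ H ∧ IsBestOffenderOn p V A}, (A : Subgroup G))
    {ι : Type*} (E : ι → Subgroup G) (hinj : Function.Injective E)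
    (hE : ∀ i, ∃ A, MinOff p V H A ∧ E i = EE K A)
    (hall : ∀ A, MinOff p V H A → ∃ i, E i = EE K A) :
    iSupIndep E ∧ (⨆ i, E i) = H ∧
      iSupIndep (fun o : Option ι => o.elim (V ⊓ centralizer (H : Set G)) (fun i => ⁅V, E i⁆)) ∧
      (V ⊓ centralizer (H : Set G)) ⊔ (⨆ i, ⁅V, E i⁆) = V := by
  have hEH : ∀ i, E i ≤ H := by
    intro i
    obtain ⟨A, hA, hi⟩ := hE i
    rw [hi]; exact MinOff.E_le_H h hA
  have hdich : ∀ i j, i ≠ j → E j ≤ centralizer ((⁅V, E i⁆ : Subgroup G) : Set G) := by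
    intro i j hij
    obtain ⟨A, hA, hi⟩ := hE i
    obtain ⟨B, hB, hj⟩ := hE j
    rcases MinOff.dichotomy h hA hB with h1 | ⟨-, h1, -⟩
    · exact absurd (hinj (by rw [hi, hj, h1])) hij
    · rw [hi, hj]; exact h1
  have hsup : (⨆ i, E i) = H := by
    apply le_antisymm (iSup_le hEH)
    apply h.le_of_minOff_le hS3
    intro T hT
    obtain ⟨i, hi⟩ := hall T hT
    exact ((le_sup_right : T ≤ EE K T).trans hi.ge).trans (le_iSup E i)
  have hWV : ∀ i, ⁅V, E i⁆ ≤ V := fun i =>
    Helper30.commutator_le_of_le_normalizer ((hEH i).trans h.hHV)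
  refine ⟨?_, hsup, ?_, ?_⟩
  · intro i
    obtain ⟨A, hA, hi⟩ := hE i
    rw [disjoint_iff, eq_bot_iff]
    have h1 : (⨆ (j) (_ : j ≠ i), E j) ≤ centralizer ((⁅V, E i⁆ : Subgroup G) : Set G) :=
      iSup₂_le fun j hj => hdich i j hj.symm
    refine (inf_le_inf_left _ h1).trans ?_
    rw [hi]
    exact (MinOff.faithful h hA).le
  · intro o
    rw [disjoint_iff, eq_bot_iff]
    cases o with
    | none =>
      have h1 : (⨆ (j : Option ι) (_ : j ≠ none),
          j.elim (V ⊓ centralizer (H : Set G)) (fun i => ⁅V, E i⁆)) ≤ ⁅V, K⁆ := by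
        refine iSup₂_le fun j hj => ?_
        cases j with
        | none => exact absurd rfl hj
        | some j =>
          obtain ⟨B, hB, hj'⟩ := hE j
          show ⁅V, E j⁆ ≤ ⁅V, K⁆
          rw [hj']
          exact (MinOff.W_eq_inf_K h hB).ge.trans (commutator_mono le_rfl inf_le_right)
      have h2 : V ⊓ centralizer (H : Set G) ≤ V ⊓ centralizer (K : Set G) :=
        inf_le_inf_left V (centralizer_le h.hKH)
      exact (inf_le_inf h2 h1).trans (h.decomp le_rfl).1.le
    | some i =>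
      obtain ⟨A, hA, hi⟩ := hE i
      have h1 : (⨆ (j : Option ι) (_ : j ≠ some i),
          j.elim (V ⊓ centralizer (H : Set G)) (fun i => ⁅V, E i⁆)) ≤
          V ⊓ centralizer ((E i : Subgroup G) : Set G) := by
        refine iSup₂_le fun j hj => ?_
        cases j with
        | none => exact inf_le_inf_left V (centralizer_le (hEH i))
        | some j =>
          have hji : j ≠ i := fun hc => hj (by rw [hc])
          exact le_inf (hWV j) (le_centralizer_iff.1 (hdich j i hji))
      show ⁅V, E i⁆ ⊓ _ ≤ ⊥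
      refine (inf_le_inf_left _ h1).trans ?_
      rw [hi, inf_comm]
      exact (MinOff.dec1 h hA).le
  · apply le_antisymm (sup_le inf_le_left (iSup_le hWV))
    set K' := ⨆ i, (E i ⊓ K) with hK'
    have hK'K : K' ≤ K := iSup_le fun i => inf_le_right
    have h1 : ⁅V, K'⁆ ≤ ⨆ i, ⁅V, E i⁆ := by
      refine (commutator_iSup_le _ (fun i => inf_le_right.trans h.hKV)).trans ?_
      exact iSup_mono fun i => commutator_mono le_rfl inf_le_left
    have h2 : V ⊓ centralizer (K' : Set G) ≤ V ⊓ centralizer (H : Set G) := by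
      refine le_inf inf_le_left ?_
      rw [le_centralizer_iff, ← hsup]
      refine iSup_le fun i => ?_
      obtain ⟨A, hA, hi⟩ := hE i
      rw [le_centralizer_iff]
      have h3 : V ⊓ centralizer (K' : Set G) ≤ V ⊓ centralizer ((E i ⊓ K : Subgroup G) : Set G) :=
        inf_le_inf_left V (centralizer_le (le_iSup (fun i => E i ⊓ K) i))
      rw [hi, MinOff.cv_inf_K h hA] at h3
      rw [hi]
      exact h3.trans inf_le_right
    calc V = (V ⊓ centralizer (K' : Set G)) ⊔ ⁅V, K'⁆ := (h.decomp hK'K).2.symm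
      _ ≤ _ := sup_le_sup h2 h1

end FFS

end Cfsg.Agent.Lib.Helper55
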