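import Cfsg.Agent.Lib.Helper55.FF10

set_option autoImplicit false
set_option linter.unusedSectionVars false

namespace Cfsg.Agent.Lib.Helper55

open Cfsg Subgroup
open scoped commutatorElement Pointwise
open Cfsg.Agent.Lib.Helper14 (IsElementaryAbelian.comm IsElementaryAbelian.isPGroup
  IsElementaryAbelian.mono isElementaryAbelian_iff)

variable {G : Type*} [Group G] [Finite G] {p : ℕ} [hp : Fact p.Prime]

section PrimeOrder

variable {K A : Subgroup G}

/-- `p`-subgroups of `K A` have order dividing `p`. -/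
theorem card_dvd_of_isPGroup' (hAK : A ≤ normalizer (K : Set G)) (hKp : (Nat.card ↥K).Coprime p)
    (hA : Nat.card ↥A = p) {P : Subgroup G} (hP : IsPGroup p ↥P) (hPle : P ≤ K ⊔ A) :
    Nat.card ↥P ∣ p := by
  have hKA : K ⊔ A ≤ normalizer (K : Set G) := sup_le le_normalizer hAK
  have h1 := Helper12.card_sup_mul_card_inf' P K (hPle.trans hKA)
  rw [Helper28.inf_eq_bot_of_isPGroup_of_coprime hP hKp, card_bot, mul_one] at h1
  have h2 : Nat.card ↥(P ⊔ K) ∣ Nat.card ↥(K ⊔ A) := card_dvd_of_le (sup_le hPle le_sup_left)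
  have h3 : Nat.card ↥(K ⊔ A) ∣ Nat.card ↥A * Nat.card ↥K := by
    rw [sup_comm]
    exact Helper80.card_sup_dvd' A K hAK
  rw [h1, hA] at *
  exact Nat.dvd_of_mul_dvd_mul_right Nat.card_pos (h2.trans h3)

/-- A nontrivial normal `p`-subgroup of `K A` is `A`. -/
theorem eq_of_normal_isPGroup (hAK : A ≤ normalizer (K : Set G)) (hKp : (Nat.card ↥K).Coprime p)
    (hA : Nat.card ↥A = p) {P : Subgroup G} (hP : IsPGroup p ↥P) (hPle : P ≤ K ⊔ A)
    (hAP : A ≤ normalizer (P : Set G)) (hP1 : P ≠ ⊥) : P = A := by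
  have hAp : IsPGroup p ↥A := IsPGroup.of_card (n := 1) (by rw [pow_one]; exact hA)
  have h1 : IsPGroup p ↥(A ⊔ P) := IsPGroup.to_sup_of_normal_right' hAp hP hAP
  have h2 := card_dvd_of_isPGroup' hAK hKp hA h1 (sup_le le_sup_right hPle)
  have h3 : A = A ⊔ P :=
    eq_of_le_of_card_ge le_sup_left (by rw [hA]; exact Nat.le_of_dvd hp.out.pos h2)
  have h4 : P ≤ A := by rw [h3]; exact le_sup_right
  rcases eq_bot_or_eq_of_le_of_card_prime hA h4 with h5 | h5
  · exact absurd h5 hP1
  · exact h5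

theorem pow_mem_of_mem_sup (hAK : A ≤ normalizer (K : Set G)) (hA : Nat.card ↥A = p) {d : G}
    (hd : d ∈ K ⊔ A) : d ^ p ∈ K := by
  obtain ⟨k, hk, a, ha, rfl⟩ := (Helper14.mem_sup_of_le_normalizer hAK).1 hd
  have key : ∀ n : ℕ, ∃ k' ∈ K, (k * a) ^ n = k' * a ^ n := by
    intro n
    induction n with
    | zero => exact ⟨1, K.one_mem, by simp⟩
    | succ n ih =>
      obtain ⟨k', hk', he⟩ := ih
      refine ⟨k' * (a ^ n * k * (a ^ n)⁻¹), K.mul_mem hk'
        ((mem_normalizer_iff.1 (hAK (A.pow_mem ha n)) k).1 hk), ?_⟩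
      rw [pow_succ, he, pow_succ]; group
  obtain ⟨k', hk', he⟩ := key p
  have hap : a ^ p = 1 := by
    have := pow_card_eq_one' (G := ↥A) (x := ⟨a, ha⟩)
    rw [hA] at this
    exact congrArg Subtype.val this
  rw [he, hap, mul_one]
  exact hk'

/-- A subgroup of `K A` not contained in `K` and centralizing `K` contains `A`. -/
theorem le_of_not_le_of_le_centralizer (hAK : A ≤ normalizer (K : Set G))
    (hKp : (Nat.card ↥K).Coprime p)
    (hA : Nat.card ↥A = p) {N : Subgroup G} (hNle : N ≤ K ⊔ A) (hNK : ¬ N ≤ K)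
    (hNc : N ≤ centralizer (K : Set G)) : A ≤ N := by
  obtain ⟨h, hhN, hhK⟩ := SetLike.not_le_iff_exists.1 hNK
  set m := Nat.card ↥K with hm
  set g := h ^ m with hg
  have hgN : g ∈ N := N.pow_mem hhN m
  have hgp : g ^ p = 1 := by
    rw [hg, ← pow_mul, mul_comm, pow_mul]
    have h1 := pow_mem_of_mem_sup hAK hA (hNle hhN)
    have := pow_card_eq_one' (G := ↥K) (x := ⟨h ^ p, h1⟩)
    exact congrArg Subtype.val this
  have hg1 : g ≠ 1 := by
    intro h1
    -- order of `h` divides `m`, and `h ^ p ∈ K`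
    apply hhK
    obtain ⟨u, v, huv⟩ : ∃ u v : ℤ, (m : ℤ) * u + (p : ℤ) * v = 1 := by
      have := Int.gcd_eq_gcd_ab m p
      have hc : Int.gcd (m : ℤ) (p : ℤ) = 1 := by
        rw [Int.gcd_natCast_natCast]; exact hKp
      rw [hc] at this
      exact ⟨_, _, by simpa using this.symm⟩
    have h2 : h = (h ^ m) ^ u * (h ^ p) ^ v := by
      rw [← zpow_natCast, ← zpow_natCast, ← zpow_mul, ← zpow_mul, ← zpow_add, huv, zpow_one]
    rw [h2, ← hg, h1, one_zpow, one_mul]
    exact K.zpow_mem (pow_mem_of_mem_sup hAK hA (hNle hhN)) v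
  have hPp : IsPGroup p ↥(zpowers g) := by
    refine IsPGroup.of_card (n := 1) ?_
    rw [pow_one, Nat.card_zpowers]
    exact orderOf_eq_prime hgp hg1
  have hPle : zpowers g ≤ K ⊔ A := zpowers_le.2 (hNle hgN)
  have hKP : K ≤ normalizer ((zpowers g : Subgroup G) : Set G) := by
    refine le_trans ?_ (centralizer_le_normalizer _)
    rw [le_centralizer_iff, zpowers_le]
    exact hNc hgN
  -- `K ⊔ zpowers g = K ⊔ A`
  have hcardP : Nat.card ↥(zpowers g) = p := by
    rw [Nat.card_zpowers]; exact orderOf_eq_prime hgp hg1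
  have hsup : K ⊔ zpowers g = K ⊔ A := by
    apply eq_of_le_of_card_ge (sup_le le_sup_left hPle)
    have h1 := Helper12.card_sup_mul_card_inf' K (zpowers g) hKP
    have h2 : K ⊓ zpowers g = ⊥ := by
      rw [inf_comm]; exact Helper28.inf_eq_bot_of_isPGroup_of_coprime hPp hKp
    rw [h2, card_bot, mul_one, hcardP] at h1
    rw [h1]
    have h3 : Nat.card ↥(K ⊔ A) ∣ Nat.card ↥A * Nat.card ↥K := by
      rw [sup_comm]
      exact Helper80.card_sup_dvd' A K hAK
    rw [hA, mul_comm] at h3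
    exact Nat.le_of_dvd (Nat.mul_pos Nat.card_pos hp.out.pos) h3
  have hAP : A ≤ normalizer ((zpowers g : Subgroup G) : Set G) := by
    refine le_trans (le_sup_right : A ≤ K ⊔ A) ?_
    rw [← hsup]
    exact sup_le hKP le_normalizer
  have := eq_of_normal_isPGroup hAK hKp hA hPp hPle hAP (by
    intro hb; exact hg1 (zpowers_eq_bot.1 hb))
  rw [← this]
  exact zpowers_le.2 hgN

theorem ffs_of_prime_order {V : Subgroup G} (hV : IsElementaryAbelian p V)
    (hKV : K ≤ normalizer (V : Set G)) (hAV : A ≤ normalizer (V : Set G))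
    (hAK : A ≤ normalizer (K : Set G)) (hKp : (Nat.card ↥K).Coprime p)
    (hKf : K ⊓ centralizer (V : Set G) = ⊥) (hA : Nat.card ↥A = p)
    (hAK' : ¬ A ≤ centralizer (K : Set G)) : FFS p V (K ⊔ A) K := by
  have hHV : K ⊔ A ≤ normalizer (V : Set G) := sup_le hKV hAV
  have hHK : K ⊔ A ≤ normalizer (K : Set G) := sup_le le_normalizer hAK
  have hAV' : ¬ A ≤ centralizer (V : Set G) := by
    intro hc
    apply hAK'
    have h1 : ⁅K, A⁆ ≤ K ⊓ centralizer (V : Set G) := by
      refine le_inf (Helper30.commutator_le_of_le_normalizer hAK) ?_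
      rw [commutator_le]
      intro k hk a ha
      rw [commutatorElement_def]
      have hN := normalizer_le_normalizer_centralizer' V (hKV hk)
      exact mul_mem ((mem_normalizer_iff.1 hN a).1 (hc ha)) (inv_mem (hc ha))
    rw [hKf, le_bot_iff, commutator_eq_bot_iff_le_centralizer] at h1
    exact le_centralizer_iff.1 h1
  refine ⟨hV, hHV, ?_, le_sup_left, hHK, hKp, ?_⟩
  · -- faithful
    set N := (K ⊔ A) ⊓ centralizer (V : Set G) with hN
    by_contra hN1
    have hNK : N ⊓ K = ⊥ := by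
      rw [eq_bot_iff, ← hKf]
      exact le_inf inf_le_right (inf_le_left.trans inf_le_right)
    have hNn : K ⊔ A ≤ normalizer (N : Set G) :=
      Helper30.le_normalizer_inf le_normalizer (hHV.trans (normalizer_le_normalizer_centralizer' V))
    have hNp : IsPGroup p ↥N := by
      intro n
      refine ⟨1, ?_⟩
      rw [pow_one]
      apply Subtype.ext
      rw [Subgroup.coe_pow, Subgroup.coe_one]
      have h1 : (n : G) ^ p ∈ N ⊓ K :=
        mem_inf.2 ⟨N.pow_mem n.2 p, pow_mem_of_mem_sup hAK hA (mem_inf.1 n.2).1⟩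
      rwa [hNK, mem_bot] at h1
    have := eq_of_normal_isPGroup hAK hKp hA hNp inf_le_left (le_sup_right.trans hNn) hN1
    exact hAV' (this ▸ inf_le_right)
  · by_contra hcon
    exact hAK' ((le_of_not_le_of_le_centralizer hAK hKp hA inf_le_left hcon
      inf_le_right).trans inf_le_right)

end PrimeOrder

/-- If `|V : C_V(A)| < |A|²` for an elementary abelian `p`-group `A` acting faithfully on the
`p'`-group `K`, then `K A` contains a copy of `SL₂(p)`. -/
theorem sq_card_mul_le {V K M : Subgroup G} (hV : IsElementaryAbelian p V)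
    (hKV : K ≤ normalizer (V : Set G)) (hKf : K ⊓ centralizer (V : Set G) = ⊥)
    (hK : (Nat.card ↥K).Coprime p) (hKM : K ≤ M)
    (hno : ∀ D : Subgroup G, D ≤ M →
      ¬ Nonempty (↥D ≃* Matrix.SpecialLinearGroup (Fin 2) (ZMod p))) :
    ∀ (n : ℕ) (A : Subgroup G), Nat.card ↥A = n → IsElementaryAbelian p A → A ≤ M →
      A ≤ normalizer (V : Set G) → A ≤ normalizer (K : Set G) →
      A ⊓ centralizer (K : Set G) = ⊥ →
      Nat.card ↥A ^ 2 * Nat.card ↥(V ⊓ centralizer (A : Set G)) ≤ Nat.card ↥V := by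
  have hVp : IsPGroup p ↥V := IsElementaryAbelian.isPGroup hV
  intro n
  induction n using Nat.strong_induction_on with
  | _ n ih =>
  intro A hn hA hAM hAV hAK hAf
  by_cases hA1 : A = ⊥
  · rw [hA1, card_bot, one_pow, one_mul]
    exact card_le_of_le inf_le_left
  obtain ⟨⟨b₀, hb₀⟩, hb₀1⟩ := Subgroup.ne_bot_iff_exists_ne_one.1 hA1
  have hb₀K : b₀ ∉ centralizer (K : Set G) := by
    intro hc
    have : b₀ ∈ A ⊓ centralizer (K : Set G) := ⟨hb₀, hc⟩
    rw [hAf, mem_bot] at this
    exact hb₀1 (Subtype.ext this)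
  obtain ⟨B, hB, hBne, -⟩ := exists_hyp hA hAK hK hb₀ hb₀K
  have hBA : B ≠ A := by
    rintro rfl
    exact hBne inf_le_right
  have hcard := card_eq_mul_of_hyp hA hB hBA
  have hlt := cv_lt_of_hyp hVp hAV hKV hKf hK hAK hA hB.1 hBne
  have h2 := ih (Nat.card ↥B) (by
    rw [← hn]; exact Helper14.card_lt_card_of_lt (lt_of_le_of_ne hB.1 hBA)) B rfl
    (IsElementaryAbelian.mono hA hB.1) (hB.1.trans hAM) (hB.1.trans hAV) (hB.1.trans hAK)
    (le_bot_iff.1 (hAf ▸ inf_le_inf_right _ hB.1))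
  have key : p ^ 2 * Nat.card ↥(V ⊓ centralizer (A : Set G)) ≤
      Nat.card ↥(V ⊓ centralizer (B : Set G)) := by
    by_contra hcon
    push Not at hcon
    obtain ⟨i, hi⟩ := IsPGroup.iff_card.1 (hVp.to_le (inf_le_left : V ⊓ centralizer (A : Set G) ≤ V))
    obtain ⟨j, hj⟩ := IsPGroup.iff_card.1 (hVp.to_le (inf_le_left : V ⊓ centralizer (B : Set G) ≤ V))
    have hij := Helper14.card_lt_card_of_lt hlt
    rw [hi, hj] at hij
    have hij' : i < j := (Nat.pow_lt_pow_iff_right hp.out.one_lt).1 hij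
    rw [hi, hj, ← pow_add] at hcon
    have hji : j < 2 + i := (Nat.pow_lt_pow_iff_right hp.out.one_lt).1 hcon
    have hj' : j = i + 1 := by omega
    obtain ⟨hBle, a, ha, hsup⟩ := hB
    have haB : a ∉ B := by
      intro h
      apply hBA
      rw [← hsup]
      exact (sup_eq_left.2 (zpowers_le.2 h)).symm
    have ha1 : a ≠ 1 := fun h => haB (h ▸ B.one_mem)
    have hA₁ : Nat.card ↥(zpowers a) = p := by
      rw [Nat.card_zpowers]; exact orderOf_eq_prime (hA.2 a ha) ha1
    have hA₁A : zpowers a ≤ A := zpowers_le.2 ha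
    set A₁ := zpowers a with hA₁def
    set K₁ := K ⊓ centralizer (B : Set G) with hK₁
    set V₁ := V ⊓ centralizer (B : Set G) with hV₁
    have hK₁f : K₁ ⊓ centralizer (V₁ : Set G) = ⊥ := by
      rw [eq_bot_iff]
      rintro y ⟨⟨hyK, hyB⟩, hyV⟩
      have hyo : (orderOf y).Coprime p :=
        Nat.Coprime.coprime_dvd_left (orderOf_dvd_natCard (⟨y, hyK⟩ : ↥K) |> fun h => by
          rwa [Subgroup.orderOf_mk] at h) hK
      have h3 := Helper14.thompson_AxB B y ((IsElementaryAbelian.isPGroup hA).to_le hBle) hyo hyB V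
        hVp (hKV hyK) (hBle.trans hAV) hyV
      have : y ∈ K ⊓ centralizer (V : Set G) := ⟨hyK, h3⟩
      rwa [hKf] at this
    have hnc : ¬ A₁ ≤ centralizer (K₁ : Set G) := by
      intro hc
      apply hBne
      rw [le_centralizer_iff, ← hsup]
      exact sup_le (le_centralizer_iff.1 inf_le_right) hc
    have F : FFS p V₁ (K₁ ⊔ A₁) K₁ := ffs_of_prime_order (IsElementaryAbelian.mono hV inf_le_left)
      (Helper30.le_normalizer_inf (inf_le_left.trans hKV) (inf_le_right.trans le_normalizer))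
      (hA₁A.trans (le_normalizer_inf_centralizer hA hBle hAV))
      (hA₁A.trans (le_normalizer_inf_centralizer hA hBle hAK))
      (Nat.Coprime.coprime_dvd_left (card_dvd_of_le inf_le_left) hK) hK₁f hA₁ hnc
    have hcv : V₁ ⊓ centralizer (A₁ : Set G) = V ⊓ centralizer (A : Set G) := by
      apply le_antisymm
      · refine le_inf (inf_le_left.trans inf_le_left) ?_
        rw [le_centralizer_iff, ← hsup]
        refine sup_le ?_ ?_
        · exact le_centralizer_iff.1 (inf_le_left.trans inf_le_right)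
        · exact le_centralizer_iff.1 inf_le_right
      · exact le_inf (le_inf inf_le_left (inf_le_right.trans (centralizer_le hBle)))
          (inf_le_right.trans (centralizer_le hA₁A))
    have hM : MinOff p V₁ (K₁ ⊔ A₁) A₁ := by
      refine ⟨le_sup_right, (F.bestOffender_iff le_sup_right).2
        ⟨IsElementaryAbelian.mono hA hA₁A, ?_⟩, hA₁⟩
      rw [hcv, hA₁, hi, hj, hj', pow_succ]; ring
    obtain ⟨φ, -, -⟩ := FFS.MinOff.natSL2 F hM
    exact hno _ ((FFS.MinOff.E_le_H F hM).trans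
      (sup_le (inf_le_left.trans hKM) (hA₁A.trans hAM))) ⟨φ⟩
  calc Nat.card ↥A ^ 2 * Nat.card ↥(V ⊓ centralizer (A : Set G))
      = Nat.card ↥B ^ 2 * (p ^ 2 * Nat.card ↥(V ⊓ centralizer (A : Set G))) := by
        rw [hcard]; ring
    _ ≤ Nat.card ↥B ^ 2 * Nat.card ↥(V ⊓ centralizer (B : Set G)) := Nat.mul_le_mul_left _ key
    _ ≤ _ := h2

end Cfsg.Agent.Lib.Helper55
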