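import Cfsg.Agent.Lib.Helper55.FF7
import Cfsg.Agent.S0119

set_option autoImplicit false
set_option linter.unusedSectionVars false

namespace Cfsg.Agent.Lib.Helper55

open Cfsg Subgroup
open scoped commutatorElement Pointwise
open Cfsg.Agent.Lib.Helper14 (IsElementaryAbelian.comm IsElementaryAbelian.isPGroup
  IsElementaryAbelian.mono isElementaryAbelian_iff)

variable {G : Type*} [Group G]

theorem le_normalizer_of_conj_mem {A Y : Subgroup G} (h : ∀ a ∈ A, ∀ y ∈ Y, a * y * a⁻¹ ∈ Y) :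
    A ≤ normalizer (Y : Set G) := by
  intro a ha
  rw [mem_normalizer_iff]
  intro y
  refine ⟨h a ha y, fun hy => ?_⟩
  have := h a⁻¹ (A.inv_mem ha) _ hy
  simpa [mul_assoc] using this

theorem le_centralizer_of_card_two [Finite G] {X P : Subgroup G} (hP : Nat.card ↥P = 2)
    (hX : X ≤ normalizer (P : Set G)) : X ≤ centralizer (P : Set G) := by
  have : Fact (Nat.Prime 2) := ⟨Nat.prime_two⟩
  obtain ⟨e, rfl, he⟩ := exists_zpowers_of_card_prime hP
  intro z hz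
  rw [centralizer_zpowers, mem_centralizer_iff]
  intro y hy
  rw [Set.mem_singleton_iff] at hy
  subst hy
  have h1 : z * y * z⁻¹ ∈ zpowers y := (mem_normalizer_iff.1 (hX hz) y).1 (mem_zpowers y)
  obtain ⟨k, hk⟩ := mem_powers_iff_mem_zpowers.2 h1
  have hk' : y ^ k = z * y * z⁻¹ := hk
  have hy2 : y ^ 2 = 1 := he ▸ pow_orderOf_eq_one y
  have hy1 : y ≠ 1 := by
    intro h
    rw [h, orderOf_one] at he
    omega
  rw [pow_eq_pow_mod k hy2] at hk'
  have hlt : k % 2 < 2 := Nat.mod_lt _ (by norm_num)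
  interval_cases (k % 2)
  · exfalso
    apply hy1
    rw [pow_zero] at hk'
    calc y = z⁻¹ * (z * y * z⁻¹) * z := by group
      _ = 1 := by rw [← hk']; group
  · rw [pow_one] at hk'
    calc y * z = (z * y * z⁻¹) * z := by rw [← hk']
      _ = z * y := by group

theorem inf_centralizer_ne_bot_of_isPGroup [Finite G] {q : ℕ} [Fact q.Prime] {R : Subgroup G}
    (hR : IsPGroup q ↥R) (hR1 : R ≠ ⊥) : R ⊓ centralizer (R : Set G) ≠ ⊥ := by
  have : Nontrivial ↥R := (Subgroup.nontrivial_iff_ne_bot R).2 hR1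
  have hnt := hR.center_nontrivial
  obtain ⟨⟨z, hz⟩, hz1⟩ := exists_ne (1 : Subgroup.center ↥R)
  intro hbot
  have h1 : (z : G) ∈ R ⊓ centralizer (R : Set G) := by
    refine mem_inf.2 ⟨z.2, ?_⟩
    rw [mem_centralizer_iff]
    intro r hr
    exact congrArg Subtype.val ((Subgroup.mem_center_iff.1 hz) ⟨r, hr⟩)
  rw [hbot, mem_bot] at h1
  exact hz1 (Subtype.ext (Subtype.ext h1))

/-- Transport of the theorem on coprime action centralizing all characteristic abelian subgroups. -/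
theorem mem_centralizer_of_fixed [Finite G] {q : ℕ} [Fact q.Prime] {R A : Subgroup G}
    (hR : IsPGroup q ↥R) (hAR : A ≤ normalizer (R : Set G)) (hcop : (Nat.card ↥A).Coprime q)
    (hRA : ⁅R, A⁆ = R)
    (hchar : ∀ Y : Subgroup G, Y ≤ R → A ≤ normalizer (Y : Set G) →
      (∀ a ∈ Y, ∀ b ∈ Y, a * b = b * a) → Y ≤ centralizer (A : Set G))
    {z : G} (hzR : z ∈ R) (hzA : z ∈ centralizer (A : Set G)) : z ∈ centralizer (R : Set G) := by
  let f : ↥A →* MulAut ↥R := R.normalizerMonoidHom.comp (Subgroup.inclusion hAR)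
  have hf : ∀ (a : ↥A) (r : ↥R), ((f a r : ↥R) : G) = (a : G) * r * (a : G)⁻¹ := fun a r => rfl
  have key := Cfsg.Agent.S0119.result (G := ↥R) (p := q) hR f.range
    (Nat.Coprime.coprime_dvd_left (Subgroup.card_range_dvd f) hcop) ?_ ?_
  · have h1 : (⟨z, hzR⟩ : ↥R) ∈ Subgroup.center ↥R := by
      rw [key.2]
      rintro _ ⟨a, rfl⟩
      apply Subtype.ext
      rw [hf]
      show (a : G) * z * (a : G)⁻¹ = z
      rw [(mem_centralizer_iff.1 hzA) a a.2]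
      group
    rw [mem_centralizer_iff]
    intro r hr
    exact congrArg Subtype.val ((Subgroup.mem_center_iff.1 h1) ⟨r, hr⟩)
  · rw [eq_top_iff]
    set S : Set ↥R := {x : ↥R | ∃ g : ↥R, ∃ a ∈ f.range, x = g⁻¹ * a g} with hS
    have h1 : ⁅R, A⁆ ≤ (closure S).map R.subtype := by
      rw [commutator_le]
      intro r hr a ha
      refine ⟨(⟨r⁻¹, R.inv_mem hr⟩ : ↥R)⁻¹ * f ⟨a, ha⟩ ⟨r⁻¹, R.inv_mem hr⟩,
        subset_closure ⟨_, _, ⟨⟨a, ha⟩, rfl⟩, rfl⟩, ?_⟩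
      rw [commutatorElement_def]
      show (r⁻¹)⁻¹ * (a * r⁻¹ * a⁻¹) = _
      group
    intro x _
    have hx' : (x : G) ∈ ⁅R, A⁆ := by rw [hRA]; exact x.2
    obtain ⟨y, hy, hyx⟩ := h1 hx'
    have : y = x := Subtype.ext hyx
    exact this ▸ hy
  · intro Y hYc hYa
    have hle : Y.map R.subtype ≤ R := map_subtype_le Y
    have hAY : A ≤ normalizer ((Y.map R.subtype : Subgroup G) : Set G) := by
      apply le_normalizer_of_conj_mem
      rintro a ha _ ⟨y, hy, rfl⟩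
      refine ⟨f ⟨a, ha⟩ y, ?_, rfl⟩
      have := hYc.fixed (f ⟨a, ha⟩)
      have h2 : y ∈ Y.comap (f ⟨a, ha⟩).toMonoidHom := by rw [this]; exact hy
      exact h2
    have hcomm : ∀ a ∈ Y.map R.subtype, ∀ b ∈ Y.map R.subtype, a * b = b * a := by
      rintro _ ⟨y₁, hy₁, rfl⟩ _ ⟨y₂, hy₂, rfl⟩
      have := hYa.is_comm.comm (⟨y₁, hy₁⟩ : ↥Y) ⟨y₂, hy₂⟩
      exact congrArg (fun t : ↥Y => ((t : ↥R) : G)) this
    have h3 := hchar _ hle hAY hcomm
    rintro _ ⟨a, rfl⟩ y hy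
    apply Subtype.ext
    rw [hf]
    have h4 : (y : G) ∈ centralizer (A : Set G) := h3 ⟨y, hy, rfl⟩
    rw [(mem_centralizer_iff.1 h4) a a.2]
    group

namespace Pair

open FFS

variable [Finite G] {V H K A : Subgroup G} {x : G}

theorem exists_noncomm (P : Pair 3 V H K A x) :
    ∃ d₁ ∈ (A ⊔ cjs x A) ⊓ K, ∃ d₂ ∈ (A ⊔ cjs x A) ⊓ K, d₁ * d₂ ≠ d₂ * d₁ := by
  obtain ⟨φ⟩ := P.nonempty_equiv
  obtain ⟨_, ⟨d₁, hd₁, rfl⟩, _, ⟨d₂, hd₂, rfl⟩, hne⟩ :=
    sl2_three_nonabelian ((K.subgroupOf (A ⊔ cjs x A)).map φ.toMonoidHom) (by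
      intro g
      obtain ⟨d, rfl⟩ := φ.surjective g
      refine ⟨d ^ 3, ?_, map_pow _ _ _⟩
      show d ^ 3 ∈ K.subgroupOf _
      rw [mem_subgroupOf, Subgroup.coe_pow]
      exact P.h.pow_mem_K P.hA (P.D_le d.2))
  refine ⟨d₁, ⟨d₁.2, hd₁⟩, d₂, ⟨d₂.2, hd₂⟩, fun h4 => hne ?_⟩
  have h5 : d₁ * d₂ = d₂ * d₁ := Subtype.ext h4
  show φ d₁ * φ d₂ = φ d₂ * φ d₁
  rw [← map_mul, ← map_mul, h5]

theorem exists_central (P : Pair 3 V H K A x) :
    ∃ z ∈ (A ⊔ cjs x A) ⊓ K, z ≠ 1 ∧ z ∈ centralizer ((A ⊔ cjs x A : Subgroup G) : Set G) := by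
  obtain ⟨φ⟩ := P.nonempty_equiv
  let m : Matrix.SpecialLinearGroup (Fin 2) (ZMod 3) := ⟨!![-1, 0; 0, -1], by decide⟩
  have hm1 : m ≠ 1 := by
    intro h
    have := congrArg (fun t : Matrix.SpecialLinearGroup (Fin 2) (ZMod 3) => t.1 0 0) h
    revert this
    show ¬ ((-1 : ZMod 3) = (1 : Matrix (Fin 2) (Fin 2) (ZMod 3)) 0 0)
    decide
  have hm3 : m ^ 3 = m := by
    apply Subtype.ext
    simp only [Matrix.SpecialLinearGroup.coe_pow]
    show (!![-1, 0; 0, -1] : Matrix (Fin 2) (Fin 2) (ZMod 3)) ^ 3 = !![-1, 0; 0, -1]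
    decide
  have hmc : ∀ g, g * m = m * g := by
    intro g
    apply Subtype.ext
    simp only [Matrix.SpecialLinearGroup.coe_mul]
    show (g : Matrix (Fin 2) (Fin 2) (ZMod 3)) * !![-1, 0; 0, -1] =
      !![-1, 0; 0, -1] * (g : Matrix (Fin 2) (Fin 2) (ZMod 3))
    ext i j
    fin_cases i <;> fin_cases j <;> simp [Matrix.mul_apply, Fin.sum_univ_two]
  set z := φ.symm m with hz
  have hz3 : z ^ 3 = z := by rw [hz, ← map_pow, hm3]
  refine ⟨z, ⟨z.2, ?_⟩, ?_, ?_⟩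
  · have h1 := P.h.pow_mem_K P.hA (P.D_le z.2)
    rw [← Subgroup.coe_pow, hz3] at h1
    exact h1
  · intro h1
    have h2 : z = 1 := Subtype.ext h1
    rw [hz] at h2
    apply hm1
    have := congrArg φ h2
    rwa [MulEquiv.apply_symm_apply, map_one] at this
  · rw [mem_centralizer_iff]
    intro d hd
    have h1 : (⟨d, hd⟩ : ↥(A ⊔ cjs x A)) * z = z * ⟨d, hd⟩ := by
      apply φ.injective
      rw [map_mul, map_mul, hz, MulEquiv.apply_symm_apply]
      exact hmc _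
    exact congrArg Subtype.val h1

end Pair

end Cfsg.Agent.Lib.Helper55
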