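import Cfsg.Agent.Lib.Helper55.FF8

set_option autoImplicit false
set_option linter.unusedSectionVars false

namespace Cfsg.Agent.Lib.Helper55

open Cfsg Subgroup
open scoped commutatorElement Pointwise
open Cfsg.Agent.Lib.Helper14 (IsElementaryAbelian.comm IsElementaryAbelian.isPGroup
  IsElementaryAbelian.mono isElementaryAbelian_iff)

variable {G : Type*} [Group G]

namespace FFS

variable [Finite G] {p : ℕ} [hp : Fact p.Prime] {V H K : Subgroup G}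

theorem MinOff.exists_N0_two {V H K : Subgroup G} (h : FFS 2 V H K) {A : Subgroup G}
    (hA : MinOff 2 V H A) :
    ∃ x N, Pair 2 V H K A x ∧ N ≠ ⊥ ∧ N ≤ (A ⊔ cjs x A) ⊓ K ∧
      ⁅K, A⁆ ⊔ A ≤ normalizer (N : Set G) := by
  have : Fact (Nat.Prime 3) := ⟨Nat.prime_three⟩
  have hR3 : IsPGroup 3 ↥⁅K, A⁆ :=
    MinOff.commutator_isPGroup h hA (r := 3) (k := 1) Nat.prime_three (by norm_num)
  set R := ⁅K, A⁆ with hR
  set Z := R ⊓ centralizer (R : Set G) with hZ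
  have hZ1 : Z ≠ ⊥ := inf_centralizer_ne_bot_of_isPGroup hR3 (MinOff.R_ne_bot h hA)
  have hEZ : R ⊔ A ≤ normalizer (Z : Set G) :=
    Helper30.le_normalizer_inf (MinOff.E_le_NR K A)
      ((MinOff.E_le_NR K A).trans (normalizer_le_normalizer_centralizer' R))
  have hZK : Z ≤ K := inf_le_left.trans (MinOff.R_le_K h hA)
  have hZE : Z ≤ R ⊔ A := inf_le_left.trans le_sup_left
  obtain ⟨i1, i2⟩ := MinOff.irr h hA hZ1 hZK hZE hEZ
  have hnot : ¬ Z ≤ centralizer (A : Set G) := by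
    intro hZA
    have hZP : Z ≤ normalizer ((⁅V, A⁆ : Subgroup G) : Set G) :=
      Helper30.le_normalizer_commutator (hZK.trans h.hKV)
        (hZA.trans (centralizer_le_normalizer _))
    have h1 := le_centralizer_of_card_two (MinOff.card_commutator h hA) hZP
    have h2 : ⁅V, A⁆ ≤ V ⊓ centralizer (Z : Set G) :=
      le_inf (Helper30.commutator_le_of_le_normalizer (hA.1.trans h.hHV)) (le_centralizer_iff.1 h1)
    have h3 : ⁅V, A⁆ ≤ ⁅V, Z⁆ := by
      rw [i1]; exact commutator_mono le_rfl le_sup_right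
    have h4 : ⁅V, A⁆ ≤ ⊥ := (h.decomp hZK).1 ▸ le_inf h2 h3
    exact (h.min_of_minOff hA).1 (le_bot_iff.1 h4)
  obtain ⟨n, hnZ, hnA⟩ := SetLike.not_le_iff_exists.1 hnot
  have P : Pair 2 V H K A n := ⟨h, hA, hZK hnZ, hnA⟩
  have hNZ : (A ⊔ cjs n A) ⊓ K ≤ Z :=
    P.D_inf_K_le_of_mem hZK (le_sup_right.trans hEZ) hnZ
  refine ⟨n, (A ⊔ cjs n A) ⊓ K, P, ?_, le_rfl, sup_le ?_ ?_⟩
  · intro hbot
    have := P.card_D_inf_K
    rw [hbot, card_bot] at this
    norm_num at this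
  · have h1 : R ≤ centralizer (Z : Set G) := le_centralizer_iff.1 inf_le_right
    exact (h1.trans (centralizer_le hNZ)).trans (centralizer_le_normalizer _)
  · exact Helper30.le_normalizer_inf (le_sup_left.trans le_normalizer) (MinOff.hAK h hA)

theorem MinOff.exists_N0_three {V H K : Subgroup G} (h : FFS 3 V H K) {A : Subgroup G}
    (hA : MinOff 3 V H A) :
    ∃ x N, Pair 3 V H K A x ∧ N ≠ ⊥ ∧ N ≤ (A ⊔ cjs x A) ⊓ K ∧
      ⁅K, A⁆ ⊔ A ≤ normalizer (N : Set G) := by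
  have : Fact (Nat.Prime 2) := ⟨Nat.prime_two⟩
  have hR2 : IsPGroup 2 ↥⁅K, A⁆ :=
    MinOff.commutator_isPGroup h hA (r := 2) (k := 3) Nat.prime_two (by norm_num)
  obtain ⟨x, hx, hxA⟩ := MinOff.exists_not_centralizing h hA
  have P : Pair 3 V H K A x := ⟨h, hA, hx, hxA⟩
  obtain ⟨z, hz, hz1, hzD⟩ := P.exists_central
  have hzA : z ∈ centralizer (A : Set G) := centralizer_le (le_sup_left : A ≤ A ⊔ cjs x A) hzD
  have hzR : z ∈ centralizer ((⁅K, A⁆ : Subgroup G) : Set G) := by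
    refine mem_centralizer_of_fixed (q := 2) hR2 (normalizer_commutator_ge_right K A)
      (by rw [hA.2.2]; norm_num) (MinOff.R_comm h hA) ?_ (P.D_inf_K_le_R hz) hzA
    intro Y hYR hAY hYc
    by_contra hcon
    obtain ⟨n, hnY, hnA⟩ := SetLike.not_le_iff_exists.1 hcon
    have hYK := hYR.trans (MinOff.R_le_K h hA)
    have P' : Pair 3 V H K A n := ⟨h, hA, hYK hnY, hnA⟩
    obtain ⟨d₁, hd₁, d₂, hd₂, hne⟩ := P'.exists_noncomm
    have hle := P'.D_inf_K_le_of_mem hYK hAY hnY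
    exact hne (hYc _ (hle hd₁) _ (hle hd₂))
  refine ⟨x, zpowers z, P, ?_, zpowers_le.2 hz, ?_⟩
  · intro hbot
    exact hz1 (zpowers_eq_bot.1 hbot)
  · refine le_trans ?_ (centralizer_le_normalizer _)
    rw [le_centralizer_iff, zpowers_le]
    have h1 : ⁅K, A⁆ ⊔ A ≤ centralizer ((zpowers z : Subgroup G) : Set G) := by
      refine sup_le ?_ ?_
      · rw [le_centralizer_iff, zpowers_le]; exact hzR
      · rw [le_centralizer_iff, zpowers_le]; exact hzA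
    exact le_centralizer_iff.1 h1 (mem_zpowers z)

theorem MinOff.exists_N0 (h : FFS p V H K) {A : Subgroup G} (hA : MinOff p V H A) :
    ∃ x N, Pair p V H K A x ∧ N ≠ ⊥ ∧ N ≤ (A ⊔ cjs x A) ⊓ K ∧
      ⁅K, A⁆ ⊔ A ≤ normalizer (N : Set G) := by
  obtain ⟨x, hx, hxA⟩ := MinOff.exists_not_centralizing h hA
  have P : Pair p V H K A x := ⟨h, hA, hx, hxA⟩
  rcases P.prime_le_three with rfl | rfl
  · exact MinOff.exists_N0_two h hA
  · exact MinOff.exists_N0_three h hA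

theorem MinOff.pow_eq_one {A : Subgroup G} (hA : MinOff p V H A) {a : G} (ha : a ∈ A) :
    a ^ p = 1 := by
  have := pow_card_eq_one' (G := ↥A) (x := ⟨a, ha⟩)
  rw [hA.2.2] at this
  exact congrArg Subtype.val this

/-- The structure of `E = [K, A] A`. -/
theorem MinOff.exists_pair (h : FFS p V H K) {A : Subgroup G} (hA : MinOff p V H A) :
    ∃ x, Pair p V H K A x ∧ ⁅K, A⁆ ⊔ A = A ⊔ cjs x A ∧
      (V ⊓ centralizer ((⁅K, A⁆ ⊔ A : Subgroup G) : Set G)) ⊓ ⁅V, ⁅K, A⁆ ⊔ A⁆ = ⊥ ∧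
      (V ⊓ centralizer ((⁅K, A⁆ ⊔ A : Subgroup G) : Set G)) ⊔ ⁅V, ⁅K, A⁆ ⊔ A⁆ = V := by
  obtain ⟨x, N, P, hN1, hND, hEN⟩ := MinOff.exists_N0 h hA
  have hNK : N ≤ K := hND.trans inf_le_right
  have hDE : A ⊔ cjs x A ≤ ⁅K, A⁆ ⊔ A := P.D_le_R
  have hNE : N ≤ ⁅K, A⁆ ⊔ A := (hND.trans inf_le_left).trans hDE
  obtain ⟨i1, i2⟩ := MinOff.irr h hA hN1 hNK hNE hEN
  obtain ⟨d1, d2⟩ := h.decomp hNK
  rw [i1, i2] at d1 d2
  have hW : ⁅V, A ⊔ cjs x A⁆ = ⁅V, ⁅K, A⁆ ⊔ A⁆ := by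
    apply le_antisymm (commutator_mono le_rfl hDE)
    rw [← i1]
    exact commutator_mono le_rfl (hND.trans inf_le_left)
  set E := ⁅K, A⁆ ⊔ A with hE
  have hEH : E ≤ H := MinOff.E_le_H h hA
  have hEW : E ≤ normalizer ((⁅V, E⁆ : Subgroup G) : Set G) :=
    Helper30.le_normalizer_commutator (hEH.trans h.hHV) le_normalizer
  have hfaith : E ⊓ centralizer ((⁅V, E⁆ : Subgroup G) : Set G) = ⊥ := by
    rw [eq_bot_iff]
    rintro e ⟨he1, he2⟩
    have h1 : V ≤ centralizer ((zpowers e : Subgroup G) : Set G) := by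
      rw [← d2]
      refine sup_le ?_ ?_
      · refine inf_le_right.trans (centralizer_le ?_)
        exact zpowers_le.2 he1
      · rw [le_centralizer_iff, zpowers_le]; exact he2
    have h2 : e ∈ H ⊓ centralizer (V : Set G) :=
      mem_inf.2 ⟨hEH he1, le_centralizer_iff.1 h1 (mem_zpowers e)⟩
    rwa [h.hf] at h2
  refine ⟨x, P, le_antisymm ?_ hDE, d1, d2⟩
  refine sup_le ?_ le_sup_left
  rw [← MinOff.R_comm h hA, commutator_le]
  intro r hr a ha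
  have hrE : r ∈ E := (le_sup_left : ⁅K, A⁆ ≤ E) hr
  have haE : a ∈ E := (le_sup_right : A ≤ E) ha
  have hgE : r * a * r⁻¹ ∈ E := E.mul_mem (E.mul_mem hrE haE) (E.inv_mem hrE)
  have hgp : (r * a * r⁻¹) ^ p = 1 := by
    rw [conj_pow, MinOff.pow_eq_one hA ha]; group
  obtain ⟨d, hd, hdc⟩ := P.natSL2.exists_mul (g := r * a * r⁻¹) (by rw [hW]; exact hEW hgE)
    (by rw [hgp]; exact one_mem _)
  rw [hW] at hdc
  have h1 : d⁻¹ * (r * a * r⁻¹) ∈ E ⊓ centralizer ((⁅V, E⁆ : Subgroup G) : Set G) :=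
    mem_inf.2 ⟨E.mul_mem (E.inv_mem (hDE hd)) hgE, hdc⟩
  rw [hfaith, mem_bot] at h1
  have h2 : r * a * r⁻¹ = d := by
    calc r * a * r⁻¹ = d * (d⁻¹ * (r * a * r⁻¹)) := by group
      _ = d := by rw [h1, mul_one]
  rw [commutatorElement_def, h2]
  exact mul_mem hd (inv_mem ((le_sup_left : A ≤ A ⊔ cjs x A) ha))

end FFS

end Cfsg.Agent.Lib.Helper55
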