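import Cfsg.Agent.Lib.Helper55.FF11
import Cfsg.Agent.S0598
import Cfsg.Agent.Lib.Helper86.Rank2G7
import Cfsg.Agent.Lib.Helper1.Off4

set_option autoImplicit false
set_option linter.unusedSectionVars false

/-! Abelian subgroups maximizing `|B| |C_V(B)|` are elementary abelian (in the `FFS` setting). -/

namespace Cfsg.Agent.Lib.Helper55

open Cfsg Subgroup
open scoped commutatorElement Pointwise

variable {G : Type*} [Group G]

/-- `A` maximizes `|B| |C_V(B)|` among its subgroups. -/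
def Maxi (V A : Subgroup G) : Prop :=
  ∀ B : Subgroup G, B ≤ A → Nat.card ↥B * Nat.card ↥(V ⊓ centralizer (B : Set G)) ≤
    Nat.card ↥A * Nat.card ↥(V ⊓ centralizer (A : Set G))

namespace FFS

variable [Finite G] {p : ℕ} [hp : Fact p.Prime] {V H K : Subgroup G}

theorem bestOffender_of_maxi (h : FFS p V H K) :
    ∀ (n : ℕ) (A : Subgroup G), Nat.card ↥A = n → A ≤ H → (∀ x ∈ A, ∀ y ∈ A, x * y = y * x) →
      IsPGroup p ↥A → Maxi V A → IsBestOffenderOn p V A := by
  intro n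
  induction n using Nat.strong_induction_on with
  | _ n ih =>
  intro A hn hAH hAc hAp hM
  have hcomm : ⁅A, A⁆ ≤ centralizer (V : Set G) := by
    have : ⁅A, A⁆ = ⊥ := by
      rw [commutator_eq_bot_iff_le_centralizer]
      intro x hx
      rw [mem_centralizer_iff]
      intro y hy
      exact hAc y hy x hx
    rw [this]; exact bot_le
  by_cases hA1 : A = ⊥
  · subst hA1
    refine ⟨hM, hcomm, fun a ha => ?_⟩
    rw [mem_bot] at ha
    subst ha
    simp
  have hAV : A ≤ normalizer (V : Set G) := hAH.trans h.hHV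
  obtain ⟨B, hBA, hB⟩ := Cfsg.Agent.S0598.result V A h.hV hAV hcomm V le_rfl
  rcases hB with hB | ⟨hBeq, hBc, hBm⟩
  · exact absurd (hM B hBA) (not_le_of_gt hB)
  have hBH : B ≤ H := hBA.trans hAH
  have hBbest : IsBestOffenderOn p V B := by
    refine ⟨fun B' hB' => ?_, ?_, ?_⟩
    · rw [← hBm]; exact hM B' (hB'.trans hBA)
    · exact (commutator_mono hBA hBA).trans hcomm
    · intro b hb
      have hbp : b ^ p = 1 := by
        apply h.pow_eq_one_of_quad (hBH hb)
        intro v hv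
        have h1 : b * v * b⁻¹ * v⁻¹ ∈ ⁅V, A⁆ := by
          rw [commutator_comm]
          exact commutator_mem_commutator (hBA hb) hv
        rw [hBeq] at hb
        exact (mem_centralizer_iff.1 hb.2 _ h1).symm
      rw [hbp]; exact one_mem _
  have hB1 : B ≠ ⊥ := by
    intro hb
    rw [hb] at hBc
    have hVtop : V ⊓ centralizer ((⊥ : Subgroup G) : Set G) = V := by
      rw [inf_eq_left]
      intro v _
      rw [mem_centralizer_iff]
      intro x hx
      rw [SetLike.mem_coe, mem_bot] at hx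
      rw [hx]; simp
    rw [hVtop] at hBc
    have hWV : ⁅V, A⁆ ≤ V := Helper30.commutator_le_of_le_normalizer hAV
    have hle : ⁅V, A⁆ ≤ ⁅⁅V, A⁆, A⁆ := by
      rw [commutator_le]
      intro v hv a ha
      rw [hBc] at hv
      obtain ⟨w, hw, c, hc, rfl⟩ := (Helper14.mem_sup_of_commute
        (H := ⁅V, A⁆) (K := V ⊓ centralizer (A : Set G))
        (fun x hx y hy => h.hVc x (hWV hx) y hy.1)).1 hv
      have hca : a * c = c * a := mem_centralizer_iff.1 hc.2 a ha
      have h1 : ⁅w * c, a⁆ = ⁅w, a⁆ := by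
        rw [commutatorElement_def, commutatorElement_def]
        calc w * c * a * (w * c)⁻¹ * a⁻¹ = w * (c * a) * c⁻¹ * w⁻¹ * a⁻¹ := by group
          _ = w * a * w⁻¹ * a⁻¹ := by rw [← hca]; group
      rw [h1]
      exact commutator_mem_commutator hw ha
    have hW1 : ⁅V, A⁆ = ⊥ := by
      by_contra hne
      have hlt := Helper14.commutator_lt_of_isPGroup (h.hVp.to_le hWV) hAp
        (Helper30.le_normalizer_commutator hAV le_normalizer) hne
      exact absurd hle (not_le_of_gt hlt)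
    exact h.commutator_ne_bot hAH hA1 hW1
  obtain ⟨T, hTB, hT⟩ : ∃ T, T ≤ B ∧ MinOff p V H T := by
    by_contra hcon
    push Not at hcon
    apply hB1
    rw [eq_bot_iff]
    refine (h.le_iSup_minOff _ B rfl hBH hBbest).trans ?_
    refine iSup₂_le ?_
    rintro T ⟨hT1, hT2⟩
    exact absurd hT2 (hcon T hT1)
  have hTA : T ≤ A := hTB.trans hBA
  obtain ⟨t, hTt, hto⟩ := MinOff.exists_gen hT
  have htT : t ∈ T := by rw [hTt]; exact mem_zpowers t
  have htA : t ∈ A := hTA htT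
  set W := WW V K T with hW
  have hWV : W ≤ V := MinOff.W_le_V h hT
  have hWcard : Nat.card ↥W = p ^ 2 := MinOff.card_W h hT
  have hAW : A ≤ normalizer (W : Set G) := by
    intro a ha
    apply Helper14.mem_normalizer_of_map_conj_eq
    have hK : K.map (MulAut.conj a).toMonoidHom = K :=
      Helper14.map_conj_of_mem_normalizer (h.hHK (hAH ha))
    have hTa : T.map (MulAut.conj a).toMonoidHom = T := by
      apply Helper14.map_conj_of_mem_normalizer
      apply centralizer_le_normalizer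
      rw [mem_centralizer_iff]
      intro x hx
      exact hAc x (hTA hx) a ha
    rw [hW, Subgroup.map_commutator, h.map_conj_V (hAH ha), Subgroup.map_sup,
      Subgroup.map_commutator, hK, hTa]
  have htW : t ∉ centralizer (W : Set G) := by
    intro hc
    have h1 : t ∈ EE K T ⊓ centralizer (W : Set G) := ⟨(le_sup_right : T ≤ EE K T) htT, hc⟩
    rw [MinOff.faithful h hT, mem_bot] at h1
    rw [h1, orderOf_one] at hto
    exact hp.out.one_lt.ne hto
  -- every element of `A` acts on `W` as a power of `t`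
  have hsplit : ∀ a ∈ A, ∃ k : ℤ, (t ^ k)⁻¹ * a ∈ centralizer (W : Set G) := by
    intro a ha
    set φ : ↥A →* MulAut ↥W := W.normalizerMonoidHom.comp (inclusion hAW) with hφ
    have hφc : ∀ (x : ↥A) (w : ↥W), ((φ x w : ↥W) : G) = x * w * (x : G)⁻¹ := fun _ _ => rfl
    have hQ : IsPGroup p ↥φ.range := hAp.of_surjective φ.rangeRestrict φ.rangeRestrict_surjective
    have hσ1 : φ ⟨t, htA⟩ ≠ 1 := by
      intro h1
      apply htW
      rw [mem_centralizer_iff]
      intro w hw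
      have h2 := hφc ⟨t, htA⟩ ⟨w, hw⟩
      rw [h1] at h2
      have h3 : w = t * w * t⁻¹ := h2
      calc w * t = (t * w * t⁻¹) * t := by rw [← h3]
        _ = t * w := by group
    have hmem := Helper86.Rank2.mem_zpowers_of_isPGroup hWcard
      (fun x => Subtype.ext (h.pow_eq_one_of_mem_V (hWV x.2))) φ.range hQ (φ ⟨t, htA⟩)
      ⟨_, rfl⟩ hσ1 (φ ⟨a, ha⟩) ⟨_, rfl⟩
    obtain ⟨k, hk⟩ := mem_zpowers_iff.1 hmem
    refine ⟨k, ?_⟩
    rw [← map_zpow] at hk
    rw [mem_centralizer_iff]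
    intro w hw
    have h2 := hφc ⟨a, ha⟩ ⟨w, hw⟩
    rw [← hk] at h2
    have h3 := hφc (⟨t, htA⟩ ^ k) ⟨w, hw⟩
    rw [h3] at h2
    have h4 : t ^ k * w * (t ^ k)⁻¹ = a * w * a⁻¹ := by simpa using h2
    calc w * ((t ^ k)⁻¹ * a) = (t ^ k)⁻¹ * (t ^ k * w * (t ^ k)⁻¹) * a := by group
      _ = (t ^ k)⁻¹ * a * w := by rw [h4]; group
  set A₁ := A ⊓ centralizer (W : Set G) with hA₁
  have hA₁A : A₁ ≤ A := inf_le_left
  have hdec : ∀ a ∈ A, ∃ k : ℤ, ∃ a₁ ∈ A₁, a = t ^ k * a₁ := by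
    intro a ha
    obtain ⟨k, hk⟩ := hsplit a ha
    exact ⟨k, (t ^ k)⁻¹ * a, ⟨A.mul_mem (A.inv_mem (A.zpow_mem htA k)) ha, hk⟩, by group⟩
  have hlt : A₁ < A := lt_of_le_of_ne hA₁A (fun heq => htW (heq ▸ htA : t ∈ A₁).2)
  have hcardlt : Nat.card ↥A₁ < n := by
    rw [← hn]
    exact Helper14.card_lt_card_of_lt hlt
  have hAle : A ≤ T ⊔ A₁ := by
    intro a ha
    obtain ⟨k, a₁, ha₁, rfl⟩ := hdec a ha
    exact mul_mem ((le_sup_left : T ≤ T ⊔ A₁) (T.zpow_mem htT k))
      ((le_sup_right : A₁ ≤ T ⊔ A₁) ha₁)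
  have hTN : T ≤ normalizer (A₁ : Set G) := by
    refine le_trans ?_ (centralizer_le_normalizer _)
    intro x hx
    rw [mem_centralizer_iff]
    intro y hy
    exact hAc y (hA₁A hy) x (hTA hx)
  have hcardA : Nat.card ↥A ≤ p * Nat.card ↥A₁ := by
    have h1 := Helper1.Off.card_sup_mul_card_inf hTN
    rw [hT.2.2] at h1
    calc Nat.card ↥A ≤ Nat.card ↥(T ⊔ A₁) := card_le_of_le hAle
      _ ≤ Nat.card ↥(T ⊔ A₁) * Nat.card ↥(A₁ ⊓ T) := Nat.le_mul_of_pos_right _ Nat.card_pos
      _ = p * Nat.card ↥A₁ := h1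
  have hWc : W ≤ centralizer (A₁ : Set G) := by
    rw [le_centralizer_iff]
    exact inf_le_right
  have hsuple : W ⊔ (V ⊓ centralizer (A : Set G)) ≤ V ⊓ centralizer (A₁ : Set G) :=
    sup_le (le_inf hWV hWc) (inf_le_inf_left V (centralizer_le hA₁A))
  have hWN : W ≤ normalizer ((V ⊓ centralizer (A : Set G) : Subgroup G) : Set G) := by
    refine le_trans ?_ (centralizer_le_normalizer _)
    intro x hx
    rw [mem_centralizer_iff]
    intro y hy
    exact h.hVc y hy.1 x (hWV hx)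
  have hinflt : (V ⊓ centralizer (A : Set G)) ⊓ W < W := by
    refine lt_of_le_of_ne inf_le_right (fun heq => htW ?_)
    have h1 : W ≤ centralizer (A : Set G) := by
      rw [← heq]; exact inf_le_left.trans inf_le_right
    exact (le_centralizer_iff.1 h1) htA
  have hcv : p * Nat.card ↥(V ⊓ centralizer (A : Set G)) ≤
      Nat.card ↥(V ⊓ centralizer (A₁ : Set G)) := by
    have h1 := Helper1.Off.card_sup_mul_card_inf hWN
    have h2 := mul_card_le_of_lt (h.hVp.to_le hWV) hinflt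
    rw [hWcard] at h1 h2
    have h3 : Nat.card ↥((V ⊓ centralizer (A : Set G)) ⊓ W) ≤ p := by
      have := hp.out.pos
      nlinarith
    have h4 : p * Nat.card ↥(V ⊓ centralizer (A : Set G)) ≤
        Nat.card ↥(W ⊔ (V ⊓ centralizer (A : Set G))) := by
      have hpos := hp.out.pos
      have h5 : p * (p * Nat.card ↥(V ⊓ centralizer (A : Set G))) ≤
          p * Nat.card ↥(W ⊔ (V ⊓ centralizer (A : Set G))) := by
        calc p * (p * Nat.card ↥(V ⊓ centralizer (A : Set G)))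
            = p ^ 2 * Nat.card ↥(V ⊓ centralizer (A : Set G)) := by ring
          _ = Nat.card ↥(W ⊔ (V ⊓ centralizer (A : Set G))) *
              Nat.card ↥((V ⊓ centralizer (A : Set G)) ⊓ W) := h1.symm
          _ ≤ Nat.card ↥(W ⊔ (V ⊓ centralizer (A : Set G))) * p := Nat.mul_le_mul_left _ h3
          _ = p * Nat.card ↥(W ⊔ (V ⊓ centralizer (A : Set G))) := by ring
      exact Nat.le_of_mul_le_mul_left h5 hpos
    exact h4.trans (card_le_of_le hsuple)
  have hle2 : Nat.card ↥A * Nat.card ↥(V ⊓ centralizer (A : Set G)) ≤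
      Nat.card ↥A₁ * Nat.card ↥(V ⊓ centralizer (A₁ : Set G)) := by
    calc Nat.card ↥A * Nat.card ↥(V ⊓ centralizer (A : Set G))
        ≤ (p * Nat.card ↥A₁) * Nat.card ↥(V ⊓ centralizer (A : Set G)) :=
          Nat.mul_le_mul_right _ hcardA
      _ = Nat.card ↥A₁ * (p * Nat.card ↥(V ⊓ centralizer (A : Set G))) := by ring
      _ ≤ Nat.card ↥A₁ * Nat.card ↥(V ⊓ centralizer (A₁ : Set G)) := Nat.mul_le_mul_left _ hcv
  have hM₁ : Maxi V A₁ := fun B' hB' => (hM B' (hB'.trans hA₁A)).trans hle2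
  have hbest₁ := ih _ hcardlt A₁ rfl (hA₁A.trans hAH)
    (fun x hx y hy => hAc x (hA₁A hx) y (hA₁A hy)) (hAp.to_le hA₁A) hM₁
  refine ⟨hM, hcomm, fun a ha => ?_⟩
  obtain ⟨k, a₁, ha₁, rfl⟩ := hdec a ha
  have hc : Commute (t ^ k) a₁ := hAc _ (A.zpow_mem htA k) _ (hA₁A ha₁)
  rw [hc.mul_pow, MinOff.pow_eq_one hT (T.zpow_mem htT k), one_mul]
  exact hbest₁.2.2 a₁ ha₁

end FFS

end Cfsg.Agent.Lib.Helper55
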