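import Cfsg.Agent.Lib.Helper55.FFAb
import Cfsg.Agent.S0444

set_option autoImplicit false
set_option linter.unusedSectionVars false

/-! In the `FFS` setting with `p = 2`, a group generated by best offenders is a direct
product of copies of the symmetric group of degree three. -/

namespace Cfsg.Agent.Lib.Helper55

open Cfsg Subgroup
open scoped commutatorElement Pointwise

variable {G : Type*} [Group G]

namespace FFS

variable [Finite G] {V H K : Subgroup G}

theorem MinOff.nonempty_equiv_perm (h : FFS 2 V H K) {A : Subgroup G} (hA : MinOff 2 V H A) :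
    Nonempty (↥(EE K A) ≃* Equiv.Perm (Fin 3)) := by
  obtain ⟨x, P, hE, -, -⟩ := MinOff.exists_pair h hA
  obtain ⟨a, hAa, hao⟩ := MinOff.exists_gen hA
  have haA : a ∈ A := by rw [hAa]; exact mem_zpowers a
  have ha2 : a * a = 1 := by
    have := MinOff.pow_eq_one hA haA
    rwa [pow_two] at this
  have hainv : a⁻¹ = a := inv_eq_of_mul_eq_one_left ha2
  set e := x * a * x⁻¹ with he
  have heA : e ∈ cjs x A := ⟨a, haA, rfl⟩
  have he2 : e * e = 1 := by
    calc e * e = x * (a * a) * x⁻¹ := by rw [he]; group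
      _ = 1 := by rw [ha2]; group
  have hmem : a * e ∈ (A ⊔ cjs x A) ⊓ K := by
    refine ⟨mul_mem ((le_sup_left : A ≤ A ⊔ cjs x A) haA)
      ((le_sup_right : cjs x A ≤ A ⊔ cjs x A) heA), ?_⟩
    have h1 : a * x * a⁻¹ ∈ K := (mem_normalizer_iff.1 (h.hHK (hA.1 haA)) x).1 P.hx
    have h2 : a * e = a * x * a⁻¹ * x⁻¹ := by rw [hainv, he]; group
    rw [h2]
    exact K.mul_mem h1 (K.inv_mem P.hx)
  have h3 : (a * e) ^ 3 = 1 := by
    have := pow_card_eq_one' (G := ↥((A ⊔ cjs x A) ⊓ K)) (x := ⟨a * e, hmem⟩)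
    rw [P.card_D_inf_K] at this
    exact congrArg Subtype.val this
  have ha1 : a ≠ 1 := by
    intro h1
    rw [h1, orderOf_one] at hao
    omega
  have hcj : cjs x A = zpowers e := by rw [hAa]; exact map_conj_zpowers x a
  have hne : a ≠ e := by
    intro h1
    apply P.ne
    rw [hcj, ← h1, ← hAa]
  obtain ⟨φ⟩ := Cfsg.Agent.S0444.closure_equiv a e ha2 he2 h3 ha1 hne
  obtain ⟨ψ⟩ := Cfsg.Agent.S0444.dihedral_equiv_perm
  have hcl : EE K A = closure ({a, e} : Set G) := by
    show ⁅K, A⁆ ⊔ A = _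
    rw [hE, hcj, Set.insert_eq, Subgroup.closure_union, zpowers_eq_closure, ← zpowers_eq_closure a, ← hAa]
  exact ⟨((MulEquiv.subgroupCongr hcl).trans φ.symm).trans ψ⟩

theorem nonempty_equiv_pi (h : FFS 2 V H K)
    (hS3 : H = ⨆ A : {A : Subgroup G // A ≤ H ∧ IsBestOffenderOn 2 V A}, (A : Subgroup G)) :
    ∃ n : ℕ, Nonempty (↥H ≃* (Fin n → Equiv.Perm (Fin 3))) ∧ (n = 0 → H = ⊥) := by
  classical
  let ι := {E' : Subgroup G // ∃ A, MinOff 2 V H A ∧ E' = EE K A}
  let E : ι → Subgroup G := Subtype.val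
  have : Fintype ι := Fintype.ofFinite ι
  obtain ⟨hind, hsup, -, -⟩ := h.structure_thm hS3 E Subtype.val_injective (fun i => i.2)
    (fun A hA => ⟨⟨EE K A, A, hA, rfl⟩, rfl⟩)
  have hcomm : Pairwise fun i j : ι => ∀ x y : G, x ∈ E i → y ∈ E j → Commute x y := by
    intro i j hij x y hx hy
    obtain ⟨A, hA, hi⟩ := i.2
    obtain ⟨B, hB, hj⟩ := j.2
    have hx' : x ∈ EE K A := hi ▸ hx
    have hy' : y ∈ EE K B := hj ▸ hy
    rcases MinOff.dichotomy h hA hB with h1 | ⟨-, h1, -⟩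
    · exact absurd (Subtype.ext (by rw [hi, hj, h1])) hij
    · have h2 := MinOff.comm_eq_bot hS3 h hA
      have h3 : ⁅x, y⁆ ∈ ⁅EE K A, H ⊓ centralizer ((WW V K A : Subgroup G) : Set G)⁆ :=
        commutator_mem_commutator hx' ⟨MinOff.E_le_H h hB hy', h1 hy'⟩
      rw [h2, mem_bot] at h3
      exact commutatorElement_eq_one_iff_commute.1 h3
  refine ⟨Fintype.card ι, ⟨?_⟩, ?_⟩
  · have e₁ := MonoidHom.ofInjective
      (injective_noncommPiCoprod_of_iSupIndep (hcomm := hcomm) hind)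
    have e₂ : ↥(noncommPiCoprod hcomm).range ≃* ↥H :=
      MulEquiv.subgroupCongr (noncommPiCoprod_range.trans hsup)
    have e₃ : (∀ i : ι, ↥(E i)) ≃* (ι → Equiv.Perm (Fin 3)) :=
      MulEquiv.piCongrRight (fun i => by
        have hi := i.2
        have : Nonempty (↥(E i) ≃* Equiv.Perm (Fin 3)) := by
          obtain ⟨A, hA, hi⟩ := hi
          obtain ⟨f⟩ := MinOff.nonempty_equiv_perm h hA
          exact ⟨(MulEquiv.subgroupCongr hi).trans f⟩
        exact Classical.choice this)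
    have e₄ : (ι → Equiv.Perm (Fin 3)) ≃* (Fin (Fintype.card ι) → Equiv.Perm (Fin 3)) :=
      MulEquiv.arrowCongr (Fintype.equivFin ι) (MulEquiv.refl _)
    exact ((e₂.symm.trans e₁.symm).trans e₃).trans e₄
  · intro h0
    have := Fintype.card_eq_zero_iff.1 h0
    rw [← hsup, iSup_of_empty]

end FFS

end Cfsg.Agent.Lib.Helper55
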