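import Cfsg.Agent.Lib.Helper55.SylCtl

set_option autoImplicit false

namespace Cfsg.Agent.Lib.Helper55

open Cfsg

variable {G : Type*} [Group G]

/-- One factor in the definition of strong control of fusion. -/
def FusStep (p : ℕ) (𝓕 : Set (Subgroup G)) (S : Subgroup G) (A : Set G) (u u' : G)
    (w : Subgroup G × G) : Prop :=
  w.1 ∈ sylowMembers p 𝓕 S ∧ w.2 ∈ w.1 ∧ u' = u * w.2 ∧
    conjRight u' A ⊆ (S : Set G) ∩ (w.1 : Set G)

/-- Reachability by partial products. -/
def FusChain (p : ℕ) (𝓕 : Set (Subgroup G)) (S : Subgroup G) (A : Set G) (u u' : G) : Prop :=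
  Relation.ReflTransGen (fun u u' => ∃ w, FusStep p 𝓕 S A u u' w) u u'

theorem fusChain_of_list {p : ℕ} {𝓕 : Set (Subgroup G)} {S : Subgroup G} {A : Set G}
    {n : ℕ} (Y : Fin n → Subgroup G) (y : Fin n → G)
    (h1 : ∀ i : Fin n, Y i ∈ sylowMembers p 𝓕 S ∧ y i ∈ Y i)
    (h2 : ∀ i : Fin n, conjRight (((List.ofFn y).take (i.val + 1)).prod) A ⊆
      (S : Set G) ∩ (Y i : Set G)) :
    FusChain p 𝓕 S A 1 (List.ofFn y).prod := by
  have := reflTransGen_of_fin_chain (FusStep p 𝓕 S A)
    (fun i : Fin (n + 1) => ((List.ofFn y).take i.val).prod) (fun i => (Y i, y i)) (by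
      intro i
      refine ⟨(h1 i).1, (h1 i).2, ?_, h2 i⟩
      simp only [Fin.val_succ, Fin.val_castSucc]
      rw [List.prod_take_succ _ _ (by simp)]
      simp)
  have e1 : (List.ofFn y).take (Fin.last n).val = List.ofFn y :=
    List.take_of_length_le (by simp)
  have e2 : (List.ofFn y).take (0 : Fin (n + 1)).val = [] := by simp
  simp only [e1, e2, List.prod_nil] at this
  exact this

theorem list_of_fusChain {p : ℕ} {𝓕 : Set (Subgroup G)} {S : Subgroup G} {A : Set G} {u : G}
    (h : FusChain p 𝓕 S A 1 u) :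
    ∃ (n : ℕ) (Y : Fin n → Subgroup G) (y : Fin n → G),
      (∀ i : Fin n, Y i ∈ sylowMembers p 𝓕 S ∧ y i ∈ Y i) ∧ u = (List.ofFn y).prod ∧
      ∀ i : Fin n, conjRight (((List.ofFn y).take (i.val + 1)).prod) A ⊆
        (S : Set G) ∩ (Y i : Set G) := by
  obtain ⟨n, c, w, h0, hl, hstep⟩ := fin_chain_of_reflTransGen _ h
  have key : ∀ i : Fin (n + 1), ((List.ofFn fun i => (w i).2).take i.val).prod = c i := by
    intro i
    induction i using Fin.induction with
    | zero => simp [h0]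
    | succ i ih =>
      simp only [Fin.val_succ]
      simp only [Fin.val_castSucc] at ih
      rw [List.prod_take_succ _ _ (by simp), ih, (hstep i).2.2.1]
      simp
  refine ⟨n, fun i => (w i).1, fun i => (w i).2, fun i => ⟨(hstep i).1, (hstep i).2.1⟩, ?_, ?_⟩
  · rw [← hl, ← key]
    have e1 : (List.ofFn fun i => (w i).2).take (Fin.last n).val = List.ofFn fun i => (w i).2 :=
      List.take_of_length_le (by simp)
    rw [e1]
  · intro i
    have := key i.succ
    simp only [Fin.val_succ] at this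
    rw [this]
    exact (hstep i).2.2.2

theorem strongly_iff {p : ℕ} {𝓕 : Set (Subgroup G)} :
    FamilyStronglyControlsFusion p 𝓕 ↔
      ∀ (S : Sylow p G) (A : Set G) (g : G), A ⊆ (S : Set G) → (∃ a ∈ A, a ≠ 1) →
        conjRight g A ⊆ (S : Set G) →
        ∃ u y₀ : G, y₀ ∈ Subgroup.normalizer ((S : Subgroup G) : Set G) ∧ g = u * y₀ ∧
          FusChain p 𝓕 (S : Subgroup G) A 1 u := by
  constructor
  · intro h S A g hA hne hg
    obtain ⟨n, Y, y, y₀, h1, h2, h3, h4⟩ := h S A g hA hne hg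
    exact ⟨_, y₀, h1, h3, fusChain_of_list Y y h2 h4⟩
  · intro h S A g hA hne hg
    obtain ⟨u, y₀, h1, h2, h3⟩ := h S A g hA hne hg
    obtain ⟨n, Y, y, h4, h5, h6⟩ := list_of_fusChain h3
    exact ⟨n, Y, y, y₀, h1, h4, by rw [h2, h5], h6⟩

theorem conjRight_subset_iff {g : G} {A : Set G} {X : Subgroup G} :
    conjRight g A ⊆ (X : Set G) ↔ A ⊆ (subgroupConjRight g⁻¹ X : Set G) := by
  unfold conjRight
  rw [Set.image_subset_iff]
  constructor
  · intro h a ha
    have := h ha
    rw [SetLike.mem_coe, mem_conjR]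
    simpa using this
  · intro h a ha
    have := h ha
    rw [SetLike.mem_coe, mem_conjR] at this
    simpa using this

end Cfsg.Agent.Lib.Helper55
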