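import Cfsg.Agent.Lib.Helper80.PSolv
import Cfsg.Agent.Lib.Helper55.RelSN
import Cfsg.Agent.Lib.Helper53.Basic
import Cfsg.Agent.Lib.Helper28.SylSub
import Cfsg.Agent.Lib.Helper12.Card

set_option autoImplicit false

namespace Cfsg.Agent.Lib.Helper55

open Cfsg Subgroup

variable {X : Type*} [Group X]

/-- The dual of Hall--Higman 1.2.3: in a `p`-soluble group with `O_p = 1` the `p'`-core contains its
centralizer. -/
theorem centralizer_pPrimeCore_le [Finite X] {p : ℕ} [hp : Fact p.Prime] (hs : IsPSolvable p X)
    (hc : pCore p X = ⊥) : centralizer (pPrimeCore p X : Set X) ≤ pPrimeCore p X := by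
  obtain ⟨n, H, h0, hn, hmono, hnorm, hstep⟩ := hs
  set K := pPrimeCore p X with hK
  have hKc : (Nat.card ↥K).Coprime p := Helper28.pPrimeCore_coprime p
  have hKchar : K.Characteristic := Helper28.pPrimeCore_characteristic p
  have hKn : K.Normal := Subgroup.normal_of_characteristic K
  have hCn : (centralizer (K : Set X)).Normal := inferInstance
  have key : ∀ i : Fin (n + 1), H i ⊓ centralizer (K : Set X) ≤ K := by
    intro i
    induction i using Fin.induction with
    | zero => rw [h0]; simp
    | succ i ih =>
      have := hnorm i.castSucc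
      have := hnorm i.succ
      have hm1 : H i.castSucc ≤ H i.succ := hmono (Fin.castSucc_le_succ i)
      have hd := Helper80.relIndex_inf_dvd (H i.castSucc) (H i.succ) (centralizer (K : Set X)) hm1
      set A := H i.castSucc ⊓ centralizer (K : Set X) with hA
      set B := H i.succ ⊓ centralizer (K : Set X) with hB
      have hle : A ≤ B := inf_le_inf_right _ hm1
      have hBn : B.Normal := inferInstance
      have hAc : (Nat.card ↥A).Coprime p := Nat.Coprime.coprime_dvd_left (card_dvd_of_le ih) hKc
      have hcard : Nat.card ↥A * A.relIndex B = Nat.card ↥B := Helper80.card_mul_relIndex_of_le hle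
      rcases hstep i with ⟨m, hm⟩ | hcop
      · rw [hm] at hd
        obtain ⟨j, _, hj⟩ := (Nat.dvd_prime_pow hp.out).1 hd
        obtain ⟨P, hP⟩ := Helper53.exists_isSyl p B
        obtain ⟨hPB, hPp, hPi⟩ := Helper53.isSyl_iff_relIndex.1 hP
        have hAP : A ≤ normalizer (P : Set X) := by
          refine le_trans ?_ (centralizer_le_normalizer _)
          rw [le_centralizer_iff]
          exact (hPB.trans inf_le_right).trans (centralizer_le ih)
        have hinf : A ⊓ P = ⊥ := by
          rw [inf_comm]; exact Helper28.inf_eq_bot_of_isPGroup_of_coprime hPp hAc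
        have h1 := Helper12.card_sup_mul_card_inf' A P hAP
        rw [hinf, card_bot, mul_one] at h1
        have h2 : Nat.card ↥P * P.relIndex B = Nat.card ↥B := Helper80.card_mul_relIndex_of_le hPB
        have h3 : p ^ j ∣ Nat.card ↥P := by
          have h4 : p ^ j ∣ Nat.card ↥P * P.relIndex B := by
            rw [h2, ← hcard, hj]; exact Dvd.intro_left _ rfl
          have h5 : (p ^ j).Coprime (P.relIndex B) :=
            Nat.Coprime.pow_left j ((Nat.Prime.coprime_iff_not_dvd hp.out).2 hPi)
          exact h5.dvd_of_dvd_mul_right h4
        have hsup : A ⊔ P = B := by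
          apply eq_of_le_of_card_ge (sup_le hle hPB)
          rw [h1, ← hcard, hj]
          exact Nat.mul_le_mul_left _ (Nat.le_of_dvd Nat.card_pos h3)
        have hBP : B ≤ normalizer (P : Set X) := by
          rw [← hsup]; exact sup_le hAP le_normalizer
        have hPbot : P = ⊥ := by
          have h6 : SN P ⊤ := (SN.of_normal hPB hBP).trans
            (SN.of_normal le_top (by rw [normalizer_eq_top_iff.2 hBn]))
          have h7 := h6.le_pCore hPp
          have h8 : (pCore p ↥(⊤ : Subgroup X)).map (⊤ : Subgroup X).subtype ≤ pCore p X :=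
            Helper28.pCore_subnormal_le p IsSubnormal.top
          rw [hc] at h8
          exact le_bot_iff.1 (h7.trans h8)
        rw [hPbot] at hP
        exact Helper28.le_pPrimeCore hBn (Helper28.coprime_card_of_isSyl_bot hP)
      · apply Helper28.le_pPrimeCore hBn
        rw [← hcard]
        exact Nat.Coprime.mul_left hAc (Nat.Coprime.coprime_dvd_left hd hcop)
  have := key (Fin.last n)
  rw [hn] at this
  simpa using this

end Cfsg.Agent.Lib.Helper55
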