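import Cfsg.Agent.Lib.Helper55.FF12
import Cfsg.Agent.Lib.Helper55.HH
import Cfsg.Agent.Lib.Helper1.Tools
import Cfsg.Agent.Lib.Helper73.PSolvSub
import Cfsg.Agent.Lib.Helper14.PConstrained

set_option autoImplicit false
set_option linter.unusedSectionVars false

/-! A faithful model of the action of `G` on a normal subgroup `V`: the holomorph of `V`. -/

namespace Cfsg.Agent.Lib.Helper55

open Cfsg Subgroup
open scoped commutatorElement Pointwise

variable {G : Type*} [Group G]

/-- The holomorph of `V`. -/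
abbrev Hol (V : Subgroup G) : Type _ := ↥V ⋊[MonoidHom.id (MulAut ↥V)] MulAut ↥V

instance Hol.finite (V : Subgroup G) [Finite ↥V] : Finite (Hol V) :=
  Finite.of_equiv _ SemidirectProduct.equivProd.symm

/-- The action map of `G` into the holomorph. -/
def rho (V : Subgroup G) [V.Normal] : G →* Hol V :=
  SemidirectProduct.inr.comp MulAut.conjNormal

/-- The embedding of `V` into its holomorph. -/
def iot (V : Subgroup G) : ↥V →* Hol V := SemidirectProduct.inl

/-- The image of `V` in its holomorph. -/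
abbrev VV (V : Subgroup G) : Subgroup (Hol V) := (iot V).range

theorem iot_injective (V : Subgroup G) : Function.Injective (iot V) :=
  SemidirectProduct.inl_injective

section

variable (V : Subgroup G) [V.Normal]

theorem rho_conj (g : G) (v : ↥V) :
    rho V g * iot V v * (rho V g)⁻¹ = iot V (MulAut.conjNormal g v) := by
  have := SemidirectProduct.inl_aut (φ := MonoidHom.id (MulAut ↥V)) (MulAut.conjNormal g) v
  simp only [MonoidHom.id_apply] at this
  rw [iot, this, rho]
  simp

theorem range_inf_centralizer :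
    (rho V).range ⊓ centralizer ((VV V : Subgroup (Hol V)) : Set (Hol V)) = ⊥ := by
  rw [eq_bot_iff]
  rintro x ⟨⟨g, rfl⟩, hx⟩
  rw [mem_bot]
  have h1 : MulAut.conjNormal (H := V) g = 1 := by
    ext v
    have h2 := rho_conj V g v
    have h3 : iot V v * rho V g = rho V g * iot V v :=
      (mem_centralizer_iff.1 hx) (iot V v) ⟨v, rfl⟩
    rw [← h3, mul_inv_cancel_right] at h2
    have := iot_injective V h2
    rw [← this]
    rfl
  show SemidirectProduct.inr (MulAut.conjNormal g) = 1
  rw [h1, map_one]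

theorem ker_rho : (rho V).ker = centralizer (V : Set G) := by
  ext g
  rw [MonoidHom.mem_ker, mem_centralizer_iff]
  constructor
  · intro hg v hv
    have h2 := rho_conj V g ⟨v, hv⟩
    rw [hg] at h2
    simp only [one_mul, inv_one, mul_one] at h2
    have := congrArg Subtype.val (iot_injective V h2)
    rw [MulAut.conjNormal_apply] at this
    simp only at this
    rw [eq_mul_inv_iff_mul_eq] at this
    exact this
  · intro hg
    have : rho V g ∈ (rho V).range ⊓ centralizer ((VV V : Subgroup (Hol V)) : Set (Hol V)) := by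
      refine ⟨⟨g, rfl⟩, ?_⟩
      show rho V g ∈ centralizer ((VV V : Subgroup (Hol V)) : Set (Hol V))
      rw [mem_centralizer_iff]
      rintro _ ⟨v, rfl⟩
      have h2 := rho_conj V g v
      have h3 : MulAut.conjNormal g v = v := by
        ext
        rw [MulAut.conjNormal_apply, ← hg v v.2, mul_inv_cancel_right]
      rw [h3, mul_inv_eq_iff_eq_mul] at h2
      exact h2.symm
    rw [range_inf_centralizer] at this
    exact this

theorem range_le_normalizer :
    (rho V).range ≤ normalizer ((VV V : Subgroup (Hol V)) : Set (Hol V)) := by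
  apply le_normalizer_of_conj_mem
  rintro _ ⟨g, rfl⟩ _ ⟨v, rfl⟩
  exact ⟨_, (rho_conj V g v).symm⟩

theorem card_VV : Nat.card ↥(VV V) = Nat.card ↥V :=
  Nat.card_congr (MonoidHom.ofInjective (iot_injective V)).toEquiv.symm

theorem elemAb_VV {p : ℕ} (hV : IsElementaryAbelian p V) : IsElementaryAbelian p (VV V) := by
  rw [Helper14.isElementaryAbelian_iff] at hV ⊢
  constructor
  · rintro _ ⟨v, rfl⟩ _ ⟨w, rfl⟩
    rw [← map_mul, ← map_mul]
    congr 1
    ext
    exact hV.1 v v.2 w w.2
  · rintro _ ⟨v, rfl⟩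
    rw [← map_pow]
    have : v ^ p = 1 := by
      ext
      exact hV.2 v v.2
    rw [this, map_one]

/-- Transport of a subgroup of `V` to the model. -/
def up (U : Subgroup G) : Subgroup (Hol V) := (U.subgroupOf V).map (iot V)

theorem mem_up {U : Subgroup G} {x : Hol V} : x ∈ up V U ↔ ∃ v : ↥V, (v : G) ∈ U ∧ iot V v = x := by
  rw [up, mem_map]
  simp only [mem_subgroupOf]

theorem up_le (U : Subgroup G) : up V U ≤ VV V := by
  rintro _ ⟨v, -, rfl⟩
  exact ⟨v, rfl⟩

theorem card_up {U : Subgroup G} (hU : U ≤ V) : Nat.card ↥(up V U) = Nat.card ↥U := by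
  rw [up, card_map_of_injective (iot_injective V)]
  exact Nat.card_congr (subgroupOfEquivOfLe hU).toEquiv

theorem up_cv (X : Subgroup G) :
    up V (V ⊓ centralizer (X : Set G)) =
      VV V ⊓ centralizer ((X.map (rho V) : Subgroup (Hol V)) : Set (Hol V)) := by
  ext x
  rw [mem_up, mem_inf]
  constructor
  · rintro ⟨v, hv, rfl⟩
    refine ⟨⟨v, rfl⟩, ?_⟩
    rw [mem_centralizer_iff]
    rintro _ ⟨g, hg, rfl⟩
    have h2 := rho_conj V g v
    have h3 : MulAut.conjNormal g v = v := by
      ext
      rw [MulAut.conjNormal_apply, (mem_centralizer_iff.1 (mem_inf.1 hv).2) g hg,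
        mul_inv_cancel_right]
    rw [h3, mul_inv_eq_iff_eq_mul] at h2
    exact h2
  · rintro ⟨⟨v, rfl⟩, hv⟩
    refine ⟨v, ⟨v.2, ?_⟩, rfl⟩
    show (v : G) ∈ centralizer (X : Set G)
    rw [mem_centralizer_iff]
    intro g hg
    have h2 := rho_conj V g v
    rw [(mem_centralizer_iff.1 hv) (rho V g) ⟨g, hg, rfl⟩, mul_inv_cancel_right] at h2
    have := congrArg Subtype.val (iot_injective V h2)
    rw [MulAut.conjNormal_apply, eq_mul_inv_iff_mul_eq] at this
    exact this.symm

theorem card_cv (X : Subgroup G) :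
    Nat.card ↥(VV V ⊓ centralizer ((X.map (rho V) : Subgroup (Hol V)) : Set (Hol V))) =
      Nat.card ↥(V ⊓ centralizer (X : Set G)) := by
  rw [← up_cv, card_up V inf_le_left]

theorem bestOffender_map [Finite G] {p : ℕ} {A : Subgroup G} (hA : IsBestOffenderOn p V A) :
    IsBestOffenderOn p (VV V) (A.map (rho V)) := by
  obtain ⟨h1, h2, h3⟩ := hA
  refine ⟨?_, ?_, ?_⟩
  · intro B' hB'
    set B := A ⊓ B'.comap (rho V) with hB
    have hBm : B.map (rho V) = B' := by
      apply le_antisymm
      · rintro _ ⟨b, hb, rfl⟩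
        exact hb.2
      · intro x hx
        obtain ⟨a, ha, rfl⟩ := hB' hx
        exact ⟨a, ⟨ha, hx⟩, rfl⟩
    have hk : (rho V).ker ⊓ B = (rho V).ker ⊓ A := by
      apply le_antisymm (inf_le_inf_left _ inf_le_left)
      intro x hx
      refine ⟨hx.1, hx.2, ?_⟩
      show rho V x ∈ B'
      rw [MonoidHom.mem_ker.1 hx.1]
      exact one_mem _
    have e1 := Helper1.card_map_mul_card_inf_ker (rho V) B
    have e2 := Helper1.card_map_mul_card_inf_ker (rho V) A
    have e3 := h1 B inf_le_left
    rw [hk, hBm] at e1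
    rw [← hBm, card_cv, card_cv, hBm]
    rw [← e1, ← e2] at e3
    have hpos : 0 < Nat.card ↥((rho V).ker ⊓ A : Subgroup G) := Nat.card_pos
    apply Nat.le_of_mul_le_mul_right _ hpos
    calc _ = Nat.card ↥B' * Nat.card ↥((rho V).ker ⊓ A : Subgroup G) *
          Nat.card ↥(V ⊓ centralizer (B : Set G)) := by ring
      _ ≤ _ := e3
      _ = _ := by ring
  · rw [← map_commutator]
    have : ⁅A, A⁆.map (rho V) = ⊥ := by
      rw [← le_bot_iff, map_le_iff_le_comap]
      intro x hx
      have := h2 hx
      rw [← ker_rho] at this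
      exact this
    rw [this]
    exact bot_le
  · rintro _ ⟨a, ha, rfl⟩
    rw [← map_pow]
    have : rho V (a ^ p) = 1 := by
      rw [← MonoidHom.mem_ker, ker_rho]
      exact h3 a ha
    rw [this]
    exact one_mem _

theorem map_le_normalizer_map {H : Subgroup G} [hH : H.Normal] :
    (rho V).range ≤ normalizer ((H.map (rho V) : Subgroup (Hol V)) : Set (Hol V)) := by
  apply le_normalizer_of_conj_mem
  rintro _ ⟨g, rfl⟩ _ ⟨h, hh, rfl⟩
  exact ⟨g * h * g⁻¹, hH.conj_mem h hh g, by simp⟩

/-- The condition `O_p(G / C_G(V)) = 1`, phrased inside `G`. -/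
def NoPCore (p : ℕ) (V : Subgroup G) : Prop :=
  ∀ D : Subgroup G, D.Normal → centralizer (V : Set G) ≤ D →
    (∃ k : ℕ, (centralizer (V : Set G)).relIndex D = p ^ k) → D = centralizer (V : Set G)

theorem pCore_map_eq_bot [Finite G] {p : ℕ} [hp : Fact p.Prime] (hD : NoPCore p V)
    (H : Subgroup G) [H.Normal] : pCore p ↥(H.map (rho V)) = ⊥ := by
  set H' := H.map (rho V) with hH'
  set Q := pCoreOf p H' with hQ
  have hQr : Q ≤ (rho V).range := (Helper53.pCoreOf_le p H').trans (map_le_range _ _)
  have hQn : (rho V).range ≤ normalizer (Q : Set (Hol V)) :=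
    (map_le_normalizer_map V).trans (Helper53.normalizer_le_normalizer_pCoreOf p H')
  have hDn : (Q.comap (rho V)).Normal := by
    constructor
    intro x hx g
    show rho V (g * x * g⁻¹) ∈ Q
    rw [map_mul, map_mul, map_inv]
    exact (mem_normalizer_iff.1 (hQn ⟨g, rfl⟩) _).1 hx
  have hm : (Q.comap (rho V)).map (rho V) = Q := by
    rw [map_comap_eq, inf_eq_right]
    exact hQr
  have hk : centralizer (V : Set G) ≤ Q.comap (rho V) := by
    rw [← ker_rho]
    exact ker_le_comap _ _
  have h1 := hD (Q.comap (rho V)) hDn hk (by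
    obtain ⟨k, hk⟩ := (IsPGroup.iff_card.1 (Helper53.pCoreOf_isPGroup p H'))
    refine ⟨k, ?_⟩
    rw [← ker_rho, relIndex_ker, hm]
    exact hk)
  have h2 : Q = ⊥ := by
    rw [← hm, h1, ← ker_rho, ← le_bot_iff, map_le_iff_le_comap]
    intro x hx
    exact hx
  rw [Helper53.pCore_eq_subgroupOf, ← hQ, h2]
  simp

theorem ffs_model [Finite G] {p : ℕ} [hp : Fact p.Prime] (hsep : IsPSolvable p G)
    (hV : IsElementaryAbelian p V) (hD : NoPCore p V) (H : Subgroup G) [H.Normal] :
    FFS p (VV V) (H.map (rho V))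
      ((pPrimeCore p ↥(H.map (rho V))).map (H.map (rho V)).subtype) := by
  apply ffs_of (elemAb_VV V hV) ((map_le_range _ _).trans (range_le_normalizer V))
  · rw [eq_bot_iff, ← range_inf_centralizer V]
    exact inf_le_inf_right _ (map_le_range _ _)
  · apply centralizer_pPrimeCore_le
    · exact Helper14.IsPSolvable.of_map_eq (Helper73.isPSolvable_subgroup hsep H) (rho V) rfl
    · exact pCore_map_eq_bot V hD H

theorem noPCore_of_quotient [Finite G] {p : ℕ} [hp : Fact p.Prime]
    (hO : pCore p (G ⧸ centralizer (V : Set G)) = ⊥) : NoPCore p V := by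
  intro D hDn hCD ⟨k, hk⟩
  apply le_antisymm _ hCD
  have h1 : D.map (QuotientGroup.mk' (centralizer (V : Set G))) ≤
      pCore p (G ⧸ centralizer (V : Set G)) := by
    apply Helper53.le_pCore
    · exact hDn.map _ (QuotientGroup.mk'_surjective _)
    · apply IsPGroup.of_card (n := k)
      rw [Helper14.card_map_mk', hk]
  rw [hO, le_bot_iff, ← le_bot_iff, map_le_iff_le_comap] at h1
  intro x hx
  have := h1 hx
  rw [mem_comap, mem_bot, QuotientGroup.mk'_apply, QuotientGroup.eq_one_iff] at this
  exact this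

end

end Cfsg.Agent.Lib.Helper55
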