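import Cfsg.Agent.Lib.Helper55.FFS3
import Cfsg.Agent.Lib.Helper55.Model

set_option autoImplicit false
set_option linter.unusedSectionVars false

/-! A normal subgroup generated by abelian 2-subgroups maximizing `|B| |C_V(B)|` induces a direct
product of symmetric groups of degree three on `V`. -/

namespace Cfsg.Agent.Lib.Helper55

open Cfsg Subgroup
open scoped commutatorElement Pointwise

variable {G : Type*} [Group G]

section

variable (V : Subgroup G) [V.Normal]

theorem maxi_map [Finite G] {A : Subgroup G} (h1 : Maxi V A) :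
    Maxi (VV V) (A.map (rho V)) := by
  intro B' hB'
  set B := A ⊓ B'.comap (rho V) with hB
  have hBm : B.map (rho V) = B' := by
    apply le_antisymm
    · rintro _ ⟨b, hb, rfl⟩
      exact hb.2
    · intro x hx
      obtain ⟨a, ha, rfl⟩ := hB' hx
      exact ⟨a, ⟨ha, hx⟩, rfl⟩
  have hk : (rho V).ker ⊓ B = (rho V).ker ⊓ A := by
    apply le_antisymm (inf_le_inf_left _ inf_le_left)
    intro x hx
    refine ⟨hx.1, hx.2, ?_⟩
    show rho V x ∈ B'
    rw [MonoidHom.mem_ker.1 hx.1]
    exact one_mem _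
  have e1 := Helper1.card_map_mul_card_inf_ker (rho V) B
  have e2 := Helper1.card_map_mul_card_inf_ker (rho V) A
  have e3 := h1 B inf_le_left
  rw [hk, hBm] at e1
  rw [← hBm, card_cv, card_cv, hBm]
  rw [← e1, ← e2] at e3
  have hpos : 0 < Nat.card ↥((rho V).ker ⊓ A : Subgroup G) := Nat.card_pos
  apply Nat.le_of_mul_le_mul_right _ hpos
  calc _ = Nat.card ↥B' * Nat.card ↥((rho V).ker ⊓ A : Subgroup G) *
        Nat.card ↥(V ⊓ centralizer (B : Set G)) := by ring
    _ ≤ _ := e3
    _ = _ := by ring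

theorem quotient_equiv_pi_perm [Finite G] (hsep : IsPSolvable 2 G) (hV : IsElementaryAbelian 2 V)
    (hD : NoPCore 2 V) (Y : Subgroup G) [Y.Normal] (S : Set (Subgroup G)) (hY : Y = sSup S)
    (hS : ∀ A ∈ S, (∀ x ∈ A, ∀ y ∈ A, x * y = y * x) ∧ IsPGroup 2 ↥A ∧ Maxi V A)
    (N : Subgroup ↥Y) [N.Normal] (hN : N = (centralizer (V : Set G)).subgroupOf Y) :
    Y ≤ centralizer (V : Set G) ∨
      ∃ n : ℕ, 1 ≤ n ∧ Nonempty (↥Y ⧸ N ≃* (Fin n → Equiv.Perm (Fin 3))) := by
  have F := ffs_model V hsep hV hD Y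
  have hS3 : Y.map (rho V) = ⨆ A : {A : Subgroup (Hol V) // A ≤ Y.map (rho V) ∧
      IsBestOffenderOn 2 (VV V) A}, (A : Subgroup (Hol V)) := by
    apply le_antisymm
    · rw [map_le_iff_le_comap]
      conv_lhs => rw [hY]
      apply sSup_le
      intro A hA
      rw [← map_le_iff_le_comap]
      obtain ⟨hAc, hAp, hAm⟩ := hS A hA
      have hAY : A ≤ Y := hY ▸ le_sSup hA
      refine le_iSup (fun A : {A : Subgroup (Hol V) // A ≤ Y.map (rho V) ∧
        IsBestOffenderOn 2 (VV V) A} => (A : Subgroup (Hol V)))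
        ⟨A.map (rho V), map_mono hAY, F.bestOffender_of_maxi _ _ rfl (map_mono hAY) ?_
          (hAp.map _) (maxi_map V hAm)⟩
      rintro _ ⟨x, hx, rfl⟩ _ ⟨y, hy, rfl⟩
      rw [← map_mul, ← map_mul, hAc x hx y hy]
    · exact iSup_le fun A => A.2.1
  obtain ⟨n, ⟨e⟩, hn⟩ := F.nonempty_equiv_pi hS3
  by_cases h0 : n = 0
  · left
    have h1 := hn h0
    rw [← ker_rho V]
    exact (Subgroup.map_eq_bot_iff _).1 h1
  · right
    refine ⟨n, by omega, ?_⟩
    set f : ↥Y →* ↥(Y.map (rho V)) := (rho V).subgroupMap Y with hf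
    have hs : Function.Surjective f := (rho V).subgroupMap_surjective Y
    have hk : N = f.ker := by
      rw [hN]
      ext x
      rw [mem_subgroupOf, ← ker_rho, MonoidHom.mem_ker, MonoidHom.mem_ker]
      constructor
      · intro h
        exact Subtype.ext h
      · intro h
        exact congrArg Subtype.val h
    exact ⟨((QuotientGroup.quotientMulEquivOfEq hk).trans
      (QuotientGroup.quotientKerEquivOfSurjective f hs)).trans e⟩

end

end Cfsg.Agent.Lib.Helper55
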