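import Mathlib
import Cfsg.Agent.Lib.Helper3.PGroup
import Cfsg.Agent.Lib.Helper14.Sup

set_option autoImplicit false

/-! Finite groups `T = A ⟨y⟩`: fixed points of `y` on `A / A'` versus `A / T'`. -/

namespace Cfsg.Agent.Lib.Helper55

open Subgroup
open scoped commutatorElement

section Basic

variable {T : Type*} [Group T] [Finite T] {p : ℕ} [hp : Fact p.Prime]

theorem comm_of_frattini_index_dvd (h : (frattini T).index ∣ p) (a b : T) : a * b = b * a := by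
  have hcyc : IsCyclic (T ⧸ frattini T) := by
    rcases (Nat.dvd_prime hp.out).1 h with h1 | h1
    · have h2 : Nat.card (T ⧸ frattini T) = 1 := h1
      have := (Nat.card_eq_one_iff_unique.1 h2).1
      infer_instance
    · exact isCyclic_of_prime_card (p := p) h1
  obtain ⟨g, hg⟩ := hcyc.exists_generator
  obtain ⟨x, rfl⟩ := QuotientGroup.mk_surjective g
  have htop : zpowers x = ⊤ := by
    apply frattini_nongenerating
    rw [eq_top_iff]
    intro t _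
    obtain ⟨k, hk⟩ := mem_zpowers_iff.1 (hg (QuotientGroup.mk t))
    have h1 : (x ^ k)⁻¹ * t ∈ frattini T := by
      rw [← QuotientGroup.eq, QuotientGroup.mk_zpow]
      exact hk
    have h2 : t = x ^ k * ((x ^ k)⁻¹ * t) := by group
    rw [h2]
    exact mul_mem (mem_sup_left (zpow_mem (mem_zpowers x) k)) (mem_sup_right h1)
  have ha : a ∈ zpowers x := htop ▸ mem_top a
  have hb : b ∈ zpowers x := htop ▸ mem_top b
  obtain ⟨i, rfl⟩ := mem_zpowers_iff.1 ha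
  obtain ⟨j, rfl⟩ := mem_zpowers_iff.1 hb
  exact Commute.zpow_zpow_self x i j

theorem comm_of_commutator_index_dvd (hT : IsPGroup p T) (h : (commutator T).index ∣ p)
    (a b : T) : a * b = b * a :=
  comm_of_frattini_index_dvd ((index_dvd_of_le (Helper3.commutator_le_frattini hT)).trans h) a b

theorem frattini_eq_commutator (hT : IsPGroup p T) (hna : ¬ ∀ a b : T, a * b = b * a)
    (h : (commutator T).index = p ^ 2) : frattini T = commutator T := by
  have hle := Helper3.commutator_le_frattini hT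
  have hdvd : (frattini T).index ∣ p ^ 2 := h ▸ index_dvd_of_le hle
  obtain ⟨j, hj, hj'⟩ := (Nat.dvd_prime_pow hp.out).1 hdvd
  have hj2 : j = 2 := by
    by_contra hne
    apply hna
    apply comm_of_frattini_index_dvd (p := p)
    rw [hj']
    have : j ≤ 1 := by omega
    exact pow_dvd_pow p this |>.trans (by rw [pow_one])
  rw [hj2, ← h] at hj'
  have h1 := relIndex_mul_index hle
  rw [hj'] at h1
  have h2 : (commutator T).relIndex (frattini T) = 1 := by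
    have hpos : 0 < (commutator T).index := Nat.pos_of_ne_zero index_ne_zero_of_finite
    exact Nat.eq_of_mul_eq_mul_right hpos (by rw [h1, one_mul])
  exact le_antisymm (relIndex_eq_one.1 h2) hle

theorem index_commutator_le_card_centralizer (x : T) :
    (commutator T).index ≤ Nat.card ↥(centralizer ({x} : Set T)) := by
  set C := centralizer ({x} : Set T) with hC
  have hinj : C.index ≤ Nat.card ↥(commutator T) := by
    let f : T ⧸ C → ↥(commutator T) := fun q =>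
      ⟨⁅q.out, x⁆, commutator_mem_commutator (mem_top _) (mem_top _)⟩
    apply Nat.card_le_card_of_injective f
    intro q q' h
    have h1 : ⁅q.out, x⁆ = ⁅q'.out, x⁆ := congrArg Subtype.val h
    rw [← q.out_eq', ← q'.out_eq']
    apply QuotientGroup.eq.2
    refine mem_centralizer_singleton_iff.2 ?_
    rw [commutatorElement_def, commutatorElement_def] at h1
    have h2 : q.out * x * q.out⁻¹ = q'.out * x * q'.out⁻¹ := mul_right_cancel h1
    calc q.out⁻¹ * q'.out * x = q.out⁻¹ * (q'.out * x * q'.out⁻¹) * q'.out := by group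
      _ = q.out⁻¹ * (q.out * x * q.out⁻¹) * q'.out := by rw [h2]
      _ = x * (q.out⁻¹ * q'.out) := by group
  have h1 := C.card_mul_index
  have h2 := (commutator T).card_mul_index
  have hpos : 0 < Nat.card ↥(commutator T) := Nat.card_pos
  have h3 : Nat.card ↥(commutator T) * (commutator T).index ≤
      Nat.card ↥(commutator T) * Nat.card ↥C := by
    rw [h2, ← h1, mul_comm]
    exact Nat.mul_le_mul_right _ hinj
  exact Nat.le_of_mul_le_mul_left h3 hpos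

end Basic

section Fix

variable {T : Type*} [Group T] (A : Subgroup T) [hA : A.Normal] (y : T)

/-- The endomorphism of `A / A'` induced by conjugation with `g`. -/
noncomputable def sigAb (g : T) : Abelianization ↥A →* Abelianization ↥A :=
  Abelianization.map (MulAut.conjNormal g : MulAut ↥A).toMonoidHom

theorem sigAb_of (g : T) (a : ↥A) :
    sigAb A g (Abelianization.of a) = Abelianization.of (MulAut.conjNormal g a) :=
  Abelianization.map_of _ _

/-- `b ↦ b / σ b`. -/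
noncomputable def delAb : Abelianization ↥A →* Abelianization ↥A where
  toFun b := b * (sigAb A y b)⁻¹
  map_one' := by simp
  map_mul' a b := by
    rw [map_mul, mul_inv]
    exact mul_mul_mul_comm _ _ _ _

theorem delAb_apply (b : Abelianization ↥A) : delAb A y b = b * (sigAb A y b)⁻¹ := rfl

/-- The preimage in `T` of the image of `1 - σ`. -/
noncomputable def jSub : Subgroup T :=
  ((delAb A y).range.comap Abelianization.of).map A.subtype

theorem mem_jSub {t : T} : t ∈ jSub A y ↔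
    ∃ ht : t ∈ A, Abelianization.of (⟨t, ht⟩ : ↥A) ∈ (delAb A y).range := by
  constructor
  · rintro ⟨a, ha, rfl⟩
    exact ⟨a.2, ha⟩
  · rintro ⟨ht, h⟩
    exact ⟨⟨t, ht⟩, h, rfl⟩

theorem jSub_le : jSub A y ≤ A := fun _ ht => ((mem_jSub A y).1 ht).1

theorem comm_mem_jSub {a : T} (ha : a ∈ A) : ⁅a, y⁆ ∈ jSub A y := by
  have h1 : ⁅a, y⁆ ∈ A := by
    have : ⁅a, y⁆ = a * (y * a⁻¹ * y⁻¹) := by rw [commutatorElement_def]; group
    rw [this]
    exact A.mul_mem ha (hA.conj_mem _ (A.inv_mem ha) y)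
  refine (mem_jSub A y).2 ⟨h1, ⟨Abelianization.of ⟨a, ha⟩, ?_⟩⟩
  rw [delAb_apply, sigAb_of, ← map_inv, ← map_mul]
  congr 1
  apply Subtype.ext
  simp only [Subgroup.coe_mul, Subgroup.coe_inv, MulAut.conjNormal_apply, commutatorElement_def]
  group

theorem of_comm_eq_one (a b : ↥A) : Abelianization.of ⁅a, b⁆ = 1 := by
  rw [map_commutatorElement, commutatorElement_eq_one_iff_mul_comm]
  exact mul_comm _ _

theorem comm_mem_jSub' {a b : T} (ha : a ∈ A) (hb : b ∈ A) : ⁅a, b⁆ ∈ jSub A y := by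
  have h1 : ⁅a, b⁆ ∈ A := (⁅(⟨a, ha⟩ : ↥A), ⟨b, hb⟩⁆ : ↥A).2
  refine (mem_jSub A y).2 ⟨h1, ?_⟩
  have h2 : (⟨⁅a, b⁆, h1⟩ : ↥A) = ⁅(⟨a, ha⟩ : ↥A), ⟨b, hb⟩⁆ := rfl
  rw [h2, of_comm_eq_one]
  exact one_mem _

theorem conj_mem_jSub_of_mem {a t : T} (ha : a ∈ A) (ht : t ∈ jSub A y) :
    a * t * a⁻¹ ∈ jSub A y := by
  obtain ⟨htA, h⟩ := (mem_jSub A y).1 ht
  refine (mem_jSub A y).2 ⟨hA.conj_mem t htA a, ?_⟩
  have h2 : (⟨a * t * a⁻¹, hA.conj_mem t htA a⟩ : ↥A) = ⟨a, ha⟩ * ⟨t, htA⟩ * ⟨a, ha⟩⁻¹ := rfl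
  rw [h2, map_mul, map_mul, map_inv, mul_comm (Abelianization.of _) _, mul_inv_cancel_right]
  exact h

theorem conj_mem_jSub_of_commute {g t : T} (hg : Commute g y) (ht : t ∈ jSub A y) :
    g * t * g⁻¹ ∈ jSub A y := by
  obtain ⟨htA, b, hb⟩ := (mem_jSub A y).1 ht
  refine (mem_jSub A y).2 ⟨hA.conj_mem t htA g, ⟨sigAb A g b, ?_⟩⟩
  have h2 : (⟨g * t * g⁻¹, hA.conj_mem t htA g⟩ : ↥A) = MulAut.conjNormal g ⟨t, htA⟩ :=
    Subtype.ext (MulAut.conjNormal_apply g (⟨t, htA⟩ : ↥A)).symm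
  rw [h2, ← sigAb_of, ← hb, delAb_apply, delAb_apply, map_mul, map_inv]
  congr 2
  obtain ⟨a, rfl⟩ := QuotientGroup.mk_surjective b
  change sigAb A y (sigAb A g (Abelianization.of a)) = sigAb A g (sigAb A y (Abelianization.of a))
  rw [sigAb_of, sigAb_of, sigAb_of, sigAb_of]
  congr 1
  apply Subtype.ext
  simp only [MulAut.conjNormal_apply]
  have h3 : y * g = g * y := hg.eq.symm
  calc y * (g * a * g⁻¹) * y⁻¹ = (y * g) * a * (y * g)⁻¹ := by group
    _ = (g * y) * a * (g * y)⁻¹ := by rw [h3]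
    _ = g * (y * a * y⁻¹) * g⁻¹ := by group

variable {A y}

theorem exists_eq_mul_zpow (hAy : A ⊔ zpowers y = ⊤) (g : T) :
    ∃ a ∈ A, ∃ k : ℤ, g = a * y ^ k := by
  have hg : g ∈ A ⊔ zpowers y := hAy ▸ mem_top g
  rw [mem_sup_of_normal_left] at hg
  obtain ⟨a, ha, z, hz, rfl⟩ := hg
  obtain ⟨k, rfl⟩ := mem_zpowers_iff.1 hz
  exact ⟨a, ha, k, rfl⟩

theorem jSub_normal (hAy : A ⊔ zpowers y = ⊤) : (jSub A y).Normal := by
  refine ⟨fun t ht g => ?_⟩
  obtain ⟨a, ha, k, rfl⟩ := exists_eq_mul_zpow hAy g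
  have h1 := conj_mem_jSub_of_mem A y ha
    (conj_mem_jSub_of_commute A y (g := y ^ k) ((Commute.refl y).zpow_left k) ht)
  have h2 : a * y ^ k * t * (a * y ^ k)⁻¹ = a * (y ^ k * t * (y ^ k)⁻¹) * a⁻¹ := by group
  rw [h2]
  exact h1

theorem commutator_le_jSub (hAy : A ⊔ zpowers y = ⊤) : commutator T ≤ jSub A y := by
  have hn := jSub_normal hAy
  rw [commutator_def, commutator_le]
  intro g _ h _
  obtain ⟨a, ha, k, rfl⟩ := exists_eq_mul_zpow hAy g
  obtain ⟨b, hb, l, rfl⟩ := exists_eq_mul_zpow hAy h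
  have key : ∀ u v : T, ⁅u, v⁆ ∈ jSub A y →
      Commute (QuotientGroup.mk' (jSub A y) u) (QuotientGroup.mk' (jSub A y) v) := by
    intro u v huv
    have h1 : QuotientGroup.mk' (jSub A y) ⁅u, v⁆ = 1 := (QuotientGroup.eq_one_iff _).2 huv
    rw [map_commutatorElement, commutatorElement_eq_one_iff_mul_comm] at h1
    exact h1
  have h1 := key a b (comm_mem_jSub' A y ha hb)
  have h2 := key a y (comm_mem_jSub A y ha)
  have h3 := key b y (comm_mem_jSub A y hb)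
  have h4 : Commute (QuotientGroup.mk' (jSub A y) (a * y ^ k))
      (QuotientGroup.mk' (jSub A y) (b * y ^ l)) := by
    rw [map_mul, map_mul, map_zpow, map_zpow]
    exact Commute.mul_left (Commute.mul_right h1 (h2.zpow_right l))
      (Commute.mul_right (h3.zpow_right k).symm (Commute.zpow_zpow_self _ k l))
  rw [← QuotientGroup.eq_one_iff]
  change QuotientGroup.mk' (jSub A y) _ = 1
  rw [map_commutatorElement, commutatorElement_eq_one_iff_mul_comm]
  exact h4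

theorem card_ker_delAb_dvd [Finite T] (hAy : A ⊔ zpowers y = ⊤) :
    Nat.card ↥(delAb A y).ker ∣ (commutator T).relIndex A := by
  have h1 : (jSub A y).relIndex A ∣ (commutator T).relIndex A :=
    relIndex_dvd_of_le_left A (commutator_le_jSub hAy)
  have h2 : (jSub A y).relIndex A = (delAb A y).range.index := by
    rw [relIndex, jSub]
    have : (((delAb A y).range.comap Abelianization.of).map A.subtype).subgroupOf A =
        (delAb A y).range.comap Abelianization.of := by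
      rw [subgroupOf, comap_map_eq_self_of_injective A.subtype_injective]
    rw [this, index_comap_of_surjective _ (QuotientGroup.mk_surjective)]
  have h3 := (delAb A y).range.card_mul_index
  have h4 := (delAb A y).ker.card_mul_index
  rw [index_ker] at h4
  have h5 : (delAb A y).range.index = Nat.card ↥(delAb A y).ker := by
    have hpos : 0 < Nat.card ↥(delAb A y).range := Nat.card_pos
    apply Nat.eq_of_mul_eq_mul_left hpos
    rw [h3, ← h4, mul_comm]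
  rw [← h5, ← h2]
  exact h1

theorem card_inf_centralizer_le [Finite T] (hab : ∀ a ∈ A, ∀ b ∈ A, a * b = b * a) :
    Nat.card ↥(A ⊓ centralizer ({y} : Set T)) ≤ Nat.card ↥(delAb A y).ker := by
  have hfix : ∀ a : ↥(A ⊓ centralizer ({y} : Set T)),
      Abelianization.of (⟨a, a.2.1⟩ : ↥A) ∈ (delAb A y).ker := by
    intro a
    rw [MonoidHom.mem_ker, delAb_apply, sigAb_of]
    have h1 : MulAut.conjNormal y (⟨a, a.2.1⟩ : ↥A) = ⟨a, a.2.1⟩ := by
      apply Subtype.ext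
      rw [MulAut.conjNormal_apply]
      have h2 := mem_centralizer_singleton_iff.1 a.2.2
      change y * (a : T) * y⁻¹ = a
      rw [← h2]
      group
    rw [h1, mul_inv_cancel]
  apply Nat.card_le_card_of_injective (fun a => (⟨_, hfix a⟩ : ↥(delAb A y).ker))
  intro a b h
  have h1 : Abelianization.of (⟨a, a.2.1⟩ : ↥A) = Abelianization.of (⟨b, b.2.1⟩ : ↥A) :=
    congrArg Subtype.val h
  have h2 : (⟨a, a.2.1⟩ : ↥A)⁻¹ * ⟨b, b.2.1⟩ ∈ commutator ↥A := QuotientGroup.eq.1 h1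
  have h3 : commutator ↥A ≤ ⊥ := by
    rw [commutator_def, commutator_le]
    intro g _ h _
    rw [mem_bot, commutatorElement_eq_one_iff_mul_comm]
    exact Subtype.ext (hab g g.2 h h.2)
  have h4 := h3 h2
  rw [mem_bot, inv_mul_eq_one] at h4
  exact Subtype.ext (congrArg (fun t : ↥A => (t : T)) h4)

theorem comm_mul_mul {R A₂ : Subgroup T} (hcomm : ∀ r ∈ R, ∀ s ∈ A₂, r * s = s * r)
    {r₁ r₂ s₁ s₂ : T} (hr₁ : r₁ ∈ R) (hr₂ : r₂ ∈ R) (hs₁ : s₁ ∈ A₂) (hs₂ : s₂ ∈ A₂) :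
    ⁅r₁ * s₁, r₂ * s₂⁆ = ⁅r₁, r₂⁆ * ⁅s₁, s₂⁆ := by
  let f : ↥R × ↥A₂ →* T := R.subtype.noncommCoprod A₂.subtype
    (fun r s => hcomm r r.2 s s.2)
  have h1 : f (⟨r₁, hr₁⟩, ⟨s₁, hs₁⟩) = r₁ * s₁ := rfl
  have h2 : f (⟨r₂, hr₂⟩, ⟨s₂, hs₂⟩) = r₂ * s₂ := rfl
  rw [← h1, ← h2, ← map_commutatorElement]
  rfl

theorem pow_mul_inv_eq {R A₂ : Subgroup T} {n : ℕ}
    (hconj : ∀ k : ℕ, 1 ≤ k → k < n → ∀ r ∈ R, y ^ k * r * (y ^ k)⁻¹ ∈ A₂) {r : T} (hr : r ∈ R) :
    ∀ k : ℕ, k < n → ∃ s ∈ A₂, (r * y) ^ (k + 1) * (y ^ (k + 1))⁻¹ = r * s := by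
  intro k
  induction k with
  | zero =>
    intro _
    exact ⟨1, one_mem _, by simp⟩
  | succ k ih =>
    intro hk
    obtain ⟨s, hs, hs'⟩ := ih (by omega)
    refine ⟨s * (y ^ (k + 1) * r * (y ^ (k + 1))⁻¹), mul_mem hs (hconj (k + 1) (by omega) hk r hr), ?_⟩
    rw [← mul_assoc, ← hs', pow_succ (r * y) (k + 1), pow_succ y (k + 1)]
    group

theorem index_commutator_le_of_wreath [Finite T] {R A₂ : Subgroup T} {n : ℕ}
    (hRA : R ≤ A) (hA₂A : A₂ ≤ A)
    (hcomm : ∀ r ∈ R, ∀ s ∈ A₂, r * s = s * r) (hdisj : R ⊓ A₂ = ⊥)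
    (hprod : ∀ a ∈ A, ∃ r ∈ R, ∃ s ∈ A₂, a = r * s)
    (hconj : ∀ k : ℕ, 1 ≤ k → k < n → ∀ r ∈ R, y ^ k * r * (y ^ k)⁻¹ ∈ A₂)
    (hpow : ∀ g : T, g ^ n ∈ A) (hn : 1 ≤ n) :
    (commutator ↥R).index ≤ Nat.card ↥(delAb A y).ker := by
  obtain ⟨m, rfl⟩ : ∃ m, n = m + 1 := ⟨n - 1, by omega⟩
  have hnA : ∀ r : T, (r * y) ^ (m + 1) * (y ^ (m + 1))⁻¹ ∈ A := fun r =>
    A.mul_mem (hpow _) (A.inv_mem (hpow _))
  have hfix : ∀ r : ↥R, Abelianization.of
      (⟨((r : T) * y) ^ (m + 1) * (y ^ (m + 1))⁻¹, hnA r⟩ : ↥A) ∈ (delAb A y).ker := by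
    intro r
    rw [MonoidHom.mem_ker, delAb_apply, sigAb_of]
    have h1 : MulAut.conjNormal y (⟨((r : T) * y) ^ (m + 1) * (y ^ (m + 1))⁻¹, hnA r⟩ : ↥A) =
        (⟨r, hRA r.2⟩ : ↥A)⁻¹ * ⟨((r : T) * y) ^ (m + 1), hpow _⟩ * ⟨r, hRA r.2⟩ *
          (⟨y ^ (m + 1), hpow _⟩ : ↥A)⁻¹ := by
      apply Subtype.ext
      rw [MulAut.conjNormal_apply]
      change y * (((r : T) * y) ^ (m + 1) * (y ^ (m + 1))⁻¹) * y⁻¹ =
        (r : T)⁻¹ * ((r : T) * y) ^ (m + 1) * r * (y ^ (m + 1))⁻¹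
      have h2 : Commute ((r : T) * y) (((r : T) * y) ^ (m + 1)) := (Commute.refl _).pow_right _
      have h4 : Commute y (y ^ (m + 1)) := (Commute.refl _).pow_right _
      generalize ((r : T) * y) ^ (m + 1) = u at h2 ⊢
      generalize y ^ (m + 1) = v at h4 ⊢
      have h3 : y * u = (r : T)⁻¹ * u * r * y := by
        have := h2.eq
        calc y * u = (r : T)⁻¹ * ((r : T) * y * u) := by group
          _ = (r : T)⁻¹ * (u * ((r : T) * y)) := by rw [this]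
          _ = _ := by group
      have h5 : y * v⁻¹ = v⁻¹ * y := (h4.inv_right).eq
      calc y * (u * v⁻¹) * y⁻¹ = (y * u) * v⁻¹ * y⁻¹ := by group
        _ = (r : T)⁻¹ * u * r * (y * v⁻¹) * y⁻¹ := by rw [h3]; group
        _ = _ := by rw [h5]; group
    have h5 : (⟨((r : T) * y) ^ (m + 1) * (y ^ (m + 1))⁻¹, hnA r⟩ : ↥A) =
        ⟨((r : T) * y) ^ (m + 1), hpow _⟩ * (⟨y ^ (m + 1), hpow _⟩ : ↥A)⁻¹ := rfl
    rw [h1, h5]
    simp only [map_mul, map_inv]
    rw [mul_comm (Abelianization.of (⟨r, hRA r.2⟩ : ↥A))⁻¹ _, inv_mul_cancel_right, mul_inv_cancel]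
  apply Nat.card_le_card_of_injective
    (fun q : ↥R ⧸ commutator ↥R => (⟨_, hfix q.out⟩ : ↥(delAb A y).ker))
  intro q q' h
  have h1 := congrArg Subtype.val h
  have h2 := QuotientGroup.eq.1 h1
  have h3 : ((((q.out : ↥R) : T) * y) ^ (m + 1) * (y ^ (m + 1))⁻¹)⁻¹ *
      ((((q'.out : ↥R) : T) * y) ^ (m + 1) * (y ^ (m + 1))⁻¹) ∈ ⁅A, A⁆ := by
    rw [← map_subtype_commutator]
    exact ⟨_, h2, rfl⟩
  obtain ⟨s, hs, hs'⟩ := pow_mul_inv_eq hconj q.out.2 m (by omega)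
  obtain ⟨s', hs₂, hs₂'⟩ := pow_mul_inv_eq hconj q'.out.2 m (by omega)
  rw [hs', hs₂'] at h3
  have hle : ⁅A, A⁆ ≤ ⁅R, R⁆ ⊔ A₂ := by
    rw [commutator_le]
    intro a ha b hb
    obtain ⟨r₁, hr₁, s₁, hs₁, rfl⟩ := hprod a ha
    obtain ⟨r₂, hr₂, s₂, hs₂, rfl⟩ := hprod b hb
    rw [comm_mul_mul hcomm hr₁ hr₂ hs₁ hs₂]
    exact mul_mem (mem_sup_left (commutator_mem_commutator hr₁ hr₂))
      (mem_sup_right ((⁅(⟨s₁, hs₁⟩ : ↥A₂), ⟨s₂, hs₂⟩⁆ : ↥A₂).2))
  have hRR : ⁅R, R⁆ ≤ R := commutator_le_self R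
  have h4 := hle h3
  rw [Helper14.mem_sup_of_commute (fun r hr s hs => hcomm r (hRR hr) s hs)] at h4
  obtain ⟨d, hd, e, he, hde⟩ := h4
  have h5 : ((q.out : ↥R) : T)⁻¹ * ((q'.out : ↥R) : T) = d := by
    have h6 : d⁻¹ * (((q.out : ↥R) : T)⁻¹ * ((q'.out : ↥R) : T)) ∈ R ⊓ A₂ := by
      refine ⟨R.mul_mem (R.inv_mem (hRR hd)) (R.mul_mem (R.inv_mem q.out.2) q'.out.2), ?_⟩
      have h7 : d⁻¹ * (((q.out : ↥R) : T)⁻¹ * ((q'.out : ↥R) : T)) = e * (s' )⁻¹ * s := by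
        have c1 : s⁻¹ * ((q.out : ↥R) : T)⁻¹ = ((q.out : ↥R) : T)⁻¹ * s⁻¹ :=
          (hcomm _ (inv_mem q.out.2) _ (inv_mem hs)).symm
        have c2 : s⁻¹ * ((q'.out : ↥R) : T) = ((q'.out : ↥R) : T) * s⁻¹ :=
          (hcomm _ q'.out.2 _ (inv_mem hs)).symm
        have h8 : ((q.out : ↥R) : T)⁻¹ * ((q'.out : ↥R) : T) * (s⁻¹ * s') = d * e := by
          rw [← hde]
          calc ((q.out : ↥R) : T)⁻¹ * ((q'.out : ↥R) : T) * (s⁻¹ * s')
              = ((q.out : ↥R) : T)⁻¹ * (((q'.out : ↥R) : T) * s⁻¹) * s' := by group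
            _ = ((q.out : ↥R) : T)⁻¹ * (s⁻¹ * ((q'.out : ↥R) : T)) * s' := by rw [c2]
            _ = (((q.out : ↥R) : T)⁻¹ * s⁻¹) * ((q'.out : ↥R) : T) * s' := by group
            _ = (s⁻¹ * ((q.out : ↥R) : T)⁻¹) * ((q'.out : ↥R) : T) * s' := by rw [c1]
            _ = _ := by group
        calc d⁻¹ * (((q.out : ↥R) : T)⁻¹ * ((q'.out : ↥R) : T))
            = d⁻¹ * (((q.out : ↥R) : T)⁻¹ * ((q'.out : ↥R) : T) * (s⁻¹ * s')) * (s'⁻¹ * s) := by
              group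
          _ = d⁻¹ * (d * e) * (s'⁻¹ * s) := by rw [h8]
          _ = _ := by group
      rw [h7]
      exact A₂.mul_mem (A₂.mul_mem he (A₂.inv_mem hs₂)) hs
    rw [hdisj, mem_bot] at h6
    exact (inv_mul_eq_one.1 h6).symm
  rw [← q.out_eq', ← q'.out_eq']
  apply QuotientGroup.eq.2
  rw [← map_subtype_commutator] at hd
  obtain ⟨c, hc, hcd⟩ := hd
  have : c = (q.out)⁻¹ * q'.out := Subtype.ext (hcd.trans h5.symm)
  rw [← this]
  exact hc

end Fix

end Cfsg.Agent.Lib.Helper55
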