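import Mathlib.GroupTheory.Sylow
import Mathlib.Logic.Relation
import Cfsg.Prelude.Def_SylowControl
import Cfsg.Agent.Lib.Helper55.Basic

set_option autoImplicit false

namespace Cfsg.Agent.Lib.Helper55

open Cfsg

section Chains

variable {α β : Type*}

theorem fin_chain_induction (Q : α → Prop) {n : ℕ} (c : Fin (n + 1) → α) (h0 : Q (c 0))
    (hstep : ∀ i : Fin n, Q (c i.castSucc) → Q (c i.succ)) : ∀ i, Q (c i) := by
  intro i
  induction i using Fin.induction with
  | zero => exact h0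
  | succ i ih => exact hstep i ih

theorem reflTransGen_of_fin_chain (P : α → α → β → Prop) {n : ℕ} (c : Fin (n + 1) → α)
    (w : Fin n → β) (h : ∀ i : Fin n, P (c i.castSucc) (c i.succ) (w i)) :
    Relation.ReflTransGen (fun r r' => ∃ w, P r r' w) (c 0) (c (Fin.last n)) := by
  apply fin_chain_induction (fun r => Relation.ReflTransGen (fun r r' => ∃ w, P r r' w) (c 0) r) c
    Relation.ReflTransGen.refl
  intro i hi
  exact hi.tail ⟨w i, h i⟩

theorem fin_chain_of_reflTransGen (P : α → α → β → Prop) {a b : α}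
    (h : Relation.ReflTransGen (fun r r' => ∃ w, P r r' w) a b) :
    ∃ (n : ℕ) (c : Fin (n + 1) → α) (w : Fin n → β), c 0 = a ∧ c (Fin.last n) = b ∧
      ∀ i : Fin n, P (c i.castSucc) (c i.succ) (w i) := by
  induction h with
  | refl => exact ⟨0, fun _ => a, Fin.elim0, rfl, rfl, fun i => i.elim0⟩
  | @tail b' c' _ hbc ih =>
    obtain ⟨n, c, w, h0, hl, hP⟩ := ih
    obtain ⟨w', hw'⟩ := hbc
    refine ⟨n + 1, Fin.snoc c c', Fin.snoc w w', ?_, ?_, ?_⟩
    · have : (0 : Fin (n + 1 + 1)) = Fin.castSucc (0 : Fin (n + 1)) := rfl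
      rw [this, Fin.snoc_castSucc, h0]
    · rw [Fin.snoc_last]
    · intro i
      induction i using Fin.lastCases with
      | last =>
        rw [Fin.snoc_castSucc, Fin.succ_last, Fin.snoc_last, Fin.snoc_last, hl]
        exact hw'
      | cast j =>
        rw [Fin.snoc_castSucc, Fin.snoc_castSucc, ← Fin.castSucc_succ, Fin.snoc_castSucc]
        exact hP j

end Chains

section Conj

variable {G : Type*} [Group G]

theorem mem_conjR {g x : G} {X : Subgroup G} :
    x ∈ subgroupConjRight g X ↔ g * x * g⁻¹ ∈ X := by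
  unfold subgroupConjRight
  rw [mem_map_conj]
  simp

theorem conjR_mem_conjR {g x : G} {X : Subgroup G} (hx : x ∈ X) :
    g⁻¹ * x * g ∈ subgroupConjRight g X := by
  rw [mem_conjR]
  simpa [mul_assoc] using hx

theorem conjR_conjR (g h : G) (X : Subgroup G) :
    subgroupConjRight h (subgroupConjRight g X) = subgroupConjRight (g * h) X := by
  ext x
  simp only [mem_conjR]
  simp [mul_assoc]

@[simp] theorem conjR_one (X : Subgroup G) : subgroupConjRight 1 X = X := by
  ext x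
  simp [mem_conjR]

theorem conjR_mono (g : G) {X Y : Subgroup G} (h : X ≤ Y) :
    subgroupConjRight g X ≤ subgroupConjRight g Y := Subgroup.map_mono h

theorem conjR_inf (g : G) (X Y : Subgroup G) :
    subgroupConjRight g (X ⊓ Y) = subgroupConjRight g X ⊓ subgroupConjRight g Y := by
  ext x
  simp only [mem_conjR, Subgroup.mem_inf]

theorem conjR_eq_self_of_mem {x : G} {X : Subgroup G} (hx : x ∈ X) : subgroupConjRight x X = X := by
  ext y
  rw [mem_conjR]
  constructor
  · intro h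
    have := X.mul_mem (X.mul_mem (X.inv_mem hx) h) hx
    simpa [mul_assoc] using this
  · intro h
    exact X.mul_mem (X.mul_mem hx h) (X.inv_mem hx)

theorem conjR_inv_conjR (g : G) (X : Subgroup G) :
    subgroupConjRight g⁻¹ (subgroupConjRight g X) = X := by
  rw [conjR_conjR]; simp

theorem conjR_conjR_inv (g : G) (X : Subgroup G) :
    subgroupConjRight g (subgroupConjRight g⁻¹ X) = X := by
  rw [conjR_conjR]; simp

theorem conjR_le_iff {g : G} {X Y : Subgroup G} :
    subgroupConjRight g X ≤ Y ↔ X ≤ subgroupConjRight g⁻¹ Y := by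
  constructor
  · intro h
    have := conjR_mono g⁻¹ h
    rwa [conjR_inv_conjR] at this
  · intro h
    have := conjR_mono g h
    rwa [conjR_conjR_inv] at this

theorem card_conjR (g : G) (X : Subgroup G) :
    Nat.card ↥(subgroupConjRight g X) = Nat.card ↥X :=
  Subgroup.card_map_of_injective (MulAut.conj g⁻¹).injective

theorem conjR_eq_bot_iff {g : G} {X : Subgroup G} : subgroupConjRight g X = ⊥ ↔ X = ⊥ :=
  Subgroup.map_eq_bot_iff_of_injective X (MulAut.conj g⁻¹).injective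

theorem mem_normalizer_of_conjR_eq {g : G} {X : Subgroup G} (h : subgroupConjRight g X = X) :
    g ∈ Subgroup.normalizer (X : Set G) := by
  have : g⁻¹ ∈ Subgroup.normalizer (X : Set G) := Subgroup.mem_normalizer_iff_map_conj_eq.2 h
  simpa using Subgroup.inv_mem _ this

theorem conjR_eq_of_mem_normalizer {g : G} {X : Subgroup G}
    (h : g ∈ Subgroup.normalizer (X : Set G)) : subgroupConjRight g X = X :=
  Subgroup.mem_normalizer_iff_map_conj_eq.1 (Subgroup.inv_mem _ h)

/-- right conjugate of a Sylow subgroup -/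
def sylConjR {p : ℕ} (g : G) (S : Sylow p G) : Sylow p G := MulAut.conj g⁻¹ • S

@[simp] theorem coe_sylConjR {p : ℕ} (g : G) (S : Sylow p G) :
    ((sylConjR g S : Sylow p G) : Subgroup G) = subgroupConjRight g (S : Subgroup G) := rfl

theorem exists_sylConjR_eq [Finite G] {p : ℕ} [Fact p.Prime] (S T : Sylow p G) :
    ∃ g : G, T = sylConjR g S := by
  obtain ⟨g, hg⟩ := MulAction.exists_smul_eq G S T
  refine ⟨g⁻¹, ?_⟩
  rw [← hg]
  apply Sylow.ext
  show _ = subgroupConjRight g⁻¹ (S : Subgroup G)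
  unfold subgroupConjRight
  rw [inv_inv]
  rfl

end Conj

section Members

variable {G : Type*} [Group G] [Finite G] {p : ℕ} [Fact p.Prime]

/-- `D` is (the image in `G` of) a Sylow `p`-subgroup of `X`, in terms of orders. -/
theorem exists_sylow_map_eq_iff {X D : Subgroup G} :
    (∃ P : Sylow p ↥X, (P : Subgroup ↥X).map X.subtype = D) ↔
      D ≤ X ∧ Nat.card ↥D = p ^ (Nat.card ↥X).factorization p := by
  constructor
  · rintro ⟨P, rfl⟩
    refine ⟨Subgroup.map_subtype_le _, ?_⟩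
    rw [Subgroup.card_map_of_injective X.subtype_injective]
    exact P.card_eq_multiplicity
  · rintro ⟨hle, hcard⟩
    have h1 : Nat.card ↥(D.subgroupOf X) = p ^ (Nat.card ↥X).factorization p := by
      rw [← hcard]
      exact Nat.card_congr (Subgroup.subgroupOfEquivOfLe hle).toEquiv
    exact ⟨Sylow.ofCard _ h1, by rw [Sylow.coe_ofCard]; exact Subgroup.map_subgroupOf_eq_of_le hle⟩

theorem mem_sylowMembers_iff {𝓕 : Set (Subgroup G)} {S X : Subgroup G} :
    X ∈ sylowMembers p 𝓕 S ↔ X ∈ 𝓕 ∧ Nat.card ↥(S ⊓ X) = p ^ (Nat.card ↥X).factorization p := by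
  unfold sylowMembers
  show (X ∈ 𝓕 ∧ ∃ P : Sylow p ↥X, (P : Subgroup ↥X).map X.subtype = S ⊓ X) ↔ _
  rw [exists_sylow_map_eq_iff]
  constructor
  · rintro ⟨h1, -, h2⟩; exact ⟨h1, h2⟩
  · rintro ⟨h1, h2⟩; exact ⟨h1, inf_le_right, h2⟩

theorem conjR_mem_sylowMembers {𝓕 : Set (Subgroup G)} (h𝓕 : IsNormalSet 𝓕) {S X : Subgroup G}
    (h : X ∈ sylowMembers p 𝓕 S) (g : G) :
    subgroupConjRight g X ∈ sylowMembers p 𝓕 (subgroupConjRight g S) := by
  rw [mem_sylowMembers_iff] at h ⊢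
  refine ⟨h𝓕 X h.1 g, ?_⟩
  rw [← conjR_inf, card_conjR, card_conjR]
  exact h.2

omit [Finite G] [Fact p.Prime] in
/-- A Sylow subgroup of `G` contained in `X` makes `X` a member of `𝓕(S)`. -/
theorem mem_sylowMembers_of_le {𝓕 : Set (Subgroup G)} {S : Sylow p G} {X : Subgroup G}
    (hX : X ∈ 𝓕) (hle : (S : Subgroup G) ≤ X) : X ∈ sylowMembers p 𝓕 (S : Subgroup G) :=
  ⟨hX, S.subtype hle, by
    rw [Sylow.coe_subtype, Subgroup.map_subgroupOf_eq_of_le hle, inf_of_le_left hle]⟩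

end Members

section Step

variable {G : Type*} [Group G]

/-- One link of a chain in the definition of control of Sylow intersections. -/
def CtlStep (p : ℕ) (𝓕 : Set (Subgroup G)) (D : Subgroup G) (R R' : Sylow p G)
    (w : Subgroup G × G) : Prop :=
  w.1 ∈ sylowMembers p 𝓕 (R : Subgroup G) ∧ w.1 ∈ sylowMembers p 𝓕 (R' : Subgroup G) ∧
    w.2 ∈ w.1 ∧ subgroupConjRight w.2 (R' : Subgroup G) = (R : Subgroup G) ∧
    D ≤ (R' : Subgroup G) ⊓ w.1

/-- Chains of links. -/
def CtlChain (p : ℕ) (𝓕 : Set (Subgroup G)) (D : Subgroup G) (R R' : Sylow p G) : Prop :=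
  Relation.ReflTransGen (fun r r' => ∃ w, CtlStep p 𝓕 D r r' w) R R'

theorem controls_iff {p : ℕ} {𝓕 : Set (Subgroup G)} :
    ControlsSylowIntersections p 𝓕 ↔
      ∀ S T : Sylow p G, S ≠ T → (S : Subgroup G) ⊓ (T : Subgroup G) ≠ ⊥ →
        CtlChain p 𝓕 ((S : Subgroup G) ⊓ (T : Subgroup G)) S T := by
  constructor
  · intro h S T hne hint
    obtain ⟨n, c, X, x, h0, hl, hstep⟩ := h S T hne hint
    have := reflTransGen_of_fin_chain (CtlStep p 𝓕 ((S : Subgroup G) ⊓ (T : Subgroup G))) c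
      (fun i => (X i, x i)) hstep
    rw [h0, hl] at this
    exact this
  · intro h S T hne hint
    obtain ⟨n, c, w, h0, hl, hstep⟩ := fin_chain_of_reflTransGen _ (h S T hne hint)
    exact ⟨n, c, fun i => (w i).1, fun i => (w i).2, h0, hl, hstep⟩

theorem CtlChain.refl {p : ℕ} {𝓕 : Set (Subgroup G)} {D : Subgroup G} (R : Sylow p G) :
    CtlChain p 𝓕 D R R := Relation.ReflTransGen.refl

theorem CtlChain.trans {p : ℕ} {𝓕 : Set (Subgroup G)} {D : Subgroup G} {R₁ R₂ R₃ : Sylow p G}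
    (h₁ : CtlChain p 𝓕 D R₁ R₂) (h₂ : CtlChain p 𝓕 D R₂ R₃) : CtlChain p 𝓕 D R₁ R₃ :=
  Relation.ReflTransGen.trans h₁ h₂

theorem CtlChain.single {p : ℕ} {𝓕 : Set (Subgroup G)} {D : Subgroup G} {R R' : Sylow p G}
    {w : Subgroup G × G} (h : CtlStep p 𝓕 D R R' w) : CtlChain p 𝓕 D R R' :=
  Relation.ReflTransGen.single ⟨w, h⟩

theorem CtlChain.mono {p : ℕ} {𝓕 𝓕' : Set (Subgroup G)} {D D' : Subgroup G} {R R' : Sylow p G}
    (h : CtlChain p 𝓕 D R R') (h𝓕 : 𝓕 ⊆ 𝓕') (hD : D' ≤ D) : CtlChain p 𝓕' D' R R' := by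
  unfold CtlChain at *
  refine Relation.ReflTransGen.mono ?_ _ _ h
  rintro r r' ⟨w, h1, h2, h3, h4, h5⟩
  exact ⟨w, ⟨h𝓕 h1.1, h1.2⟩, ⟨h𝓕 h2.1, h2.2⟩, h3, h4, hD.trans h5⟩

end Step

end Cfsg.Agent.Lib.Helper55
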