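import Cfsg.Prelude.Def_SylowChains
import Cfsg.Agent.Lib.Helper55.SylCtl

set_option autoImplicit false
set_option linter.unusedSectionVars false

namespace Cfsg.Agent.Lib.Helper55

open Cfsg

section Defs

variable {G : Type*} [Group G]

/-- `R` is a Sylow `p`-subgroup of `M`, everything inside `G`, in terms of orders. -/
def SylIn (p : ℕ) (M R : Subgroup G) : Prop :=
  R ≤ M ∧ Nat.card ↥R = p ^ (Nat.card ↥M).factorization p

/-- One link of a chain of Sylow subgroups of `M`. -/
def RelStep (p : ℕ) (M : Subgroup G) (𝓕 : Set (Subgroup G)) (D R R' : Subgroup G)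
    (w : Subgroup G × G) : Prop :=
  SylIn p M R ∧ SylIn p M R' ∧ w.1 ∈ sylowMembers p 𝓕 R ∧ w.1 ∈ sylowMembers p 𝓕 R' ∧
    w.2 ∈ w.1 ∧ subgroupConjRight w.2 R' = R ∧ D ≤ R' ⊓ w.1

/-- Chains of links. -/
def RelChain (p : ℕ) (M : Subgroup G) (𝓕 : Set (Subgroup G)) (D R R' : Subgroup G) : Prop :=
  Relation.ReflTransGen (fun r r' => ∃ w, RelStep p M 𝓕 D r r' w) R R'

/-- Control of Sylow intersections in `M`, phrased inside `G`. -/
def RelControls (p : ℕ) (M : Subgroup G) (𝓕 : Set (Subgroup G)) : Prop :=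
  ∀ S T : Subgroup G, SylIn p M S → SylIn p M T → S ≠ T → S ⊓ T ≠ ⊥ →
    RelChain p M 𝓕 (S ⊓ T) S T

end Defs

section Transfer

variable {G H : Type*} [Group G] [Group H]

theorem map_conjR (φ : H →* G) (x : H) (R : Subgroup H) :
    (subgroupConjRight x R).map φ = subgroupConjRight (φ x) (R.map φ) := by
  unfold subgroupConjRight
  rw [Subgroup.map_map, Subgroup.map_map]
  congr 1
  ext y
  simp

variable [Finite G] [Finite H] {p : ℕ} [Fact p.Prime] {φ : H →* G}

theorem card_range_of_injective (hφ : Function.Injective φ) :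
    Nat.card ↥φ.range = Nat.card H :=
  (Nat.card_congr (MonoidHom.ofInjective hφ).toEquiv).symm

theorem sylIn_map (hφ : Function.Injective φ) (P : Sylow p H) :
    SylIn p φ.range ((P : Subgroup H).map φ) := by
  refine ⟨Subgroup.map_le_range _ _, ?_⟩
  rw [Subgroup.card_map_of_injective hφ, card_range_of_injective hφ]
  exact P.card_eq_multiplicity

theorem card_comap_of_le_range (hφ : Function.Injective φ) {X : Subgroup G} (hX : X ≤ φ.range) :
    Nat.card ↥(X.comap φ) = Nat.card ↥X := by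
  rw [← Subgroup.card_map_of_injective hφ, Subgroup.map_comap_eq_self hX]

theorem exists_sylow_of_sylIn (hφ : Function.Injective φ) {R : Subgroup G}
    (hR : SylIn p φ.range R) : ∃ P : Sylow p H, (P : Subgroup H).map φ = R := by
  have h1 : Nat.card ↥(R.comap φ) = p ^ (Nat.card H).factorization p := by
    rw [card_comap_of_le_range hφ hR.1, hR.2, card_range_of_injective hφ]
  exact ⟨Sylow.ofCard _ h1, by rw [Sylow.coe_ofCard]; exact Subgroup.map_comap_eq_self hR.1⟩

theorem map_inf_comap_of_le_range (hφ : Function.Injective φ) (R : Subgroup H) {X : Subgroup G}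
    (hX : X ≤ φ.range) : (R ⊓ X.comap φ).map φ = R.map φ ⊓ X := by
  rw [Subgroup.map_inf _ _ _ hφ, Subgroup.map_comap_eq_self hX]

theorem comap_mem_sylowMembers_iff (hφ : Function.Injective φ) {𝓕 : Set (Subgroup G)}
    {X : Subgroup G} (hX𝓕 : X ∈ 𝓕) (hX : X ≤ φ.range) (R : Subgroup H) :
    X.comap φ ∈ sylowMembers p ((fun X : Subgroup G => X.comap φ) '' 𝓕) R ↔
      X ∈ sylowMembers p 𝓕 (R.map φ) := by
  rw [mem_sylowMembers_iff, mem_sylowMembers_iff, card_comap_of_le_range hφ hX,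
    ← map_inf_comap_of_le_range hφ R hX, Subgroup.card_map_of_injective hφ]
  constructor
  · rintro ⟨-, h⟩; exact ⟨hX𝓕, h⟩
  · rintro ⟨-, h⟩; exact ⟨⟨X, hX𝓕, rfl⟩, h⟩

theorem relStep_of_ctlStep (hφ : Function.Injective φ) {𝓕 : Set (Subgroup G)}
    (h𝓕 : ∀ X ∈ 𝓕, X ≤ φ.range) {D : Subgroup H} {R R' : Sylow p H} {w : Subgroup H × H}
    (h : CtlStep p ((fun X : Subgroup G => X.comap φ) '' 𝓕) D R R' w) :
    ∃ w', RelStep p φ.range 𝓕 (D.map φ) ((R : Subgroup H).map φ) ((R' : Subgroup H).map φ) w' := by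
  obtain ⟨Y, x⟩ := w
  obtain ⟨h1, h2, h3, h4, h5⟩ := h
  simp only at h1 h2 h3 h4 h5
  obtain ⟨X, hX, rfl⟩ := h1.1
  refine ⟨(X, φ x), sylIn_map hφ R, sylIn_map hφ R', ?_, ?_, h3, ?_, ?_⟩
  · exact (comap_mem_sylowMembers_iff hφ hX (h𝓕 X hX) _).1 h1
  · exact (comap_mem_sylowMembers_iff hφ hX (h𝓕 X hX) _).1 h2
  · simp only
    rw [← map_conjR, h4]
  · simp only
    rw [← map_inf_comap_of_le_range hφ _ (h𝓕 X hX)]
    exact Subgroup.map_mono h5

theorem ctlStep_of_relStep (hφ : Function.Injective φ) {𝓕 : Set (Subgroup G)}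
    (h𝓕 : ∀ X ∈ 𝓕, X ≤ φ.range) {D : Subgroup H} {R : Sylow p H} {R₁ : Subgroup G}
    {w : Subgroup G × G}
    (h : RelStep p φ.range 𝓕 (D.map φ) ((R : Subgroup H).map φ) R₁ w) :
    ∃ (R' : Sylow p H) (w' : Subgroup H × H), (R' : Subgroup H).map φ = R₁ ∧
      CtlStep p ((fun X : Subgroup G => X.comap φ) '' 𝓕) D R R' w' := by
  obtain ⟨X, x⟩ := w
  obtain ⟨-, h0, h1, h2, h3, h4, h5⟩ := h
  simp only at h1 h2 h3 h4 h5
  obtain ⟨R', rfl⟩ := exists_sylow_of_sylIn hφ h0
  have hX := h1.1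
  obtain ⟨x, rfl⟩ := h𝓕 X hX h3
  refine ⟨R', (X.comap φ, x), rfl, ?_, ?_, h3, ?_, ?_⟩
  · exact (comap_mem_sylowMembers_iff hφ hX (h𝓕 X hX) _).2 h1
  · exact (comap_mem_sylowMembers_iff hφ hX (h𝓕 X hX) _).2 h2
  · simp only
    rw [← map_conjR] at h4
    exact Subgroup.map_injective hφ h4
  · simp only
    rw [← map_inf_comap_of_le_range hφ _ (h𝓕 X hX)] at h5
    exact (Subgroup.map_le_map_iff_of_injective hφ).1 h5

theorem controls_comap_iff (hφ : Function.Injective φ) {𝓕 : Set (Subgroup G)}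
    (h𝓕 : ∀ X ∈ 𝓕, X ≤ φ.range) :
    ControlsSylowIntersections p ((fun X : Subgroup G => X.comap φ) '' 𝓕) ↔
      RelControls p φ.range 𝓕 := by
  rw [controls_iff]
  constructor
  · intro h S T hS hT hne hint
    obtain ⟨S, rfl⟩ := exists_sylow_of_sylIn hφ hS
    obtain ⟨T, rfl⟩ := exists_sylow_of_sylIn hφ hT
    rw [← Subgroup.map_inf _ _ _ hφ] at hint ⊢
    have hch := h S T (fun h => hne (by rw [h]))
      (fun h => hint (by rw [h, Subgroup.map_bot]))
    generalize (S : Subgroup H) ⊓ T = D at hch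
    clear hS hT hne hint
    induction hch with
    | refl => exact Relation.ReflTransGen.refl
    | tail _ hbc ih =>
      obtain ⟨w, hw⟩ := hbc
      exact ih.tail (relStep_of_ctlStep hφ h𝓕 hw)
  · intro h S T hne hint
    have hch := h _ _ (sylIn_map hφ S) (sylIn_map hφ T)
      (fun h => hne (Sylow.ext (Subgroup.map_injective hφ h)))
      (by
        rw [← Subgroup.map_inf _ _ _ hφ]
        intro h
        exact hint ((Subgroup.map_eq_bot_iff_of_injective _ hφ).1 h))
    rw [← Subgroup.map_inf _ _ _ hφ] at hch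
    generalize (S : Subgroup H) ⊓ T = D at hch
    have key : ∀ R₁ : Subgroup G, RelChain p φ.range 𝓕 (D.map φ) ((S : Subgroup H).map φ) R₁ →
        ∃ R : Sylow p H, (R : Subgroup H).map φ = R₁ ∧
          CtlChain p ((fun X : Subgroup G => X.comap φ) '' 𝓕) D S R := by
      intro R₁ hR₁
      induction hR₁ with
      | refl => exact ⟨S, rfl, CtlChain.refl S⟩
      | tail _ hbc ih =>
        obtain ⟨R, rfl, hR⟩ := ih
        obtain ⟨w, hw⟩ := hbc
        obtain ⟨R', w', rfl, hw'⟩ := ctlStep_of_relStep hφ h𝓕 hw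
        exact ⟨R', rfl, hR.tail ⟨w', hw'⟩⟩
    obtain ⟨R, hR, hch'⟩ := key _ hch
    have : R = T := Sylow.ext (Subgroup.map_injective hφ hR)
    rwa [this] at hch'

end Transfer

section Apply

variable {G : Type*} [Group G] [Finite G] {p : ℕ} [Fact p.Prime]

theorem functorFamily_le {f : Subgroup G → Set (Subgroup G)} {M X : Subgroup G}
    (hX : X ∈ functorFamily p f M) : X ≤ M := by
  obtain ⟨P, F, -, rfl⟩ := hX
  exact inf_le_left

theorem regular_iff {f : Subgroup G → Set (Subgroup G)} {M : Subgroup G} :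
    IsFunctorRegular p f M ↔ RelControls p M (functorFamily p f M) := by
  have := controls_comap_iff (p := p) (φ := M.subtype) M.subtype_injective
    (𝓕 := functorFamily p f M) (fun X hX => by
      rw [Subgroup.range_subtype]; exact functorFamily_le hX)
  rw [Subgroup.range_subtype] at this
  exact this

theorem controls_iff_rel {𝓕 : Set (Subgroup G)} :
    ControlsSylowIntersections p 𝓕 ↔ RelControls p ⊤ 𝓕 := by
  have := controls_comap_iff (p := p) (φ := MonoidHom.id G) Function.injective_id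
    (𝓕 := 𝓕) (fun X _ => by rw [MonoidHom.range_eq_top_of_surjective _ Function.surjective_id]; exact le_top)
  rw [MonoidHom.range_eq_top_of_surjective _ Function.surjective_id] at this
  simpa [Subgroup.comap_id] using this

end Apply

end Cfsg.Agent.Lib.Helper55
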