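import Cfsg.Agent.Lib.Helper55.SylInApi

set_option autoImplicit false
set_option linter.unusedSectionVars false

namespace Cfsg.Agent.Lib.Helper55

open Cfsg

variable {G : Type*} [Group G] [Finite G] {p : ℕ} [Fact p.Prime]

theorem RelChain.mono {M : Subgroup G} {𝓕 𝓕' : Set (Subgroup G)} {D D' R R' : Subgroup G}
    (h : RelChain p M 𝓕 D R R') (h𝓕 : 𝓕 ⊆ 𝓕') (hD : D' ≤ D) : RelChain p M 𝓕' D' R R' := by
  unfold RelChain at *
  refine Relation.ReflTransGen.mono ?_ _ _ h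
  rintro r r' ⟨w, h0, h0', h1, h2, h3, h4, h5⟩
  exact ⟨w, h0, h0', ⟨h𝓕 h1.1, h1.2⟩, ⟨h𝓕 h2.1, h2.2⟩, h3, h4, hD.trans h5⟩

theorem RelChain.trans {M : Subgroup G} {𝓕 : Set (Subgroup G)} {D R₁ R₂ R₃ : Subgroup G}
    (h₁ : RelChain p M 𝓕 D R₁ R₂) (h₂ : RelChain p M 𝓕 D R₂ R₃) : RelChain p M 𝓕 D R₁ R₃ :=
  Relation.ReflTransGen.trans h₁ h₂

theorem RelChain.refl {M : Subgroup G} {𝓕 : Set (Subgroup G)} {D : Subgroup G} (R : Subgroup G) :
    RelChain p M 𝓕 D R R := Relation.ReflTransGen.refl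

theorem RelChain.single {M : Subgroup G} {𝓕 : Set (Subgroup G)} {D R R' : Subgroup G}
    {w : Subgroup G × G} (h : RelStep p M 𝓕 D R R' w) : RelChain p M 𝓕 D R R' :=
  Relation.ReflTransGen.single ⟨w, h⟩

theorem relStep_enlarge {f : Subgroup G → Set (Subgroup G)} (hf : IsNormalizerFunctor p f)
    {G₁ S₀ : Subgroup G} (hS₀ : SylIn p ⊤ S₀) (hS₀G₁ : S₀ ≤ G₁) {D R R' : Subgroup G}
    {w : Subgroup G × G} (h : RelStep p G₁ (functorFamily p f G₁) D R R' w) :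
    ∃ w', RelStep p ⊤ (functorFamily p f ⊤) D R R' w' := by
  obtain ⟨X, x⟩ := w
  obtain ⟨hR, hR', h1, h2, h3, h4, h5⟩ := h
  simp only at h1 h2 h3 h4 h5
  obtain ⟨P, hP, F, hF, rfl⟩ := mem_functorFamily_iff.1 h1.1
  have hPt : SylIn p ⊤ P := hS₀.trans_of_le hS₀G₁ le_top hP
  have hRt : SylIn p ⊤ R := hS₀.trans_of_le hS₀G₁ le_top hR
  have hRt' : SylIn p ⊤ R' := hS₀.trans_of_le hS₀G₁ le_top hR'
  have hPX : P ≤ G₁ ⊓ Subgroup.normalizer (F : Set G) :=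
    le_inf hP.1 (Subgroup.le_normalizer.trans ((hf P hP.isPGroup).1 F hF).2)
  have hRX := hR.le_of_card_inf hP hPX inf_le_left (mem_sylowMembers_iff.1 h1).2
  have hRX' := hR'.le_of_card_inf hP hPX inf_le_left (mem_sylowMembers_iff.1 h2).2
  have hmem : ⊤ ⊓ Subgroup.normalizer (F : Set G) ∈ functorFamily p f ⊤ :=
    mem_functorFamily_iff.2 ⟨P, hPt, F, hF, rfl⟩
  refine ⟨(⊤ ⊓ Subgroup.normalizer (F : Set G), x), hRt, hRt', ?_, ?_, ⟨trivial, h3.2⟩, h4, ?_⟩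
  · exact mem_sylowMembers_iff.2 ⟨hmem, hRt.card_inf_of_le
      (le_inf le_top (hRX.trans inf_le_right)) le_top⟩
  · exact mem_sylowMembers_iff.2 ⟨hmem, hRt'.card_inf_of_le
      (le_inf le_top (hRX'.trans inf_le_right)) le_top⟩
  · exact le_inf (h5.trans inf_le_left) (le_inf le_top ((h5.trans inf_le_right).trans inf_le_right))

theorem relChain_enlarge {f : Subgroup G → Set (Subgroup G)} (hf : IsNormalizerFunctor p f)
    {G₁ S₀ : Subgroup G} (hS₀ : SylIn p ⊤ S₀) (hS₀G₁ : S₀ ≤ G₁) {D R R' : Subgroup G}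
    (h : RelChain p G₁ (functorFamily p f G₁) D R R') :
    RelChain p ⊤ (functorFamily p f ⊤) D R R' := by
  unfold RelChain at *
  refine Relation.ReflTransGen.mono ?_ _ _ h
  rintro r r' ⟨w, hw⟩
  exact relStep_enlarge hf hS₀ hS₀G₁ hw

theorem relStep_conj {𝓕 : Set (Subgroup G)} (h𝓕 : IsNormalSet 𝓕) {D R R' : Subgroup G}
    {w : Subgroup G × G} (h : RelStep p ⊤ 𝓕 D R R' w) (g : G) :
    RelStep p ⊤ 𝓕 (subgroupConjRight g D) (subgroupConjRight g R) (subgroupConjRight g R')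
      (subgroupConjRight g w.1, g⁻¹ * w.2 * g) := by
  obtain ⟨X, x⟩ := w
  obtain ⟨hR, hR', h1, h2, h3, h4, h5⟩ := h
  simp only at h1 h2 h3 h4 h5
  refine ⟨by simpa using hR.conjR g, by simpa using hR'.conjR g,
    conjR_mem_sylowMembers h𝓕 h1 g, conjR_mem_sylowMembers h𝓕 h2 g, conjR_mem_conjR h3, ?_, ?_⟩
  · simp only
    rw [conjR_conjR, ← h4, conjR_conjR]
    congr 1
    group
  · simp only
    rw [← conjR_inf]
    exact conjR_mono g h5

theorem relChain_conj {𝓕 : Set (Subgroup G)} (h𝓕 : IsNormalSet 𝓕) {D R R' : Subgroup G}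
    (h : RelChain p ⊤ 𝓕 D R R') (g : G) :
    RelChain p ⊤ 𝓕 (subgroupConjRight g D) (subgroupConjRight g R) (subgroupConjRight g R') := by
  unfold RelChain at *
  refine Relation.ReflTransGen.lift (subgroupConjRight g) ?_ _ _ h
  rintro r r' ⟨w, hw⟩
  exact ⟨_, relStep_conj h𝓕 hw g⟩

end Cfsg.Agent.Lib.Helper55
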