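import Cfsg.Agent.Lib.Helper55.RelCtl2

set_option autoImplicit false
set_option linter.unusedSectionVars false

namespace Cfsg.Agent.Lib.Helper55

open Cfsg

variable {G : Type*} [Group G] [Finite G] {p : ℕ} [Fact p.Prime]

theorem exists_maximalPLocal_ge {L : Subgroup G} (hL : IsPLocal p L) :
    ∃ M, IsMaximalPLocal p M ∧ L ≤ M := by
  obtain ⟨M, ⟨hM1, hM2⟩, hmax⟩ := (wellFounded_gt (α := Subgroup G)).has_min
    {N | IsPLocal p N ∧ L ≤ N} ⟨L, hL, le_rfl⟩
  refine ⟨M, ⟨hM1, fun N hN hMN => ?_⟩, hM2⟩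
  by_contra hne
  exact hmax N ⟨hN, hM2.trans hMN⟩ (lt_of_le_of_ne hMN (fun h => hne h.symm))

theorem card_lt_of_lt' {A B : Subgroup G} (h : A < B) : Nat.card ↥A < Nat.card ↥B := by
  refine lt_of_le_of_ne (Subgroup.card_le_of_le h.le) fun he => ?_
  exact h.ne (Subgroup.eq_of_le_of_card_ge h.le he.ge)

/-- A link through a member `M` in which both ends induce Sylow subgroups. -/
theorem relStep_of_mem {𝓔 : Set (Subgroup G)} {M Q' R' D : Subgroup G} {x : G} (hM : M ∈ 𝓔)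
    (hQ' : SylIn p M Q') (hR' : SylIn p ⊤ R') (hQR' : Q' ≤ R') (hx : x ∈ M) (hD : D ≤ Q') :
    RelStep p ⊤ 𝓔 D (subgroupConjRight x R') R' (M, x) := by
  have hRx : SylIn p ⊤ (subgroupConjRight x R') := by simpa using hR'.conjR x
  have hQx : SylIn p M (subgroupConjRight x Q') := hQ'.conjR_of_mem hx
  refine ⟨hRx, hR', ?_, ?_, hx, rfl, ?_⟩
  · refine mem_sylowMembers_iff.2 ⟨hM, ?_⟩
    simp only
    rw [hQx.inf_eq hRx.isPGroup (conjR_mono x hQR')]
    exact hQx.2
  · refine mem_sylowMembers_iff.2 ⟨hM, ?_⟩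
    simp only
    rw [hQ'.inf_eq hR'.isPGroup hQR']
    exact hQ'.2
  · simp only
    rw [hQ'.inf_eq hR'.isPGroup hQR']
    exact hD

theorem factorization_lt_of_pgroup {M M' d E : Subgroup G} (hd : SylIn p M d) (hE : IsPGroup p ↥E)
    (hdE : d < E) (hEM' : E ≤ M') :
    (Nat.card ↥M).factorization p < (Nat.card ↥M').factorization p := by
  have hp : p.Prime := Fact.out
  obtain ⟨k, hk⟩ := IsPGroup.iff_card.1 hE
  have h1 := card_lt_of_lt' hdE
  rw [hd.2, hk] at h1
  have h2 : (Nat.card ↥M).factorization p < k := (Nat.pow_lt_pow_iff_right hp.one_lt).1 h1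
  have h3 : p ^ k ∣ Nat.card ↥M' := hk ▸ Subgroup.card_dvd_of_le hEM'
  exact lt_of_lt_of_le h2 ((hp.pow_dvd_iff_le_factorization Nat.card_pos.ne').1 h3)

theorem factorization_le_card (M : Subgroup G) :
    (Nat.card ↥M).factorization p ≤ (Nat.card G).factorization p :=
  (Nat.factorization_le_iff_dvd Nat.card_pos.ne' Nat.card_pos.ne').2 (Subgroup.card_subgroup_dvd_card M) p

/-- The inner induction. -/
theorem inner_induction {f : Subgroup G → Set (Subgroup G)} (hf : IsNormalizerFunctor p f)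
    (hf1 : ∀ P : Subgroup G, IsPGroup p ↥P → P ≠ ⊥ → ∀ F ∈ f P, F ≠ ⊥)
    {𝓔 : Set (Subgroup G)} (h𝓔1 : functorFamily p f ⊤ ⊆ 𝓔)
    (h𝓔2 : ∀ M, IsMaximalPLocal p M → ¬ IsFunctorRegular p f M → M ∈ 𝓔)
    {D : Subgroup G} (hD : D ≠ ⊥)
    (big : ∀ R R' E : Subgroup G, SylIn p ⊤ R → SylIn p ⊤ R' → D < E → E ≤ R → E ≤ R' →
      RelChain p ⊤ 𝓔 D R R') :
    ∀ (k : ℕ) (M : Subgroup G), IsMaximalPLocal p M →
      (Nat.card G).factorization p - (Nat.card ↥M).factorization p = k →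
      ∀ R R' : Subgroup G, SylIn p ⊤ R → SylIn p ⊤ R' → D < R ⊓ M → D < R' ⊓ M →
        RelChain p ⊤ 𝓔 D R R' := by
  intro k
  induction k using Nat.strong_induction_on with
  | _ k ihk =>
  intro M hM hk
  -- reduction to the case where both ends induce Sylow subgroups of `M`
  suffices hmain : ∀ R R' Q Q' : Subgroup G, SylIn p ⊤ R → SylIn p ⊤ R' → SylIn p M Q →
      SylIn p M Q' → Q ≤ R → Q' ≤ R' → D < Q → D < Q' → RelChain p ⊤ 𝓔 D R R' by
    intro R R' hR hR' hDR hDR'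
    obtain ⟨Q, hQ, hQ1⟩ := exists_sylIn_ge (hR.isPGroup.to_le inf_le_left)
      (inf_le_right : R ⊓ M ≤ M)
    obtain ⟨R₁, hR₁, hQR₁⟩ := exists_sylIn_ge hQ.isPGroup (le_top : Q ≤ ⊤)
    obtain ⟨Q', hQ', hQ1'⟩ := exists_sylIn_ge (hR'.isPGroup.to_le inf_le_left)
      (inf_le_right : R' ⊓ M ≤ M)
    obtain ⟨R₁', hR₁', hQR₁'⟩ := exists_sylIn_ge hQ'.isPGroup (le_top : Q' ≤ ⊤)
    have c1 := big R R₁ _ hR hR₁ hDR inf_le_left (hQ1.trans hQR₁)
    have c3 := big R₁' R' _ hR₁' hR' hDR' (hQ1'.trans hQR₁') inf_le_left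
    have c2 := hmain R₁ R₁' Q Q' hR₁ hR₁' hQ hQ' hQR₁ hQR₁' (lt_of_lt_of_le hDR hQ1)
      (lt_of_lt_of_le hDR' hQ1')
    exact (c1.trans c2).trans c3
  intro R R' Q Q' hR hR' hQ hQ' hQR hQR' hDQ hDQ'
  by_cases hreg : IsFunctorRegular p f M
  · -- regular case
    rw [regular_iff] at hreg
    by_cases hQQ : Q = Q'
    · exact big R R' Q hR hR' hDQ hQR (hQQ ▸ hQR')
    have hDle : D ≤ Q ⊓ Q' := le_inf hDQ.le hDQ'.le
    have hch := hreg Q Q' hQ hQ' hQQ (fun h => hD (le_bot_iff.1 (h ▸ hDle)))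
    generalize Q ⊓ Q' = D₀ at hch hDle
    have key : ∀ d : Subgroup G, RelChain p M (functorFamily p f M) D₀ Q d →
        D ≤ d ∧ ∀ R₁ : Subgroup G, SylIn p ⊤ R₁ → d ≤ R₁ → RelChain p ⊤ 𝓔 D R R₁ := by
      intro d hd
      induction hd with
      | refl => exact ⟨hDQ.le, fun R₁ hR₁ hle => big R R₁ Q hR hR₁ hDQ hQR hle⟩
      | @tail d d' _ hbc ih =>
        obtain ⟨hDd, ih⟩ := ih
        obtain ⟨⟨X, x⟩, hd, hd', h1, h2, h3, h4, h5⟩ := hbc
        simp only at h1 h2 h3 h4 h5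
        have hDd' : D ≤ d' := (hDle.trans h5).trans inf_le_left
        refine ⟨hDd', fun R₂ hR₂ hle => ?_⟩
        have hR₂x : SylIn p ⊤ (subgroupConjRight x R₂) := by simpa using hR₂.conjR x
        have hdx : d ≤ subgroupConjRight x R₂ := h4 ▸ conjR_mono x hle
        refine (ih _ hR₂x hdx).trans ?_
        obtain ⟨P, hP, F, hF, rfl⟩ := mem_functorFamily_iff.1 h1.1
        have hPX : P ≤ M ⊓ Subgroup.normalizer (F : Set G) :=
          le_inf hP.1 (Subgroup.le_normalizer.trans ((hf P hP.isPGroup).1 F hF).2)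
        have hdX := hd.le_of_card_inf hP hPX inf_le_left (mem_sylowMembers_iff.1 h1).2
        have hdX' := hd'.le_of_card_inf hP hPX inf_le_left (mem_sylowMembers_iff.1 h2).2
        obtain ⟨t, ht, htP⟩ := (hd'.of_le hdX' inf_le_left).exists_conj (hP.of_le hPX inf_le_left)
        have hFd' : F ∈ f d' := by
          have := functor_conjR hf hP.isPGroup hF t
          rwa [htP, conjR_eq_of_mem_normalizer ht.2] at this
        have hd'ne : d' ≠ ⊥ := fun h => hD (le_bot_iff.1 (h ▸ hDd'))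
        have hFne : F ≠ ⊥ := hf1 d' hd'.isPGroup hd'ne F hFd'
        have hFp : IsPGroup p ↥F := hd'.isPGroup.to_le ((hf d' hd'.isPGroup).1 F hFd').1
        have hcardD : Nat.card ↥D < Nat.card ↥d' := by
          rw [hd'.2, ← hQ.2]; exact card_lt_of_lt' hDQ
        have hDltd' : D < d' := lt_of_le_of_ne hDd' (fun h => by rw [h] at hcardD; exact lt_irrefl _ hcardD)
        have hcardD2 : Nat.card ↥D < Nat.card ↥d := by
          rw [hd.2, ← hQ.2]; exact card_lt_of_lt' hDQ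
        have hDltd : D < d := lt_of_le_of_ne hDd (fun h => by rw [h] at hcardD2; exact lt_irrefl _ hcardD2)
        by_cases hdR : d' = R₂
        · -- `d'` is a Sylow subgroup of `G`
          subst hdR
          have hmem : ⊤ ⊓ Subgroup.normalizer (F : Set G) ∈ 𝓔 :=
            h𝓔1 (mem_functorFamily_iff.2 ⟨d', hR₂, F, hFd', rfl⟩)
          refine RelChain.single (w := (⊤ ⊓ Subgroup.normalizer (F : Set G), x))
            ⟨hR₂x, hR₂, ?_, ?_, ⟨trivial, h3.2⟩, rfl, ?_⟩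
          · refine mem_sylowMembers_iff.2 ⟨hmem, hR₂x.card_inf_of_le ?_ le_top⟩
            rw [h4]
            exact le_inf le_top (hdX.trans inf_le_right)
          · exact mem_sylowMembers_iff.2 ⟨hmem, hR₂.card_inf_of_le
              (le_inf le_top (hdX'.trans inf_le_right)) le_top⟩
          · exact le_inf hDd' (le_inf le_top ((hDd'.trans hdX').trans inf_le_right))
        · have hlt : d' < R₂ := lt_of_le_of_ne hle hdR
          have hgrow := lt_inf_normalizer hR₂.isPGroup hlt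
          obtain ⟨M', hM', hLM'⟩ := exists_maximalPLocal_ge (p := p)
            (L := Subgroup.normalizer (F : Set G)) ⟨F, hFp, hFne, rfl⟩
          have hNle : Subgroup.normalizer (d' : Set G) ≤ M' :=
            ((hf d' hd'.isPGroup).1 F hFd').2.trans hLM'
          have hfac := factorization_lt_of_pgroup hd' (hR₂.isPGroup.to_le inf_le_left) hgrow
            (inf_le_right.trans hNle)
          have hfac2 := factorization_le_card (p := p) M'
          refine ihk _ (by omega) M' hM' rfl _ _ hR₂x hR₂ ?_ ?_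
          · exact lt_of_lt_of_le hDltd (le_inf hdx ((hdX.trans inf_le_right).trans hLM'))
          · exact lt_of_lt_of_le hDltd' (le_inf hle ((hdX'.trans inf_le_right).trans hLM'))
    exact (key Q' hch).2 R' hR' hQR'
  · -- singular case
    obtain ⟨x, hx, hxQ⟩ := hQ.exists_conj hQ'
    have hRx : SylIn p ⊤ (subgroupConjRight x R') := by simpa using hR'.conjR x
    have c1 := big R _ Q hR hRx hDQ hQR (hxQ ▸ conjR_mono x hQR')
    exact c1.trans (RelChain.single (relStep_of_mem (h𝓔2 M hM hreg) hQ' hR' hQR' hx hDQ'.le))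

/-- The outer induction. -/
theorem outer_induction {f : Subgroup G → Set (Subgroup G)} (hf : IsNormalizerFunctor p f)
    (hf1 : ∀ P : Subgroup G, IsPGroup p ↥P → P ≠ ⊥ → ∀ F ∈ f P, F ≠ ⊥)
    {𝓔 : Set (Subgroup G)} (h𝓔1 : functorFamily p f ⊤ ⊆ 𝓔)
    (h𝓔2 : ∀ M, IsMaximalPLocal p M → ¬ IsFunctorRegular p f M → M ∈ 𝓔) :
    ∀ (n : ℕ) (D : Subgroup G), Nat.card G - Nat.card ↥D = n → D ≠ ⊥ →
      ∀ R R' : Subgroup G, SylIn p ⊤ R → SylIn p ⊤ R' → D ≤ R → D ≤ R' →
        RelChain p ⊤ 𝓔 D R R' := by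
  intro n
  induction n using Nat.strong_induction_on with
  | _ n ihn =>
  intro D hn hD R R' hR hR' hDR hDR'
  have big : ∀ R R' E : Subgroup G, SylIn p ⊤ R → SylIn p ⊤ R' → D < E → E ≤ R → E ≤ R' →
      RelChain p ⊤ 𝓔 D R R' := by
    intro R R' E hR hR' hDE hER hER'
    have h1 := card_lt_of_lt' hDE
    have h2 : Nat.card ↥E ≤ Nat.card G := Subgroup.card_le_card_group E
    have hE : E ≠ ⊥ := fun h => by
      rw [h] at hDE
      exact not_lt_bot hDE
    exact (ihn _ (by omega) E rfl hE R R' hR hR' hER hER').mono subset_rfl hDE.le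
  by_cases hDeq : D = R
  · have : R = R' := Subgroup.eq_of_le_of_card_ge (hDeq ▸ hDR') (by rw [hR.2, hR'.2])
    rw [this]
    exact RelChain.refl _
  have hlt : D < R := lt_of_le_of_ne hDR hDeq
  have hlt' : D < R' := by
    refine lt_of_le_of_ne hDR' fun h => ?_
    have h1 := card_lt_of_lt' hlt
    rw [h, hR.2, hR'.2] at h1
    exact lt_irrefl _ h1
  obtain ⟨M, hM, hNM⟩ := exists_maximalPLocal_ge (p := p)
    (L := Subgroup.normalizer (D : Set G)) ⟨D, hR.isPGroup.to_le hDR, hD, rfl⟩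
  exact inner_induction hf hf1 h𝓔1 h𝓔2 hD big _ M hM rfl R R' hR hR'
    (lt_of_lt_of_le (lt_inf_normalizer hR.isPGroup hlt) (inf_le_inf_left _ hNM))
    (lt_of_lt_of_le (lt_inf_normalizer hR'.isPGroup hlt') (inf_le_inf_left _ hNM))

end Cfsg.Agent.Lib.Helper55
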