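import Mathlib.GroupTheory.Sylow
import Mathlib.GroupTheory.Commutator.Basic
import Cfsg.Agent.Lib.Helper55.CharP

set_option autoImplicit false

namespace Cfsg.Agent.Lib.Helper55

open scoped commutatorElement

/-- If the `p`-group `J` normalizes `K`, every `p'`-element of `K ⊔ J` lies in `K`. -/
theorem mem_of_mem_sup_of_coprime {G : Type*} [Group G] {p : ℕ} {K J : Subgroup G}
    (hJK : J ≤ Subgroup.normalizer (K : Set G)) (hJ : IsPGroup p ↥J) {y : G} (hy : y ∈ K ⊔ J)
    (hcop : (orderOf y).Coprime p) : y ∈ K := by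
  have hle : K ⊔ J ≤ Subgroup.normalizer (K : Set G) := sup_le Subgroup.le_normalizer hJK
  let N := Subgroup.normalizer (K : Set G)
  let π := QuotientGroup.mk' (K.subgroupOf N)
  have h1 : ((K ⊔ J).subgroupOf N).map π = (J.subgroupOf N).map π := by
    rw [Subgroup.subgroupOf_sup Subgroup.le_normalizer hJK, Subgroup.map_sup]
    have : (K.subgroupOf N).map π = ⊥ := by
      rw [Subgroup.map_eq_bot_iff, QuotientGroup.ker_mk']
    rw [this, bot_sup_eq]
  have h2 : IsPGroup p ↥((J.subgroupOf N).map π) := (hJ.comap_subtype).map π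
  have h3 : π ⟨y, hle hy⟩ ∈ (J.subgroupOf N).map π := by
    rw [← h1]
    exact Subgroup.mem_map_of_mem _ (Subgroup.mem_subgroupOf.2 hy)
  obtain ⟨k, hk⟩ := h2 ⟨_, h3⟩
  have hk' : (π ⟨y, hle hy⟩) ^ (p ^ k) = 1 := by simpa using congrArg Subtype.val hk
  have h4 : (π ⟨y, hle hy⟩) ^ (orderOf y) = 1 := by
    rw [← map_pow]
    have : (⟨y, hle hy⟩ : ↥N) ^ orderOf y = 1 := Subtype.ext (by simp [pow_orderOf_eq_one])
    rw [this, map_one]
  have h5 := eq_one_of_pow_of_coprime hk' h4 hcop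
  have h6 : (⟨y, hle hy⟩ : ↥N) ∈ K.subgroupOf N := by
    rw [← QuotientGroup.ker_mk' (K.subgroupOf N)]
    exact h5
  exact Subgroup.mem_subgroupOf.1 h6

/-- `[K, J] ≤ K` means that `J` normalizes `K`. -/
theorem le_normalizer_of_commutator_le {G : Type*} [Group G] {K J : Subgroup G}
    (h : ⁅K, J⁆ ≤ K) : J ≤ Subgroup.normalizer (K : Set G) := by
  rw [Subgroup.le_normalizer_iff]
  intro j hj k hk
  have h1 : ⁅k⁻¹, j⁆ ∈ K := h (Subgroup.commutator_mem_commutator (K.inv_mem hk) hj)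
  have h2 : j * k * j⁻¹ = k * ⁅k⁻¹, j⁆ := by
    rw [commutatorElement_def]; group
  rw [h2]
  exact K.mul_mem hk h1

end Cfsg.Agent.Lib.Helper55
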