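import Mathlib.GroupTheory.Nilpotent
import Cfsg.Agent.Lib.Helper55.RelCtl

set_option autoImplicit false
set_option linter.unusedSectionVars false

namespace Cfsg.Agent.Lib.Helper55

open Cfsg

variable {G : Type*} [Group G] [Finite G] {p : ℕ} [Fact p.Prime]

theorem sylIn_iff_exists {M R : Subgroup G} :
    SylIn p M R ↔ ∃ P : Sylow p ↥M, (P : Subgroup ↥M).map M.subtype = R :=
  exists_sylow_map_eq_iff.symm

theorem SylIn.isPGroup {M R : Subgroup G} (h : SylIn p M R) : IsPGroup p ↥R :=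
  IsPGroup.of_card h.2

theorem sylIn_top_coe (S : Sylow p G) : SylIn p ⊤ (S : Subgroup G) :=
  ⟨le_top, by rw [Subgroup.card_top]; exact S.card_eq_multiplicity⟩

theorem SylIn.exists_sylow {R : Subgroup G} (h : SylIn p ⊤ R) :
    ∃ S : Sylow p G, (S : Subgroup G) = R :=
  ⟨Sylow.ofCard R (by rw [h.2, Subgroup.card_top]), rfl⟩

theorem SylIn.conjR {M R : Subgroup G} (h : SylIn p M R) (g : G) :
    SylIn p (subgroupConjRight g M) (subgroupConjRight g R) :=
  ⟨conjR_mono g h.1, by rw [card_conjR, card_conjR]; exact h.2⟩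

theorem SylIn.conjR_of_mem {M R : Subgroup G} (h : SylIn p M R) {g : G} (hg : g ∈ M) :
    SylIn p M (subgroupConjRight g R) := by
  have := h.conjR g
  rwa [conjR_eq_self_of_mem hg] at this

theorem exists_sylIn_ge {M Q : Subgroup G} (hQ : IsPGroup p ↥Q) (hQM : Q ≤ M) :
    ∃ R, SylIn p M R ∧ Q ≤ R := by
  obtain ⟨P, hP⟩ := (hQ.comap_of_injective M.subtype M.subtype_injective).exists_le_sylow
  refine ⟨(P : Subgroup ↥M).map M.subtype, sylIn_iff_exists.2 ⟨P, rfl⟩, ?_⟩
  have := Subgroup.map_mono (f := M.subtype) hP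
  rwa [show (Q.comap M.subtype).map M.subtype = Q from Subgroup.map_subgroupOf_eq_of_le hQM] at this

theorem SylIn.exists_conj {M R R' : Subgroup G} (h : SylIn p M R) (h' : SylIn p M R') :
    ∃ x ∈ M, subgroupConjRight x R' = R := by
  obtain ⟨P, rfl⟩ := sylIn_iff_exists.1 h
  obtain ⟨P', rfl⟩ := sylIn_iff_exists.1 h'
  obtain ⟨g, hg⟩ := exists_sylConjR_eq P' P
  refine ⟨g, g.2, ?_⟩
  have := map_conjR M.subtype g (P' : Subgroup ↥M)
  rw [Subgroup.coe_subtype] at this
  rw [← this, hg]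
  rfl

theorem SylIn.factorization_eq {M X P : Subgroup G} (h : SylIn p M P) (hPX : P ≤ X) (hXM : X ≤ M) :
    (Nat.card ↥X).factorization p = (Nat.card ↥M).factorization p := by
  have hp : p.Prime := Fact.out
  apply le_antisymm
  · exact (Nat.factorization_le_iff_dvd Nat.card_pos.ne' Nat.card_pos.ne').2
      (Subgroup.card_dvd_of_le hXM) p
  · have h1 : p ^ (Nat.card ↥M).factorization p ∣ Nat.card ↥X := by
      rw [← h.2]; exact Subgroup.card_dvd_of_le hPX
    exact (hp.pow_dvd_iff_le_factorization Nat.card_pos.ne').1 h1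

theorem SylIn.of_le {M X P : Subgroup G} (h : SylIn p M P) (hPX : P ≤ X) (hXM : X ≤ M) :
    SylIn p X P := ⟨hPX, by rw [h.2, h.factorization_eq hPX hXM]⟩

theorem SylIn.trans_of_le {M X P R : Subgroup G} (h : SylIn p M P) (hPX : P ≤ X) (hXM : X ≤ M)
    (hR : SylIn p X R) : SylIn p M R :=
  ⟨hR.1.trans hXM, by rw [hR.2, h.factorization_eq hPX hXM]⟩

theorem SylIn.eq_of_le {M R Q : Subgroup G} (h : SylIn p M R) (hQ : IsPGroup p ↥Q) (hQM : Q ≤ M)
    (hRQ : R ≤ Q) : Q = R := by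
  obtain ⟨R', hR', hQR'⟩ := exists_sylIn_ge hQ hQM
  have : R = R' := Subgroup.eq_of_le_of_card_ge (hRQ.trans hQR') (by rw [h.2, hR'.2])
  exact le_antisymm (this ▸ hQR') hRQ

theorem SylIn.le_of_card_inf {M R P X : Subgroup G} (hR : SylIn p M R) (hP : SylIn p M P)
    (hPX : P ≤ X) (hXM : X ≤ M)
    (hc : Nat.card ↥(R ⊓ X) = p ^ (Nat.card ↥X).factorization p) : R ≤ X := by
  rw [hP.factorization_eq hPX hXM, ← hR.2] at hc
  have : R ⊓ X = R := Subgroup.eq_of_le_of_card_ge inf_le_left hc.ge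
  exact this ▸ inf_le_right

theorem SylIn.card_inf_of_le {M R X : Subgroup G} (hR : SylIn p M R) (hRX : R ≤ X) (hXM : X ≤ M) :
    Nat.card ↥(R ⊓ X) = p ^ (Nat.card ↥X).factorization p := by
  rw [inf_of_le_left hRX]
  exact (hR.of_le hRX hXM).2

/-- Intersecting with `M` a Sylow subgroup of `G` that contains a Sylow subgroup of `M`. -/
theorem SylIn.inf_eq {M Q R : Subgroup G} (hQ : SylIn p M Q) (hR : IsPGroup p ↥R) (hQR : Q ≤ R) :
    R ⊓ M = Q :=
  hQ.eq_of_le (hR.to_le inf_le_left) inf_le_right (le_inf hQR hQ.1)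

theorem conjR_normalizer (g : G) (F : Subgroup G) :
    subgroupConjRight g (Subgroup.normalizer (F : Set G)) =
      Subgroup.normalizer ((subgroupConjRight g F : Subgroup G) : Set G) :=
  Subgroup.map_equiv_normalizer_eq F (MulAut.conj g⁻¹)

theorem mem_functorFamily_iff {f : Subgroup G → Set (Subgroup G)} {M X : Subgroup G} :
    X ∈ functorFamily p f M ↔
      ∃ P, SylIn p M P ∧ ∃ F ∈ f P, X = M ⊓ Subgroup.normalizer (F : Set G) := by
  constructor
  · rintro ⟨P, F, hF, rfl⟩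
    exact ⟨_, sylIn_iff_exists.2 ⟨P, rfl⟩, F, hF, rfl⟩
  · rintro ⟨P, hP, F, hF, rfl⟩
    obtain ⟨P, rfl⟩ := sylIn_iff_exists.1 hP
    exact ⟨P, F, hF, rfl⟩

theorem functor_conjR {f : Subgroup G → Set (Subgroup G)} (hf : IsNormalizerFunctor p f)
    {P F : Subgroup G} (hP : IsPGroup p ↥P) (hF : F ∈ f P) (g : G) :
    subgroupConjRight g F ∈ f (subgroupConjRight g P) := by
  unfold subgroupConjRight
  rw [(hf P hP).2 g⁻¹]
  exact ⟨F, hF, rfl⟩

theorem functorFamily_conjR {f : Subgroup G → Set (Subgroup G)} (hf : IsNormalizerFunctor p f)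
    {M X : Subgroup G} (hX : X ∈ functorFamily p f M) (g : G) :
    subgroupConjRight g X ∈ functorFamily p f (subgroupConjRight g M) := by
  rw [mem_functorFamily_iff] at hX ⊢
  obtain ⟨P, hP, F, hF, rfl⟩ := hX
  exact ⟨_, hP.conjR g, _, functor_conjR hf hP.isPGroup hF g, by
    rw [conjR_inf, conjR_normalizer]⟩

@[simp] theorem conjR_top (g : G) : subgroupConjRight g (⊤ : Subgroup G) = ⊤ := by
  ext x
  simp [mem_conjR]

theorem functorFamily_top_normal {f : Subgroup G → Set (Subgroup G)}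
    (hf : IsNormalizerFunctor p f) : IsNormalSet (functorFamily p f ⊤) := by
  intro X hX g
  have := functorFamily_conjR hf hX g
  rwa [conjR_top] at this

/-- Normalizers grow in `p`-groups. -/
theorem lt_inf_normalizer {D R : Subgroup G} (hR : IsPGroup p ↥R) (hDR : D < R) :
    D < R ⊓ Subgroup.normalizer (D : Set G) := by
  have hnil : Group.IsNilpotent ↥R := hR.isNilpotent
  have hlt : D.subgroupOf R < ⊤ := by
    rw [lt_top_iff_ne_top]
    intro htop
    exact hDR.ne (le_antisymm hDR.le (Subgroup.subgroupOf_eq_top.mp htop))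
  obtain ⟨n, hn1, hn2⟩ := SetLike.exists_of_lt
    ((Group.normalizerCondition_of_isNilpotent (G := ↥R)) (D.subgroupOf R) hlt)
  rw [← Subgroup.subgroupOf_normalizer_eq hDR.le, Subgroup.mem_subgroupOf] at hn1
  refine lt_of_le_of_ne (le_inf hDR.le Subgroup.le_normalizer) ?_
  intro h
  apply hn2
  rw [Subgroup.mem_subgroupOf, h]
  exact ⟨n.2, hn1⟩

end Cfsg.Agent.Lib.Helper55
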